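import Cfsg.Agent.Lib.H04.Col.Gen

/-!
# Generic tools for centralizers of products of root elements
-/

set_option autoImplicit false
set_option linter.style.longLine false
set_option linter.unusedSimpArgs false
set_option linter.unusedSectionVars false
set_option linter.unusedVariables false

open Cfsg.Lie Cfsg.Agent.H04.Chev Cfsg.Agent.H04.Long

namespace Cfsg.Agent.H04.Col

variable {D : ChevalleyDatum} {T : Tabs} {U : Tabs3}
variable (C : Checks D T) (C2 : Checks2 D T) (C3 : Checks3 D T U)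
variable {F : Type*} [Field F]

include C2 C3 in
/-- the factorisation of the monomial elements with a prescribed behaviour -/
theorem N_factor' {Z : Subgroup (GL D.Idx F)} {J : ℕ → Prop} {Φ : Equiv.Perm (Fin D.nroots) → Prop}
    (hZn : ∀ i, i < D.rank → J i → nG C (D.simple i) (1 : F) ∈ Z)
    (hneg : ∀ w ∈ WW C, Φ w → ∀ i (hi : i < D.rank), (w ⟨D.simple i, C.simple_lt i hi⟩).1 < D.nroots / 2 → J i)
    (hstep : ∀ w ∈ WW C, Φ w → ∀ i, i < D.rank → J i → Φ (w * wPn C i)) :
    ∀ k, ∀ w ∈ WW C, invP w = k → Φ w → ∀ n ∈ D.monomialSubgroup F, ∀ (π π' : ℕ → ℕ) (d : ℕ → Fˣ), NAct C n π π' d →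
      (∀ s : Fin D.nroots, ((w s : Fin D.nroots) : ℕ) = π s) → ∃ h ∈ D.diagonalSubgroup F, ∃ z ∈ Z, n = h * z := by
  intro k
  induction k using Nat.strong_induction_on with
  | _ k ih =>
    intro w hw hk hΦ n hn π π' d ha hπ
    by_cases hall : ∀ i, ∀ hi : i < D.rank, D.nroots / 2 ≤ (w ⟨D.simple i, C.simple_lt i hi⟩).1
    · refine ⟨n, mem_H_of_pos C C2 C3 hn ha ?_, 1, one_mem _, (mul_one n).symm⟩
      intro s h0 h1
      rw [← hπ ⟨s, h1⟩]
      exact pos_of_simple_pos C C2 C3 hw hall ⟨s, h1⟩ h0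
    · push Not at hall
      obtain ⟨i, hi, hneg'⟩ := hall
      have hJ := hneg w hw hΦ i hi hneg'
      have hlen := invP_right_neg C C2 C3 hi hw hneg'
      have hmem : wPn C i ∈ WW C := Subgroup.subset_closure ⟨i, hi, rfl⟩
      have a' := ha.mul (NAct_simple (F := F) C hi)
      obtain ⟨h, hh, z, hz, e⟩ := ih _ (by omega) (w * wPn C i) (mul_mem hw hmem) rfl (hstep w hw hΦ i hi hJ) (n * nG C (D.simple i) 1)
        (mul_mem hn (nG_mem_monomial C (C.simple_lt i hi))) _ _ _ a' (by
          intro s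
          rw [Equiv.Perm.mul_apply, hπ]
          simp only [Function.comp]
          rw [wPn_apply C hi])
      refine ⟨h, hh, z * (nG C (D.simple i) 1)⁻¹, mul_mem hz (inv_mem (hZn i hi hJ)), ?_⟩
      rw [← mul_assoc, ← e]
      group

include C3 in
omit C2 in
lemma tv_capply_list (c : ℕ → Fˣ) {r : ℕ} (hr : r < D.nroots) :
    tv U D (capply D c) r = ((List.range D.rank).map fun i => c i ^ D.cartan i r).prod := by
  unfold capply
  have e : ∀ L : List ℕ, (∀ i ∈ L, i < D.rank) → tv U D ((L.map fun i => psiI D i (c i)).prod) r = (L.map fun i => c i ^ D.cartan i r).prod := by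
    intro L hL
    induction L with
    | nil => exact tv_one r
    | cons a as ih =>
      rw [List.map_cons, List.map_cons, List.prod_cons, List.prod_cons, tv_mul, ih (fun i hi => hL i (List.mem_cons_of_mem _ hi)),
        tv_psiI C3 (hL a List.mem_cons_self) hr]
  exact e _ (fun i hi => List.mem_range.mp hi)

include C3 in
omit C2 in
lemma hProd_mem' {Z : Subgroup (GL D.Idx F)} {J : ℕ → Prop} (hZn : ∀ i, i < D.rank → J i → ∀ t : F, nG C (D.simple i) t ∈ Z)
    {c : ℕ → Fˣ} (hc : ∀ i, i < D.rank → ¬ J i → c i = 1) : hProd U D c ∈ Z := by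
  rw [hProd_eq C C3]
  apply Subgroup.list_prod_mem
  intro g hg
  obtain ⟨i, hi, rfl⟩ := List.mem_map.mp hg
  have hi' := List.mem_range.mp hi
  by_cases e : J i
  · rw [hG_eq]
    exact mul_mem (hZn i hi' e _) (hZn i hi' e _)
  · rw [hc i hi' e, Units.val_one, hG_one C (C.simple_lt i hi')]
    exact one_mem _

/-- a word with given coefficients -/
noncomputable def WL (L : List ℕ) (a : ℕ → F) : GL D.Idx F := wordG C (L.map fun s => (s, a s))

omit C2 C3 in
lemma WL_cons (s : ℕ) (L : List ℕ) (a : ℕ → F) : WL C (s :: L) a = xG C s (a s) * WL C L a := by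
  simp [WL, wordG_cons]

omit C2 C3 in
lemma comm_WL {s : ℕ} {L : List ℕ} (h : ∀ s' ∈ L, ∀ t t' : F, xG C s t * xG C s' t' = xG C s' t' * xG C s t) (t : F) (a : ℕ → F) :
    xG C s t * WL C L a = WL C L a * xG C s t := by
  induction L with
  | nil => simp [WL]
  | cons b L ih =>
    rw [WL_cons, ← mul_assoc, h b (by simp), mul_assoc, ih (fun s' hs' => h s' (List.mem_cons_of_mem _ hs')), mul_assoc]

omit C2 C3 in
lemma WL_mul (L : List ℕ) (h : ∀ s ∈ L, ∀ s' ∈ L, ∀ t t' : F, xG C s t * xG C s' t' = xG C s' t' * xG C s t) (a b : ℕ → F) :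
    WL C L a * WL C L b = WL C L (fun s => a s + b s) := by
  induction L with
  | nil => simp [WL]
  | cons s L ih =>
    simp only [WL_cons]
    have h1 := comm_WL C (s := s) (L := L) (fun s' hs' => h s (by simp) s' (List.mem_cons_of_mem _ hs')) (b s) a
    calc xG C s (a s) * WL C L a * (xG C s (b s) * WL C L b) = xG C s (a s) * (WL C L a * xG C s (b s)) * WL C L b := by group
      _ = xG C s (a s) * (xG C s (b s) * WL C L a) * WL C L b := by rw [h1]
      _ = (xG C s (a s) * xG C s (b s)) * (WL C L a * WL C L b) := by group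
      _ = _ := by rw [xG_add, ih (fun p hp q hq => h p (List.mem_cons_of_mem _ hp) q (List.mem_cons_of_mem _ hq))]

omit C2 C3 in
lemma conj_WL {n : GL D.Idx F} {π π' : ℕ → ℕ} {d : ℕ → Fˣ} (ha : NAct C n π π' d) (L : List ℕ) (hL : ∀ s ∈ L, s < D.nroots) (a : ℕ → F) :
    n * WL C L a * n⁻¹ = wordG C (L.map fun s => (π s, (d s : F) * a s)) := by
  induction L with
  | nil => simp [WL]
  | cons s L ih =>
    rw [WL_cons, List.map_cons, wordG_cons]
    simp only
    rw [← ha.conj s (hL s (by simp)) (a s), ← ih (fun s' hs' => hL s' (List.mem_cons_of_mem _ hs'))]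
    group

omit C2 C3 in
lemma word_mem {G : Subgroup (GL D.Idx F)} (w : List (ℕ × F)) (h : ∀ p ∈ w, xG C p.1 p.2 ∈ G) : wordG C w ∈ G := by
  induction w with
  | nil => simp [one_mem]
  | cons p w ih =>
    rw [wordG_cons]
    exact mul_mem (h p (by simp)) (ih fun q hq => h q (List.mem_cons_of_mem _ hq))

omit C3 in
include C2 in
/-- the grading argument: the coefficients going up under a monomial element vanish -/
theorem qgrade {ℓ : ℕ → ℤ} (hg : Graded D T ℓ) {n : GL D.Idx F} {π π' : ℕ → ℕ} {d : ℕ → Fˣ} (ha : NAct C n π π' d) (L : List ℕ)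
    (hL : ∀ s ∈ L, s < D.nroots) (hc : ∀ s ∈ L, ∀ s' ∈ L, ∀ t t' : F, xG C s t * xG C s' t' = xG C s' t' * xG C s t) (a : ℕ → F)
    (hB : n * WL C L a * n⁻¹ ∈ BorL D (fun c => - ℓ c) F) :
    WL C L (fun s => if 0 < ℓ (π s) then a s else 0) = 1 := by
  have hg' := hg.neg
  have hsum : (fun s => (if 0 < ℓ (π s) then a s else 0) + (if 0 < ℓ (π s) then 0 else a s)) = a := by
    funext s
    by_cases h : 0 < ℓ (π s) <;> simp [h]
  have hU : n * WL C L (fun s => if 0 < ℓ (π s) then a s else 0) * n⁻¹ ∈ UniL D ℓ F := by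
    rw [conj_WL C ha L hL]
    apply word_mem
    intro p hp
    obtain ⟨s, hs, rfl⟩ := List.mem_map.mp hp
    by_cases h : 0 < ℓ (π s)
    · exact xG_mem_UniL C hg (ha.lt s (hL s hs)) h _
    · simp only [if_neg h, mul_zero, xG_zero]
      exact one_mem _
  have hD : n * WL C L (fun s => if 0 < ℓ (π s) then 0 else a s) * n⁻¹ ∈ BorL D (fun c => - ℓ c) F := by
    rw [conj_WL C ha L hL]
    apply word_mem
    intro p hp
    obtain ⟨s, hs, rfl⟩ := List.mem_map.mp hp
    by_cases h : 0 < ℓ (π s)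
    · simp only [if_pos h, mul_zero, xG_zero]
      exact one_mem _
    · exact xG_mem_BorL C hg' (ha.lt s (hL s hs)) (by show 0 ≤ - ℓ (π s); omega) _
  have hE : n * WL C L (fun s => if 0 < ℓ (π s) then a s else 0) * n⁻¹ ∈ BorL D (fun c => - ℓ c) F := by
    have e0 := WL_mul C L hc (fun s => if 0 < ℓ (π s) then a s else 0) (fun s => if 0 < ℓ (π s) then 0 else a s)
    rw [hsum] at e0
    have e : n * WL C L (fun s => if 0 < ℓ (π s) then a s else 0) * n⁻¹ = (n * WL C L a * n⁻¹) * (n * WL C L (fun s => if 0 < ℓ (π s) then 0 else a s) * n⁻¹)⁻¹ := by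
      rw [← e0]
      group
    rw [e]
    exact mul_mem hB (inv_mem hD)
  have h2 := eq_one_of_Uni_Bor (ℓ := ℓ) (ℓ' := fun c => - ℓ c) (fun _ => rfl) hU hE
  have e : WL C L (fun s => if 0 < ℓ (π s) then a s else 0) = n⁻¹ * (n * WL C L (fun s => if 0 < ℓ (π s) then a s else 0) * n⁻¹) * n := by group
  rw [e, h2]
  group

end Cfsg.Agent.H04.Col
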