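import Cfsg.Agent.Lib.H04.Chev.GL

/-!
# A verified collector for products of root elements in characteristic two
-/

set_option autoImplicit false
set_option linter.style.longLine false
set_option linter.unusedSimpArgs false
set_option linter.unusedSectionVars false
set_option linter.unusedVariables false

open Cfsg.Lie Cfsg.Agent.H04.Chev

namespace Cfsg.Agent.H04.Col

abbrev Mon := List ℕ
abbrev Pol := List Mon
abbrev WP := List (ℕ × Pol)

section Ev
variable {F : Type*} [CommRing F] (ρ : ℕ → F)

def evM (m : Mon) : F := (m.map ρ).prod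
def evP (p : Pol) : F := (p.map (evM ρ)).sum

@[simp] lemma evM_nil : evM ρ [] = 1 := rfl
@[simp] lemma evM_cons (a : ℕ) (m : Mon) : evM ρ (a :: m) = ρ a * evM ρ m := by simp [evM]
@[simp] lemma evP_nil : evP ρ [] = 0 := rfl
@[simp] lemma evP_cons (a : Mon) (p : Pol) : evP ρ (a :: p) = evM ρ a + evP ρ p := by simp [evP]

lemma evM_append (a b : Mon) : evM ρ (a ++ b) = evM ρ a * evM ρ b := by simp [evM]
lemma evP_append (a b : Pol) : evP ρ (a ++ b) = evP ρ a + evP ρ b := by simp [evP]
end Ev

def mulP (p q : Pol) : Pol := p.flatMap fun a => q.map fun b => a ++ b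

def powP (p : Pol) : ℕ → Pol
  | 0 => [[]]
  | n + 1 => mulP p (powP p n)

section Ev2
variable {F : Type*} [CommRing F] (ρ : ℕ → F)

lemma evP_map_append (a : Mon) (q : Pol) : evP ρ (q.map fun b => a ++ b) = evM ρ a * evP ρ q := by
  induction q with
  | nil => simp
  | cons b q ih =>
    rw [List.map_cons, evP_cons, evP_cons, ih, evM_append]
    ring

lemma evP_mulP (p q : Pol) : evP ρ (mulP p q) = evP ρ p * evP ρ q := by
  induction p with
  | nil => simp [mulP]
  | cons a p ih =>
    have : mulP (a :: p) q = (q.map fun b => a ++ b) ++ mulP p q := by simp [mulP]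
    rw [this, evP_append, evP_map_append, ih, evP_cons]
    ring

lemma evP_powP (p : Pol) (n : ℕ) : evP ρ (powP p n) = evP ρ p ^ n := by
  induction n with
  | zero => simp [powP]
  | succ n ih => rw [powP, evP_mulP, ih]; ring
end Ev2

def insN (a : ℕ) : Mon → Mon
  | [] => [a]
  | b :: l => if a ≤ b then a :: b :: l else b :: insN a l

def sortM : Mon → Mon
  | [] => []
  | a :: l => insN a (sortM l)

def monLE : Mon → Mon → Bool
  | [], _ => true
  | _ :: _, [] => false
  | a :: l, b :: m => if a < b then true else if a = b then monLE l m else false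

def insM (a : Mon) : Pol → Pol
  | [] => [a]
  | b :: l => if monLE a b then a :: b :: l else b :: insM a l

def sortP : Pol → Pol
  | [] => []
  | a :: l => insM a (sortP l)

def cancelP : Pol → Pol
  | [] => []
  | [a] => [a]
  | a :: b :: l => if a = b then cancelP l else a :: cancelP (b :: l)

def canon (p : Pol) : Pol := cancelP (sortP (p.map sortM))

section Ev3
variable {F : Type*} [CommRing F] (ρ : ℕ → F)

lemma evM_insN (a : ℕ) (l : Mon) : evM ρ (insN a l) = ρ a * evM ρ l := by
  induction l with
  | nil => simp [insN]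
  | cons b l ih =>
    unfold insN
    split_ifs
    · simp
    · rw [evM_cons, ih, evM_cons]; ring

lemma evM_sortM (l : Mon) : evM ρ (sortM l) = evM ρ l := by
  induction l with
  | nil => rfl
  | cons a l ih => rw [sortM, evM_insN, ih, evM_cons]

lemma evP_insM (a : Mon) (l : Pol) : evP ρ (insM a l) = evM ρ a + evP ρ l := by
  induction l with
  | nil => simp [insM]
  | cons b l ih =>
    unfold insM
    split_ifs
    · simp
    · rw [evP_cons, ih, evP_cons]; ring

lemma evP_sortP (l : Pol) : evP ρ (sortP l) = evP ρ l := by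
  induction l with
  | nil => rfl
  | cons a l ih => rw [sortP, evP_insM, ih, evP_cons]

lemma evP_map_sortM (l : Pol) : evP ρ (l.map sortM) = evP ρ l := by
  induction l with
  | nil => rfl
  | cons a l ih => rw [List.map_cons, evP_cons, ih, evM_sortM, evP_cons]

lemma evP_cancelP [CharP F 2] (l : Pol) : evP ρ (cancelP l) = evP ρ l := by
  induction l using cancelP.induct with
  | case1 => rfl
  | case2 a => rfl
  | case3 a l ih =>
    rw [cancelP, if_pos rfl, ih, evP_cons, evP_cons, ← add_assoc, CharTwo.add_self_eq_zero, zero_add]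
  | case4 a b l h ih =>
    rw [cancelP, if_neg h, evP_cons, ih, evP_cons ρ a]

lemma evP_canon [CharP F 2] (p : Pol) : evP ρ (canon p) = evP ρ p := by
  rw [canon, evP_cancelP, evP_sortP, evP_map_sortM]
end Ev3

/-- the commutator terms -/
def cmP (tab : ℕ → ℕ → List (ℕ × ℤ × ℕ × ℕ)) (r s : ℕ) (t u : Pol) : WP :=
  (tab r s).map fun c => (c.1, if c.2.1 % 2 = 0 then [] else mulP (powP t c.2.2.1) (powP u c.2.2.2))

/-- collection, with fuel -/
def coll (n : ℕ) (tab : ℕ → ℕ → List (ℕ × ℤ × ℕ × ℕ)) : ℕ → WP → WP
  | 0, l => l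
  | _ + 1, [] => []
  | f + 1, a :: l =>
    match coll n tab f l with
    | [] => [a]
    | b :: l' =>
      if a.1 < b.1 then a :: b :: l'
      else if a.1 = b.1 then (b.1, b.2 ++ a.2) :: l'
      else if a.1 < n ∧ b.1 + a.1 + 1 ≠ n then b :: coll n tab f (a :: cmP tab b.1 a.1 b.2 a.2 ++ l')
      else a :: b :: l'

def nfW (n : ℕ) (tab : ℕ → ℕ → List (ℕ × ℤ × ℕ × ℕ)) (f : ℕ) (w : WP) : List (ℕ × Pol) :=
  (coll n tab f w).filterMap fun p =>
    match canon p.2 with
    | [] => none
    | c => some (p.1, c)

section Main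
variable {D : ChevalleyDatum} {T : Tabs} (C : Checks D T)
variable {F : Type*} [Field F] (ρ : ℕ → F)

/-- the value of a word -/
noncomputable def evW (w : WP) : GL D.Idx F := wordG C (w.map fun p => (p.1, evP ρ p.2))

omit [Field F] in
lemma evW_aux : True := trivial

@[simp] lemma evW_nil : evW C ρ [] = 1 := rfl
lemma evW_cons (p : ℕ × Pol) (w : WP) : evW C ρ (p :: w) = xG C p.1 (evP ρ p.2) * evW C ρ w := by
  simp [evW]
lemma evW_append (a b : WP) : evW C ρ (a ++ b) = evW C ρ a * evW C ρ b := by
  simp [evW, wordG_append]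

variable [CharP F 2]

lemma intCast_two (z : ℤ) : ((z : F)) = if z % 2 = 0 then 0 else 1 := by
  split_ifs with h
  · rw [CharP.intCast_eq_zero_iff F 2]
    exact Int.dvd_of_emod_eq_zero h
  · have h1 : z % 2 = 1 := by omega
    have h2 : ((z - 1 : ℤ) : F) = 0 := by
      rw [CharP.intCast_eq_zero_iff F 2]
      exact Int.dvd_of_emod_eq_zero (by omega)
    have h3 : (z : F) - 1 = 0 := by simpa using h2
    exact sub_eq_zero.mp h3

variable {tab : ℕ → ℕ → List (ℕ × ℤ × ℕ × ℕ)}

lemma cmP_ev {r s : ℕ} (hrs : tab r s = D.commTerms r s) (t u : Pol) :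
    evW C ρ (cmP tab r s t u) = wordG C (D.commWord F r s (evP ρ t) (evP ρ u)) := by
  unfold evW cmP Cfsg.Lie.ChevalleyDatum.commWord
  rw [hrs, List.map_map]
  congr 1
  apply List.map_congr_left
  intro c _
  simp only [Function.comp]
  congr 1
  rw [intCast_two, CharTwo.neg_eq]
  split_ifs with h
  · simp
  · rw [evP_mulP, evP_powP, evP_powP]
    ring

theorem coll_ev (htab : ∀ r s, r < D.nroots → s < D.nroots → tab r s = D.commTerms r s) (f : ℕ) (l : WP) :
    evW C ρ (coll D.nroots tab f l) = evW C ρ l := by
  induction f generalizing l with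
  | zero => rfl
  | succ f ih =>
    cases l with
    | nil => rfl
    | cons a l =>
      rw [coll]
      have h0 := ih l
      cases hR : coll D.nroots tab f l with
      | nil =>
        rw [hR] at h0
        simp only
        rw [evW_cons, evW_cons C ρ a l, ← h0]
      | cons b l' =>
        rw [hR] at h0
        simp only
        split_ifs with h1 h2 h3
        · rw [evW_cons C ρ a (b :: l'), evW_cons C ρ a l, h0]
        · rw [evW_cons, evW_cons C ρ a l, ← h0, evW_cons C ρ b l']
          simp only
          rw [← mul_assoc, h2, xG_add, evP_append, add_comm]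
        · rw [evW_cons, ih, evW_append, evW_cons C ρ a (cmP _ _ _ _ _), cmP_ev C ρ (htab _ _ (by omega) h3.1), evW_cons C ρ a l, ← h0, evW_cons C ρ b l']
          have hc := xG_comm C (r := b.1) (s := a.1) (by omega) h3.1 h2 (by
            intro e
            have h4 := h3.2
            unfold negF at e
            simp only [Nat.sub_eq] at e
            omega) (evP ρ b.2) (evP ρ a.2)
          rw [show xG C a.1 (evP ρ a.2) * (xG C b.1 (evP ρ b.2) * evW C ρ l') = (xG C a.1 (evP ρ a.2) * xG C b.1 (evP ρ b.2)) * evW C ρ l' from (mul_assoc _ _ _).symm, hc]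
          simp only [mul_assoc]
        · rw [evW_cons C ρ a (b :: l'), evW_cons C ρ a l, h0]

lemma filter_ev (w : WP) :
    evW C ρ (w.filterMap fun p => match canon p.2 with
      | [] => none
      | c => some (p.1, c)) = evW C ρ w := by
  induction w with
  | nil => rfl
  | cons p w ih =>
    rw [List.filterMap_cons]
    cases hc : canon p.2 with
    | nil =>
      simp only
      rw [ih, evW_cons]
      have : evP ρ p.2 = 0 := by
        rw [← evP_canon ρ p.2, hc]
        rfl
      rw [this, xG_zero, one_mul]
    | cons a l =>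
      simp only
      rw [evW_cons, ih, evW_cons]
      rw [← hc, evP_canon]

theorem word_eq (htab : ∀ r s, r < D.nroots → s < D.nroots → tab r s = D.commTerms r s) (f : ℕ) {w₁ w₂ : WP}
    (h : nfW D.nroots tab f w₁ = nfW D.nroots tab f w₂) : evW C ρ w₁ = evW C ρ w₂ := by
  have e1 := filter_ev C ρ (coll D.nroots tab f w₁)
  have e2 := filter_ev C ρ (coll D.nroots tab f w₂)
  rw [coll_ev C ρ htab] at e1 e2
  rw [← e1, ← e2]
  exact congrArg _ h

end Main

end Cfsg.Agent.H04.Col
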