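import Cfsg.Agent.Lib.H04.Col.D4Raw

/-!
# The involutions of `³D₄(q)`, `q` even
-/

set_option autoImplicit false
set_option linter.style.longLine false
set_option linter.unusedSimpArgs false
set_option linter.unusedSectionVars false
set_option linter.unusedVariables false
set_option maxRecDepth 100000

open Cfsg.Lie Cfsg.Agent.H04.Chev Cfsg.Agent.H04.Long Cfsg.Agent.H04.Tw
open Cfsg.Agent.H04.Chev.TD4 Cfsg.Agent.H04.Tw.TD4

namespace Cfsg.Agent.H04.Col.D4

variable {K : Type*} [Field K]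

/-- the data of the field automorphism -/
structure TF (f : K ≃+* K) (q : ℕ) : Prop where
  hf : ∀ t, f t = t ^ q
  hff : ∀ t, f (f (f t)) = t
  htr : ∃ θ, θ + f θ + f (f θ) = 1

section Field
variable [CharP K 2] {f : K ≃+* K} {q : ℕ} (H : TF f q)

include H in
lemma hilbert {x : K} (h : x + f x + f (f x) = 0) : ∃ a, x = a + f a := by
  obtain ⟨θ, hθ⟩ := H.htr
  refine ⟨x * f θ + (x + f x) * f (f θ), ?_⟩
  simp only [map_add, map_mul, H.hff]
  have h2 : (2 : K) = 0 := CharTwo.two_eq_zero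
  linear_combination (-θ) * h - x * hθ + (x * θ - f x * f (f θ)) * h2

include H in
lemma tr_surj {y : K} (hy : f y = y) : ∃ d, y = d + (f d + f (f d)) := by
  obtain ⟨θ, hθ⟩ := H.htr
  refine ⟨θ * y, ?_⟩
  simp only [map_mul, hy]
  linear_combination (-y) * hθ

lemma sq_inj {a b : K} (h : a * a = b * b) : a = b := by
  have h1 : (a + b) * (a + b) = 0 := by
    have h2 : (2 : K) = 0 := CharTwo.two_eq_zero
    have : (a + b) * (a + b) = a * a + b * b + 2 * (a * b) := by ring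
    rw [this, h2, h, CharTwo.add_self_eq_zero]
    ring
  have h3 : a + b = 0 := mul_self_eq_zero.mp h1
  exact CharTwo.add_eq_zero.mp h3

variable [Fintype K]

lemma exists_sq (x : K) : ∃ y : K, y * y = x := by
  have h : Function.Surjective (frobenius K 2) :=
    Finite.surjective_of_injective (frobenius K 2).injective
  obtain ⟨y, hy⟩ := h x
  exact ⟨y, by rw [← hy, frobenius_def, sq]⟩

lemma sqrt_fix {x : K} (hx : f x = x) : ∃ e : K, e * e = x ∧ f e = e := by
  obtain ⟨e, he⟩ := exists_sq x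
  refine ⟨e, he, sq_inj ?_⟩
  rw [← map_mul, he, hx]

end Field

section Words
variable [CharP K 2] {f : K ≃+* K} {q : ℕ} (H : TF f q)

/-- the first class -/
noncomputable def Aw (t : K) (f : K ≃+* K) : GL chevD4.Idx K := xG checks 18 t * xG checks 13 (f t) * xG checks 12 (f (f t))

include H in
lemma gsh' : GSH checks twT f 2 Js rho (twistedD4 K q) := gsh H.hf H.hff

include H in
lemma mem_x14 {e : K} (he : f e = e) : xG checks 14 e ∈ twistedD4 K q := by
  have h := (gsh' H).pos 0 (by decide) (fun _ => e) (fun i _ => he.symm)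
  rw [xI0] at h
  simpa [d4p2] using h

include H in
lemma mem_AA (t t1 t2 : K) (h1 : t1 = f t) (h2 : t2 = f (f t)) : xG checks 18 t * xG checks 13 t1 * xG checks 12 t2 ∈ twistedD4 K q := by
  subst h1 h2
  have hst : ∀ i ∈ Js 1, pc3 t (f t) (f (f t)) (rho i) = f (pc3 t (f t) (f (f t)) i) := by
    intro i hi
    simp only [show Js 1 = [0, 2, 3] from rfl, List.mem_cons, List.not_mem_nil, or_false] at hi
    rcases hi with rfl | rfl | rfl
    · simp [pc3, show rho 0 = 2 from rfl]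
    · simp [pc3, show rho 2 = 3 from rfl]
    · simp [pc3, show rho 3 = 0 from rfl, H.hff]
  have h := (gsh' H).pos 1 (by decide) _ hst
  rw [xI1] at h
  simpa [pc3, d4p1, d4p3, d4p4, mul_assoc] using h

/-- the elements of the Weyl group -/
noncomputable def na : GL chevD4.Idx K := nWordG checks K (Js 1)
noncomputable def nb : GL chevD4.Idx K := nWordG checks K (Js 0)

include H in
lemma na_mem : (na : GL chevD4.Idx K) ∈ twistedD4 K q :=
  nWordG_mem_GS checks checks2 checks3 twT f jT (gsh' H) (j := 1) (by decide)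
include H in
lemma nb_mem : (nb : GL chevD4.Idx K) ∈ twistedD4 K q :=
  nWordG_mem_GS checks checks2 checks3 twT f jT (gsh' H) (j := 0) (by decide)

lemma nW_x (l : List ℕ) (hl : ∀ i ∈ l, i < chevD4.rank) {s : ℕ} (hs : s < chevD4.nroots) (t : K) :
    nWordG checks K l * xG checks s t * (nWordG checks K l)⁻¹ = xG checks (applyW chevD4 T l s) t := by
  induction l with
  | nil =>
    have : nWordG checks K [] = 1 := rfl
    rw [this]
    simp [applyW]
  | cons a l ih =>
    rw [nWordG_cons]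
    have h1 := ih (fun i hi => hl i (List.mem_cons_of_mem _ hi))
    have h2 : nG checks (chevD4.simple a) (1 : K) * nWordG checks K l * xG checks s t * (nG checks (chevD4.simple a) (1 : K) * nWordG checks K l)⁻¹ =
        nG checks (chevD4.simple a) (1 : K) * (nWordG checks K l * xG checks s t * (nWordG checks K l)⁻¹) * (nG checks (chevD4.simple a) (1 : K))⁻¹ := by group
    rw [h2, h1, nconj checks (hl a List.mem_cons_self) (applyW_lt checks (fun i hi => hl i (List.mem_cons_of_mem _ hi)) hs)]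
    rfl

lemma nb_x {s : ℕ} (hs : s < 24) (t : K) : nb * xG checks s t * nb⁻¹ = xG checks (applyW chevD4 T (Js 0) s) t :=
  nW_x _ (by decide) hs t
lemma na_x {s : ℕ} (hs : s < 24) (t : K) : na * xG checks s t * na⁻¹ = xG checks (applyW chevD4 T (Js 1) s) t :=
  nW_x _ (by decide) hs t

theorem tb : applyW chevD4 T (Js 0) 15 = 12 ∧ applyW chevD4 T (Js 0) 19 = 18 ∧ applyW chevD4 T (Js 0) 16 = 13 ∧ applyW chevD4 T (Js 0) 17 = 17 ∧ applyW chevD4 T (Js 0) 20 = 20 ∧ applyW chevD4 T (Js 0) 21 = 21 ∧ applyW chevD4 T (Js 0) 22 = 23 ∧ applyW chevD4 T (Js 0) 23 = 22 ∧ applyW chevD4 T (Js 0) 18 = 19 ∧ applyW chevD4 T (Js 0) 13 = 16 ∧ applyW chevD4 T (Js 0) 12 = 15 := by decide +kernel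
theorem ta : applyW chevD4 T (Js 1) 14 = 22 ∧ applyW chevD4 T (Js 1) 17 = 19 ∧ applyW chevD4 T (Js 1) 20 = 16 ∧ applyW chevD4 T (Js 1) 21 = 15 ∧ applyW chevD4 T (Js 1) 22 = 14 ∧ applyW chevD4 T (Js 1) 23 = 23 ∧ applyW chevD4 T (Js 1) 15 = 21 ∧ applyW chevD4 T (Js 1) 19 = 17 ∧ applyW chevD4 T (Js 1) 16 = 20 := by decide +kernel

lemma conj_mul {g a b : GL chevD4.Idx K} : g * (a * b) * g⁻¹ = (g * a * g⁻¹) * (g * b * g⁻¹) := by group

include H in
lemma mem_X3 (b b1 b2 : K) (h1 : b1 = f b) (h2 : b2 = f (f b)) : xG checks 15 b * xG checks 19 b1 * xG checks 16 b2 ∈ twistedD4 K q := by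
  subst h1 h2
  have h0 := mem_AA H (f b) (f (f b)) b rfl (H.hff b).symm
  have h3 := mul_mem (mul_mem (nb_mem H) h0) (inv_mem (nb_mem H))
  have e : nb * (xG checks 18 (f b) * xG checks 13 (f (f b)) * xG checks 12 b) * nb⁻¹ = xG checks 19 (f b) * xG checks 16 (f (f b)) * xG checks 15 b := by
    rw [conj_mul, conj_mul, nb_x (by decide), nb_x (by decide), nb_x (by decide), tb.2.2.2.2.2.2.2.2.1, tb.2.2.2.2.2.2.2.2.2.1, tb.2.2.2.2.2.2.2.2.2.2]
  rw [e] at h3
  have e2 : xG checks 19 (f b) * xG checks 16 (f (f b)) * xG checks 15 b = xG checks 15 b * xG checks 19 (f b) * xG checks 16 (f (f b)) := by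
    rw [show xG checks 19 (f b) * xG checks 16 (f (f b)) * xG checks 15 b = (xG checks 19 (f b) * xG checks 16 (f (f b)) * xG checks 15 b) from rfl, R3]
    simp [Q, mul_assoc]
  rwa [e2] at h3

include H in
lemma mem_X4 (c c1 c2 : K) (h1 : c1 = f c) (h2 : c2 = f (f c)) : xG checks 17 c * xG checks 20 c1 * xG checks 21 c2 ∈ twistedD4 K q := by
  subst h1 h2
  have h0 := mem_X3 H (f (f c)) c (f c) (H.hff c).symm (H.hff (f c)).symm
  have h3 := mul_mem (mul_mem (na_mem H) h0) (inv_mem (na_mem H))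
  have e : na * (xG checks 15 (f (f c)) * xG checks 19 c * xG checks 16 (f c)) * na⁻¹ = xG checks 21 (f (f c)) * xG checks 17 c * xG checks 20 (f c) := by
    rw [conj_mul, conj_mul, na_x (by decide), na_x (by decide), na_x (by decide), ta.2.2.2.2.2.2.1, ta.2.2.2.2.2.2.2.1, ta.2.2.2.2.2.2.2.2]
  rw [e] at h3
  have e2 : xG checks 21 (f (f c)) * xG checks 17 c * xG checks 20 (f c) = xG checks 17 c * xG checks 20 (f c) * xG checks 21 (f (f c)) := by
    rw [R4]
    simp [Q, mul_assoc]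
  rwa [e2] at h3

include H in
lemma mem_x22 {e : K} (he : f e = e) : xG checks 22 e ∈ twistedD4 K q := by
  have h3 := mul_mem (mul_mem (na_mem H) (mem_x14 H he)) (inv_mem (na_mem H))
  rwa [na_x (by decide), ta.1] at h3

/-- the two targets -/
noncomputable def Z0 : GL chevD4.Idx K := xG checks 23 1
noncomputable def A1 : GL chevD4.Idx K := xG checks 18 1 * xG checks 13 1 * xG checks 12 1

/-- the target of the classification -/
def CT (q : ℕ) (g y : GL chevD4.Idx K) : Prop := ∃ h ∈ twistedD4 K q, h * g * h⁻¹ = y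
def Good (q : ℕ) (g : GL chevD4.Idx K) : Prop := CT q g Z0 ∨ CT q g A1

lemma Good_n {g g' n : GL chevD4.Idx K} (hn : n ∈ twistedD4 K q) (e : n * g * n⁻¹ = g') (h : Good q g') : Good q g := by
  subst e
  rcases h with ⟨b, hb, e⟩ | ⟨b, hb, e⟩
  · refine Or.inl ⟨b * n, mul_mem hb hn, ?_⟩
    rw [← e]
    group
  · refine Or.inr ⟨b * n, mul_mem hb hn, ?_⟩
    rw [← e]
    group

lemma I_n {g n : GL chevD4.Idx K} (hI : g * g = 1) : (n * g * n⁻¹) * (n * g * n⁻¹) = 1 := by
  have : (n * g * n⁻¹) * (n * g * n⁻¹) = n * (g * g) * n⁻¹ := by group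
  rw [this, hI]
  group

lemma inv_of {a : GL chevD4.Idx K} (h : a * a = 1) : a⁻¹ = a := inv_eq_of_mul_eq_one_left h

lemma Good_step {g a g' : GL chevD4.Idx K} (ha : a ∈ twistedD4 K q) (haa : a * a = 1) (e : a * g * a = g') (h : Good q g') : Good q g :=
  Good_n ha (by rw [inv_of haa]; exact e) h

lemma Good_stepI {g a g' : GL chevD4.Idx K} (ha : a ∈ twistedD4 K q) (haa : a * a = 1) (e : a * g * a = g') (hI : g * g = 1) (h : g' * g' = 1 → Good q g') : Good q g := by
  refine Good_step ha haa e (h ?_)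
  rw [← e]
  have := I_n (n := a) hI
  rwa [inv_of haa] at this

lemma hI0 (c : K) : hI checks (Js 0) (fun _ => c) = hG checks (chevD4.simple 1) c := by
  simp [hI, show Js 0 = [1] from rfl]

include H in
/-- scaling the top root element -/
lemma L23 {z : K} (hz : z ≠ 0) (hfz : f z = z) : Good q (xG checks 23 z) := by
  have hm : hI checks (Js 0) (fun _ => z⁻¹) ∈ twistedD4 K q :=
    hI_mem checks checks2 checks3 twT f jT (gsh' H) (j := 0) (by decide) (fun i _ => by rw [map_inv₀, hfz])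
  rw [hI0] at hm
  refine Or.inl ⟨_, hm, ?_⟩
  rw [AutT.hG_conj_x checks checks3 (i := 1) (by decide +kernel) (by decide +kernel) (inv_ne_zero hz) z, mul_inv_cancel_right,
    show chevD4.cartan 1 23 = 1 by decide +kernel, zpow_one, inv_mul_cancel₀ hz]
  rfl

variable [Fintype K]

include H in
lemma LA {t : K} (ht : t ≠ 0) : Good q (xG checks 18 t * xG checks 13 (f t) * xG checks 12 (f (f t))) := by
  obtain ⟨a, ha⟩ := exists_sq (t⁻¹)
  have ha0 : a ≠ 0 := by
    rintro rfl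
    rw [mul_zero] at ha
    exact inv_ne_zero ht ha.symm
  have hst : ∀ i ∈ Js 1, pc3 a (f a) (f (f a)) (rho i) = f (pc3 a (f a) (f (f a)) i) := by
    intro i hi
    simp only [show Js 1 = [0, 2, 3] from rfl, List.mem_cons, List.not_mem_nil, or_false] at hi
    rcases hi with rfl | rfl | rfl
    · simp [pc3, show rho 0 = 2 from rfl]
    · simp [pc3, show rho 2 = 3 from rfl]
    · simp [pc3, show rho 3 = 0 from rfl, H.hff]
  have hm := hI_mem checks checks2 checks3 twT f jT (gsh' H) (j := 1) (by decide) hst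
  have hmE : hI checks (Js 1) (pc3 a (f a) (f (f a))) = hG checks (chevD4.simple 0) a * (hG checks (chevD4.simple 2) (f a) * hG checks (chevD4.simple 3) (f (f a))) := by
    simp [hI, show Js 1 = [0, 2, 3] from rfl, pc3]
  rw [hmE] at hm
  have hf0 : f a ≠ 0 := (map_ne_zero f).mpr ha0
  have hf1 : f (f a) ≠ 0 := (map_ne_zero f).mpr hf0
  have key : ∀ s, s < 24 → ∀ τ : K, (hG checks (chevD4.simple 0) a * (hG checks (chevD4.simple 2) (f a) * hG checks (chevD4.simple 3) (f (f a)))) * xG checks s τ * (hG checks (chevD4.simple 0) a * (hG checks (chevD4.simple 2) (f a) * hG checks (chevD4.simple 3) (f (f a))))⁻¹ =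
      xG checks s (a ^ (chevD4.cartan 0 s) * ((f a) ^ (chevD4.cartan 2 s) * ((f (f a)) ^ (chevD4.cartan 3 s) * τ))) := by
    intro s hs τ
    have e3 := AutT.hG_conj_x checks checks3 (i := 3) (s := s) (by decide +kernel) hs hf1 τ
    have e2 := AutT.hG_conj_x checks checks3 (i := 2) (s := s) (by decide +kernel) hs hf0 ((f (f a)) ^ (chevD4.cartan 3 s) * τ)
    have e0 := AutT.hG_conj_x checks checks3 (i := 0) (s := s) (by decide +kernel) hs ha0 ((f a) ^ (chevD4.cartan 2 s) * ((f (f a)) ^ (chevD4.cartan 3 s) * τ))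
    rw [mul_inv_eq_iff_eq_mul, mul_assoc, mul_assoc, e3, ← mul_assoc (hG checks (chevD4.simple 2) (f a)), e2, mul_assoc, ← mul_assoc (hG checks (chevD4.simple 0) a), e0]
    simp only [mul_assoc]
  refine Or.inr ⟨_, hm, ?_⟩
  rw [conj_mul, conj_mul, key 18 (by decide), key 13 (by decide), key 12 (by decide)]
  have c1 : chevD4.cartan 0 18 = 2 ∧ chevD4.cartan 2 18 = 0 ∧ chevD4.cartan 3 18 = 0 ∧ chevD4.cartan 0 13 = 0 ∧ chevD4.cartan 2 13 = 2 ∧ chevD4.cartan 3 13 = 0 ∧ chevD4.cartan 0 12 = 0 ∧ chevD4.cartan 2 12 = 0 ∧ chevD4.cartan 3 12 = 2 := by decide +kernel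
  obtain ⟨c0, c2, c3, c4, c5, c6, c7, c8, c9⟩ := c1
  rw [c0, c2, c3, c4, c5, c6, c7, c8, c9]
  have e1 : a ^ (2 : ℤ) * t = 1 := by
    rw [zpow_two, ha, inv_mul_cancel₀ ht]
  have e2 : (f a) ^ (2 : ℤ) * f t = 1 := by
    rw [← map_zpow₀, ← map_mul, e1, map_one]
  have e3 : (f (f a)) ^ (2 : ℤ) * f (f t) = 1 := by
    rw [← map_zpow₀, ← map_mul, e2, map_one]
  simp only [zpow_zero, one_mul, mul_one]
  rw [e1, e2, e3]
  rfl

include H in
lemma caseA3 {t y : K} (ht : t ≠ 0) (hy : f y = y) : Good q (Q 0 t (f t) (f (f t)) 0 0 0 0 0 0 y 0) := by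
  have hft : f t ≠ 0 := (map_ne_zero f).mpr ht
  have hfft : f (f t) ≠ 0 := (map_ne_zero f).mpr hft
  obtain ⟨d, hd⟩ := tr_surj H hy
  obtain ⟨c, hc⟩ : ∃ c, d = t * c := ⟨d / t, by field_simp⟩
  have hy' : y = t * c + (f t * f c + f (f t) * f (f c)) := by
    rw [hd, hc]
    simp only [map_mul]
  rw [hy']
  refine Good_step (mem_X4 H c _ _ rfl rfl) (by rw [S4, Q_zero]) (A_mv3 t (f t) (f (f t)) 0 c (f c) (f (f c))) ?_
  have : Q (0 : K) t (f t) (f (f t)) 0 0 0 0 0 0 0 0 = xG checks 18 t * xG checks 13 (f t) * xG checks 12 (f (f t)) := by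
    simp [Q, mul_assoc]
  rw [this]
  exact LA H ht

include H in
lemma caseA2 {t y z : K} (ht : t ≠ 0) (hy : f y = y) (hz : f z = z) : Good q (Q 0 t (f t) (f (f t)) 0 0 0 0 0 0 y z) := by
  have hft : f t ≠ 0 := (map_ne_zero f).mpr ht
  have hfft : f (f t) ≠ 0 := (map_ne_zero f).mpr hft
  have hN : f (t * (f t * f (f t))) = t * (f t * f (f t)) := by
    simp only [map_mul, H.hff]
    ring
  have hN0 : t * (f t * f (f t)) ≠ 0 := mul_ne_zero ht (mul_ne_zero hft hfft)
  obtain ⟨e, he2, he⟩ := sqrt_fix (f := f) (x := z / (t * (f t * f (f t)))) (by rw [map_div₀, hz, hN])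
  have hz' : z = t * (f t * (f (f t) * (e * e))) := by
    rw [he2]
    field_simp
  rw [hz']
  refine Good_step (mem_X3 H (f (f t) * e) (t * e) (f t * e) (by simp only [map_mul, H.hff, he]) (by simp only [map_mul, H.hff, he])) (by rw [S3, Q_zero]) (A_mv4 t (f t) (f (f t)) y e) ?_
  refine caseA3 H ht ?_
  simp only [map_add, map_mul, H.hff, he, hy]
  ring

include H in
lemma caseA1 {t w w1 w2 y z : K} (ht : t ≠ 0) (h1 : w1 = f w) (h2 : w2 = f (f w)) (hy : f y = y) (hz : f z = z)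
    (hI : Q 0 t (f t) (f (f t)) 0 0 0 w w1 w2 y z * Q 0 t (f t) (f (f t)) 0 0 0 w w1 w2 y z = 1) : Good q (Q 0 t (f t) (f (f t)) 0 0 0 w w1 w2 y z) := by
  subst h1 h2
  have hft : f t ≠ 0 := (map_ne_zero f).mpr ht
  have hfft : f (f t) ≠ 0 := (map_ne_zero f).mpr hft
  rw [A_sq2] at hI
  have h22 := (P12_one_inj hI).2.2.2.2.2.2.2.2.2.2.1
  obtain ⟨x, hx⟩ : ∃ x, w = f t * (f (f t) * x) := ⟨w / (f t * f (f t)), by field_simp⟩
  have hw1 : f w = f (f t) * (t * f x) := by
    rw [hx]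
    simp only [map_mul, H.hff]
  have hw2 : f (f w) = t * (f t * f (f x)) := by
    rw [hw1]
    simp only [map_mul, H.hff]
  have hTr : x + f x + f (f x) = 0 := by
    rw [hw2, hw1, hx] at h22
    have h3 : (t * (f t * f (f t))) * (x + f x + f (f x)) = 0 := by
      linear_combination h22
    exact (mul_eq_zero.mp h3).resolve_left (mul_ne_zero ht (mul_ne_zero hft hfft))
  obtain ⟨a, ha⟩ := hilbert H hTr
  obtain ⟨c, hc⟩ : ∃ c, x = c + f (f c) := ⟨f a, by rw [ha, H.hff, add_comm]⟩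
  have e0 : w = f t * (f (f t) * c) + f t * (f (f t) * f (f c)) := by
    rw [hx, hc]
    ring
  have e1 : f w = t * (f (f t) * c) + t * (f (f t) * f c) := by
    rw [hw1, hc]
    simp only [map_add, H.hff]
    ring
  have e2 : f (f w) = t * (f t * f c) + t * (f t * f (f c)) := by
    rw [hw2, hc]
    simp only [map_add, H.hff]
    ring
  rw [e2, e1, e0]
  refine Good_step (mem_X3 H (f (f t) * c) (t * f c) (f t * f (f c)) (by simp only [map_mul, H.hff]) (by simp only [map_mul, H.hff])) (by rw [S3, Q_zero]) (A_mv2 t (f t) (f (f t)) y z c (f c) (f (f c))) ?_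
  refine caseA2 H ht ?_ ?_
  · simp only [map_add, map_mul, H.hff, hy]
    ring
  · simp only [map_add, map_mul, H.hff, hz]
    ring

include H in
lemma caseA {t v v1 v2 w w1 w2 y z : K} (ht : t ≠ 0) (hv1 : v1 = f v) (hv2 : v2 = f (f v)) (h1 : w1 = f w) (h2 : w2 = f (f w)) (hy : f y = y) (hz : f z = z)
    (hI : Q 0 t (f t) (f (f t)) v v1 v2 w w1 w2 y z * Q 0 t (f t) (f (f t)) v v1 v2 w w1 w2 y z = 1) : Good q (Q 0 t (f t) (f (f t)) v v1 v2 w w1 w2 y z) := by
  subst hv1 hv2 h1 h2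
  have hft : f t ≠ 0 := (map_ne_zero f).mpr ht
  have hfft : f (f t) ≠ 0 := (map_ne_zero f).mpr hft
  have h0 := hI
  rw [A_sq1] at h0
  have h17 := (P12_one_inj h0).2.2.2.2.2.1
  obtain ⟨e, rfl⟩ : ∃ e, v = f (f t) * e := ⟨v / f (f t), by field_simp⟩
  have e1 : f (f (f t) * e) = t * f e := by simp only [map_mul, H.hff]
  have e2 : f (f (f (f t) * e)) = f t * f (f e) := by simp only [map_mul, H.hff]
  rw [e2] at h17
  have h3 : (f t * f (f t)) * (e + f (f e)) = 0 := by
    linear_combination h17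
  have h4 : e + f (f e) = 0 := (mul_eq_zero.mp h3).resolve_left (mul_ne_zero hft hfft)
  have h5 : e = f (f e) := CharTwo.add_eq_zero.mp h4
  have he : f e = e := by
    calc f e = f (f (f e)) := by rw [← h5]
      _ = e := H.hff e
  rw [he] at e1
  have e2' : f (f (f (f t) * e)) = f t * e := by rw [e2, ← h5]
  rw [e2', e1] at hI ⊢
  refine Good_stepI (mem_x14 H he) (xG_sq2 checks 14 e) (by simpa only [] using A_mv1 t (f t) (f (f t)) w (f w) (f (f w)) y z e) hI (fun hI' => caseA1 H ht ?_ ?_ ?_ ?_ hI')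
  · simp only [map_add, map_mul, H.hff, he]
    try ring
  · simp only [map_add, map_mul, H.hff, he]
    try ring
  · simp only [map_add, map_mul, H.hff, he, hy]
    try ring
  · simp only [map_add, map_mul, H.hff, he, hy, hz]
    try ring

lemma nbQ (v0 v1 v2 w0 w1 w2 y z : K) : nb * Q 0 0 0 0 v0 v1 v2 w0 w1 w2 y z * nb⁻¹ = Q 0 v1 v2 v0 0 0 0 w0 w1 w2 z y := by
  rw [← C_nb]
  have e1 : Q 0 0 0 0 v0 v1 v2 w0 w1 w2 y z = xG checks 15 v0 * xG checks 19 v1 * xG checks 16 v2 * xG checks 17 w0 * xG checks 20 w1 * xG checks 21 w2 * xG checks 22 y * xG checks 23 z := by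
    simp [Q, mul_assoc]
  obtain ⟨b15, b19, b16, b17, b20, b21, b22, b23, -, -, -⟩ := tb
  rw [e1, conj_mul, conj_mul, conj_mul, conj_mul, conj_mul, conj_mul, conj_mul, nb_x (s := 15) (by decide), nb_x (s := 19) (by decide), nb_x (s := 16) (by decide), nb_x (s := 17) (by decide), nb_x (s := 20) (by decide), nb_x (s := 21) (by decide), nb_x (s := 22) (by decide), nb_x (s := 23) (by decide), b15, b19, b16, b17, b20, b21, b22, b23]

lemma naQ1 (s w0 w1 w2 : K) : na * Q s 0 0 0 0 0 0 w0 w1 w2 0 0 * na⁻¹ = Q 0 0 0 0 w2 w0 w1 0 0 0 s 0 := by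
  rw [← B_nA]
  have e1 : Q s 0 0 0 0 0 0 w0 w1 w2 0 0 = xG checks 14 s * xG checks 17 w0 * xG checks 20 w1 * xG checks 21 w2 := by
    simp [Q, mul_assoc]
  obtain ⟨a14, a17, a20, a21, -, -, -, -, -⟩ := ta
  rw [e1, conj_mul, conj_mul, conj_mul, na_x (s := 14) (by decide), na_x (s := 17) (by decide), na_x (s := 20) (by decide), na_x (s := 21) (by decide), a14, a17, a20, a21]

lemma naQ2 (w0 w1 w2 y z : K) : na * Q 0 0 0 0 0 0 0 w0 w1 w2 y z * na⁻¹ = Q y 0 0 0 w2 w0 w1 0 0 0 0 z := by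
  rw [← C_nA]
  have e1 : Q 0 0 0 0 0 0 0 w0 w1 w2 y z = xG checks 17 w0 * xG checks 20 w1 * xG checks 21 w2 * xG checks 22 y * xG checks 23 z := by
    simp [Q, mul_assoc]
  obtain ⟨-, a17, a20, a21, a22, a23, -, -, -⟩ := ta
  rw [e1, conj_mul, conj_mul, conj_mul, conj_mul, na_x (s := 17) (by decide), na_x (s := 20) (by decide), na_x (s := 21) (by decide), na_x (s := 22) (by decide), na_x (s := 23) (by decide), a17, a20, a21, a22, a23]

include H in
lemma caseB5 {v v1 v2 z : K} (hv : v ≠ 0) (h1 : v1 = f v) (h2 : v2 = f (f v)) (hz : f z = z) : Good q (Q 0 0 0 0 v v1 v2 0 0 0 0 z) := by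
  subst h1 h2
  have hfv : f v ≠ 0 := (map_ne_zero f).mpr hv
  have hffv : f (f v) ≠ 0 := (map_ne_zero f).mpr hfv
  obtain ⟨d, hd⟩ := tr_surj H hz
  obtain ⟨c, hc⟩ : ∃ c, z = v * f (f c) + (f v * c + f (f v) * f c) := by
    refine ⟨f (d / v), ?_⟩
    have e1 : v * f (f (f (d / v))) = d := by
      rw [H.hff]
      field_simp
    have e2 : f v * f (d / v) = f d := by
      rw [← map_mul]
      congr 1
      field_simp
    have e3 : f (f v) * f (f (d / v)) = f (f d) := by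
      rw [← map_mul, ← map_mul]
      congr 2
      field_simp
    rw [e1, e2, e3]
    exact hd
  rw [hc]
  refine Good_step (mem_X4 H c _ _ rfl rfl) (by rw [S4, Q_zero]) (B_mv4 v (f v) (f (f v)) c (f c) (f (f c))) ?_
  refine Good_n (nb_mem H) (nbQ v (f v) (f (f v)) 0 0 0 0 0) ?_
  have e : Q (0 : K) (f v) (f (f v)) v 0 0 0 0 0 0 0 0 = Q 0 (f v) (f (f v)) (f (f (f v))) 0 0 0 0 0 0 0 0 := by rw [H.hff]
  rw [e]
  exact caseA3 H hfv (map_zero f)

include H in
lemma caseB4 {v v1 v2 y : K} (hv : v ≠ 0) (h1 : v1 = f v) (h2 : v2 = f (f v)) (hy : f y = y) : Good q (Q 0 0 0 0 v v1 v2 0 0 0 y 0) := by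
  subst h1 h2
  have hfv : f v ≠ 0 := (map_ne_zero f).mpr hv
  have hffv : f (f v) ≠ 0 := (map_ne_zero f).mpr hfv
  have hN : f (v * (f v * f (f v))) = v * (f v * f (f v)) := by
    simp only [map_mul, H.hff]
    ring
  obtain ⟨c, hc2, hc⟩ := sqrt_fix (f := f) (x := y / (v * (f v * f (f v)))) (by rw [map_div₀, hy, hN])
  have hy' : y = v * (f v * (f (f v) * (c * c))) := by
    rw [hc2]
    field_simp
  rw [hy']
  refine Good_step (mem_AA H (f v * c) (f (f v) * c) (v * c) (by simp only [map_mul, hc]) (by simp only [map_mul, H.hff, hc])) (by rw [SA, Q_zero]) (B_mv3 v (f v) (f (f v)) c) ?_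
  refine caseB5 H hv rfl rfl ?_
  simp only [map_mul, H.hff, hc]
  ring

include H in
lemma caseB3 {s w w1 w2 : K} (hs : s ≠ 0) (hfs : f s = s) (h1 : w1 = f w) (h2 : w2 = f (f w)) : Good q (Q s 0 0 0 0 0 0 w w1 w2 0 0) := by
  subst h1 h2
  by_cases hw : w = 0
  · subst hw
    simp only [map_zero]
    have e : Q s (0 : K) 0 0 0 0 0 0 0 0 0 0 = xG checks 14 s := by simp [Q]
    rw [e]
    refine Good_n (na_mem H) (na_x (s := 14) (by decide) s) ?_
    rw [ta.1]
    refine Good_n (nb_mem H) (nb_x (s := 22) (by decide) s) ?_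
    rw [tb.2.2.2.2.2.2.1]
    exact L23 H hs hfs
  · refine Good_n (na_mem H) (naQ1 s w (f w) (f (f w))) ?_
    have hffw : f (f w) ≠ 0 := (map_ne_zero f).mpr ((map_ne_zero f).mpr hw)
    exact caseB4 H hffw (H.hff w).symm (H.hff (f w)).symm hfs

include H in
lemma caseB2 {s w w1 w2 z : K} (hs : s ≠ 0) (hfs : f s = s) (h1 : w1 = f w) (h2 : w2 = f (f w)) (hz : f z = z) : Good q (Q s 0 0 0 0 0 0 w w1 w2 0 z) := by
  obtain ⟨e, he⟩ : ∃ e, z = s * e := ⟨z / s, by field_simp⟩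
  have hfe : f e = e := by
    have h3 : s * f e = s * e := by
      rw [← he, ← hz, he, map_mul, hfs]
    exact mul_left_cancel₀ hs h3
  rw [he]
  refine Good_step (mem_x22 H hfe) (xG_sq2 checks 22 e) (B_mv2 s w w1 w2 e) ?_
  exact caseB3 H hs hfs h1 h2

include H in
lemma caseB1 {s w w1 w2 y z : K} (hs : s ≠ 0) (hfs : f s = s) (h1 : w1 = f w) (h2 : w2 = f (f w)) (hz : f z = z)
    (hI : Q s 0 0 0 0 0 0 w w1 w2 y z * Q s 0 0 0 0 0 0 w w1 w2 y z = 1) : Good q (Q s 0 0 0 0 0 0 w w1 w2 y z) := by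
  have h0 := hI
  rw [B_sq] at h0
  have h23 := (P12_one_inj h0).2.2.2.2.2.2.2.2.2.2.2
  have hy0 : y = 0 := (mul_eq_zero.mp h23).resolve_left hs
  subst hy0
  exact caseB2 H hs hfs h1 h2 hz

include H in
lemma caseB {s v v1 v2 w w1 w2 y z : K} (hs : s ≠ 0) (hfs : f s = s) (hv1 : v1 = f v) (hv2 : v2 = f (f v)) (h1 : w1 = f w) (h2 : w2 = f (f w)) (hy : f y = y) (hz : f z = z)
    (hI : Q s 0 0 0 v v1 v2 w w1 w2 y z * Q s 0 0 0 v v1 v2 w w1 w2 y z = 1) : Good q (Q s 0 0 0 v v1 v2 w w1 w2 y z) := by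
  subst hv1 hv2 h1 h2
  obtain ⟨e, he⟩ : ∃ e, f v = s * e := ⟨f v / s, by field_simp⟩
  have hv2 : f (f v) = s * f e := by
    rw [he, map_mul, hfs]
  have hv0 : v = s * f (f e) := by
    have := H.hff v
    rw [hv2, map_mul, hfs] at this
    exact this.symm
  rw [hv2, he] at hI ⊢
  rw [hv0] at hI ⊢
  refine Good_stepI (mem_AA H e (f e) (f (f e)) rfl rfl) (by rw [SA, Q_zero]) (B_mv1 s w (f w) (f (f w)) y z e (f e) (f (f e))) hI (fun hI' => caseB1 H hs hfs ?_ ?_ ?_ hI')
  · simp only [map_add, map_mul, H.hff, hfs]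
    try ring
  · simp only [map_add, map_mul, H.hff, hfs]
    try ring
  · simp only [map_add, map_mul, H.hff, hfs, hz]
    try ring

include H in
lemma caseC1 {v v1 v2 w w1 w2 y z : K} (hv : v ≠ 0) (hv1 : v1 = f v) (hv2 : v2 = f (f v)) (h1 : w1 = f w) (h2 : w2 = f (f w)) (hy : f y = y) (hz : f z = z)
    (hI : Q 0 0 0 0 v v1 v2 w w1 w2 y z * Q 0 0 0 0 v v1 v2 w w1 w2 y z = 1) : Good q (Q 0 0 0 0 v v1 v2 w w1 w2 y z) := by
  subst hv1 hv2 h1 h2
  have hfv : f v ≠ 0 := (map_ne_zero f).mpr hv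
  have hI' := I_n (n := nb) hI
  rw [nbQ] at hI'
  refine Good_n (nb_mem H) (nbQ v (f v) (f (f v)) w (f w) (f (f w)) y z) ?_
  have e : Q (0 : K) (f v) (f (f v)) v 0 0 0 w (f w) (f (f w)) z y = Q 0 (f v) (f (f v)) (f (f (f v))) 0 0 0 w (f w) (f (f w)) z y := by rw [H.hff]
  rw [e] at hI' ⊢
  exact caseA H hfv (map_zero f).symm (by simp only [map_zero]) rfl rfl hz hy hI'

include H in
lemma caseC2 {w w1 w2 y z : K} (hne : w ≠ 0 ∨ y ≠ 0) (h1 : w1 = f w) (h2 : w2 = f (f w)) (hy : f y = y) (hz : f z = z)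
    (hI : Q 0 0 0 0 0 0 0 w w1 w2 y z * Q 0 0 0 0 0 0 0 w w1 w2 y z = 1) : Good q (Q 0 0 0 0 0 0 0 w w1 w2 y z) := by
  subst h1 h2
  have hI' := I_n (n := na) hI
  rw [naQ2] at hI'
  refine Good_n (na_mem H) (naQ2 w (f w) (f (f w)) y z) ?_
  by_cases hy0 : y = 0
  · subst hy0
    have hw : w ≠ 0 := hne.resolve_right (by simp)
    have hffw : f (f w) ≠ 0 := (map_ne_zero f).mpr ((map_ne_zero f).mpr hw)
    exact caseC1 H hffw (H.hff w).symm (H.hff (f w)).symm (map_zero f).symm (by simp only [map_zero]) (map_zero f) hz hI'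
  · exact caseB H hy0 hy (H.hff w).symm (H.hff (f w)).symm (map_zero f).symm (by simp only [map_zero]) (map_zero f) hz hI'

include H in
theorem main {s t v w y z : K} (hs : f s = s) (hy : f y = y) (hz : f z = z)
    (hI : Q s t (f t) (f (f t)) v (f v) (f (f v)) w (f w) (f (f w)) y z * Q s t (f t) (f (f t)) v (f v) (f (f v)) w (f w) (f (f w)) y z = 1)
    (hne : Q s t (f t) (f (f t)) v (f v) (f (f v)) w (f w) (f (f w)) y z ≠ 1) :
    Good q (Q s t (f t) (f (f t)) v (f v) (f (f v)) w (f w) (f (f w)) y z) := by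
  by_cases ht : t = 0
  · subst ht
    simp only [map_zero] at hI hne ⊢
    by_cases hs0 : s = 0
    · subst hs0
      by_cases hv : v = 0
      · subst hv
        simp only [map_zero] at hI hne ⊢
        by_cases hwy : w ≠ 0 ∨ y ≠ 0
        · exact caseC2 H hwy rfl rfl hy hz hI
        · push Not at hwy
          obtain ⟨rfl, rfl⟩ := hwy
          simp only [map_zero] at hne ⊢
          have e : Q (0 : K) 0 0 0 0 0 0 0 0 0 0 z = xG checks 23 z := by simp [Q]
          rw [e]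
          refine L23 H ?_ hz
          rintro rfl
          exact hne Q_zero
      · exact caseC1 H hv rfl rfl rfl rfl hy hz hI
    · exact caseB H hs0 hs rfl rfl rfl rfl hy hz hI
  · have h0 := hI
    rw [sq0] at h0
    have h15 := (P12_one_inj h0).2.2.2.1
    have hfft : f (f t) ≠ 0 := (map_ne_zero f).mpr ((map_ne_zero f).mpr ht)
    have hs0 : s = 0 := (mul_eq_zero.mp h15).resolve_right hfft
    subst hs0
    exact caseA H ht rfl rfl rfl rfl hy hz hI

end Words

section Top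
variable [CharP K 2] {f : K ≃+* K} {q : ℕ} (H : TF f q)

lemma gam1 (r : ℕ) : gam K G r = 1 := by
  unfold gam sv
  split_ifs <;> simp [CharTwo.neg_eq]

theorem barT : G.bar 14 = 14 ∧ G.bar 18 = 13 ∧ G.bar 13 = 12 ∧ G.bar 15 = 19 ∧ G.bar 19 = 16 ∧ G.bar 17 = 20 ∧ G.bar 20 = 21 ∧ G.bar 22 = 22 ∧ G.bar 23 = 23 := by decide +kernel

variable [Fintype K]

lemma fix_one {i : ℕ} (hi : i < m) {g : GL chevD4.Idx K} (hg : g ∈ Uc checks cl i K) (hs : sig twT f g = g) :
    ∃ t : ℕ → K, (∀ s ∈ L i, t (G.bar s) = f (t s)) ∧ ∃ b ∈ Uc checks cl (i + 1) K, sig twT f b = b ∧ g = prodL checks (L i) t * b := by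
  obtain ⟨a, ha, ha', b, hb, hb', rfl⟩ := fix_step checks checks2 checks3 twT f clT' hi hg hs
  obtain ⟨t, rfl⟩ := exists_prodL checks (commL_class checks checks2 checks3 clT' hi) (clT'.nodup i hi) (R := fun r => chevD4.nroots / 2 ≤ r ∧ cl r = i)
    (fun r h1 h2 => (clT'.mem i hi r).mpr ⟨h2.1, h1, h2.2⟩) ha
  have hst := stable_of_fix checks checks2 checks3 twT f clT' hi ha'
  exact ⟨t, fun s hs => by rw [hst s hs, gam1, one_mul], b, hb, hb', rfl⟩

lemma exists_Q {g : GL chevD4.Idx K} (hU : g ∈ chevD4.posUnipotent K) (hs : sig twT f g = g) :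
    ∃ s t v w y z : K, f s = s ∧ f y = y ∧ f z = z ∧ g = Q s t (f t) (f (f t)) v (f v) (f (f v)) w (f w) (f (f w)) y z := by
  have hg0 : g ∈ Uc checks cl 0 K := by
    rw [Uc_zero checks checks2]
    exact hU
  obtain ⟨b14, b18, b13, b15, b19, b17, b20, b22, b23⟩ := barT
  obtain ⟨t0, h0, g1, hg1, s1, e0⟩ := fix_one (f := f) (i := 0) (by decide) hg0 hs
  obtain ⟨t1, h1, g2, hg2, s2, e1⟩ := fix_one (f := f) (i := 1) (by decide) hg1 s1
  obtain ⟨t2, h2, g3, hg3, s3, e2⟩ := fix_one (f := f) (i := 2) (by decide) hg2 s2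
  obtain ⟨t3, h3, g4, hg4, s4, e3⟩ := fix_one (f := f) (i := 3) (by decide) hg3 s3
  obtain ⟨t4, h4, g5, hg5, s5, e4⟩ := fix_one (f := f) (i := 4) (by decide) hg4 s4
  obtain ⟨t5, h5, g6, hg6, s6, e5⟩ := fix_one (f := f) (i := 5) (by decide) hg5 s5
  have hb6 : g6 = 1 := by
    have : Uc checks cl 6 K = ⊥ := Uc_top checks clT'
    rw [this] at hg6
    exact hg6
  have L0 : L 0 = [14] := rfl
  have L1 : L 1 = [18, 13, 12] := rfl
  have L2 : L 2 = [15, 19, 16] := rfl
  have L3 : L 3 = [17, 20, 21] := rfl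
  have L4 : L 4 = [22] := rfl
  have L5 : L 5 = [23] := rfl
  rw [L0] at h0 e0
  rw [L1] at h1 e1
  rw [L2] at h2 e2
  rw [L3] at h3 e3
  rw [L4] at h4 e4
  rw [L5] at h5 e5
  have a0 := h0 14 (by simp)
  have a1 := h1 18 (by simp)
  have a2 := h1 13 (by simp)
  have a3 := h2 15 (by simp)
  have a4 := h2 19 (by simp)
  have a5 := h3 17 (by simp)
  have a6 := h3 20 (by simp)
  have a7 := h4 22 (by simp)
  have a8 := h5 23 (by simp)
  rw [b14] at a0
  rw [b18] at a1
  rw [b13] at a2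
  rw [b15] at a3
  rw [b19] at a4
  rw [b17] at a5
  rw [b20] at a6
  rw [b22] at a7
  rw [b23] at a8
  refine ⟨t0 14, t1 18, t2 15, t3 17, t4 22, t5 23, a0.symm, a7.symm, a8.symm, ?_⟩
  have a2' : t1 12 = f (f (t1 18)) := by rw [a2, a1]
  have a4' : t2 16 = f (f (t2 15)) := by rw [a4, a3]
  have a6' : t3 21 = f (f (t3 17)) := by rw [a6, a5]
  rw [e0, e1, e2, e3, e4, e5, hb6]
  simp [Q, Tw.prodL, mul_assoc, a1, a2', a3, a4', a5, a6']

include H in
theorem involution_good (hq : IsPrimePow q) (hK : Fintype.card K = q ^ 3) (he : Even q) {g : GL chevD4.Idx K} (hg : g ∈ twistedD4 K q) (ho : orderOf g = 2) : Good q g := by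
  classical
  haveI : Fact (Nat.Prime 2) := ⟨Nat.prime_two⟩
  have hS := gsh' H
  have hq1 : 1 ≤ q := hq.one_lt.le
  have hU := card_U_GS checks checks2 checks3 twT f jT clT' hS (by decide) LJ upC hq1 hK H.hf kinds
  have hG := card_G hq hK
  let V : Subgroup ↥(twistedD4 K q) := (chevD4.posUnipotent K ⊓ twistedD4 K q).subgroupOf (twistedD4 K q)
  have hcardV : Nat.card V = q ^ 12 := by
    have e1 : Nat.card V = Nat.card ↥(chevD4.posUnipotent K ⊓ twistedD4 K q) :=
      Nat.card_congr (Subgroup.subgroupOfEquivOfLe inf_le_right).toEquiv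
    rw [e1, hU]
    rfl
  obtain ⟨p, k, hp, hk, hqe⟩ := (isPrimePow_nat_iff _).mp hq
  have hp2 : p = 2 := by
    have h2 : Even p := by
      rw [← hqe] at he
      exact (Nat.even_pow.mp he).1
    exact (Nat.Prime.even_iff hp).mp h2
  subst hp2
  have hVp : IsPGroup 2 V := by
    apply IsPGroup.of_card (n := k * 12)
    rw [hcardV, pow_mul, hqe]
  have hidx : ¬ 2 ∣ V.index := by
    intro hd
    have h1 := V.card_mul_index
    rw [hcardV, hG] at h1
    have hpos : 0 < q ^ 12 := pow_pos (by omega) 12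
    have h2 : V.index = (q ^ 2 - 1) * (q ^ 6 - 1) * (q ^ 8 + q ^ 4 + 1) := by
      apply Nat.eq_of_mul_eq_mul_left hpos
      rw [h1]
      ring
    rw [h2] at hd
    have hev : ∀ n, n ≠ 0 → Even (q ^ n) := fun n hn => he.pow_of_ne_zero hn
    have o1 : Odd (q ^ 2 - 1) := Nat.Even.sub_odd (Nat.one_le_pow _ _ (by omega)) (hev 2 (by norm_num)) odd_one
    have o2 : Odd (q ^ 6 - 1) := Nat.Even.sub_odd (Nat.one_le_pow _ _ (by omega)) (hev 6 (by norm_num)) odd_one
    have o3 : Odd (q ^ 8 + q ^ 4 + 1) := ((hev 8 (by norm_num)).add (hev 4 (by norm_num))).add_one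
    exact ((o1.mul o2).mul o3).not_two_dvd_nat hd
  let P : Sylow 2 ↥(twistedD4 K q) := hVp.toSylow hidx
  let g' : ↥(twistedD4 K q) := ⟨g, hg⟩
  have hp' : IsPGroup 2 (Subgroup.zpowers g') := by
    apply IsPGroup.of_card (n := 1)
    rw [Nat.card_zpowers, Subgroup.orderOf_mk, ho, pow_one]
  obtain ⟨Q', hQ'⟩ := hp'.exists_le_sylow
  have hgQ : g' ∈ (Q' : Subgroup ↥(twistedD4 K q)) := hQ' (Subgroup.mem_zpowers g')
  obtain ⟨x, hx⟩ := MulAction.exists_smul_eq ↥(twistedD4 K q) Q' P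
  have h1 : x * g' * x⁻¹ ∈ (P : Subgroup ↥(twistedD4 K q)) := by
    rw [← hx, Sylow.coe_subgroup_smul]
    exact Subgroup.smul_mem_pointwise_smul _ (MulAut.conj x) _ hgQ
  have h2 : x.1 * g * x.1⁻¹ ∈ chevD4.posUnipotent K ⊓ twistedD4 K q := h1
  have hfix : sig twT f (x.1 * g * x.1⁻¹) = x.1 * g * x.1⁻¹ := sig_of_mem checks twT f hS h2.2
  obtain ⟨s, t, v, w, y, z, hs, hy, hz, e⟩ := exists_Q h2.1 hfix
  have hg2 : g * g = 1 := by
    rw [← sq, ← ho]
    exact pow_orderOf_eq_one g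
  have hI : Q s t (f t) (f (f t)) v (f v) (f (f v)) w (f w) (f (f w)) y z * Q s t (f t) (f (f t)) v (f v) (f (f v)) w (f w) (f (f w)) y z = 1 := by
    rw [← e]
    exact I_n hg2
  have hne : Q s t (f t) (f (f t)) v (f v) (f (f v)) w (f w) (f (f w)) y z ≠ 1 := by
    rw [← e]
    intro e1
    have e2 : g = 1 := by
      have : g = x.1⁻¹ * (x.1 * g * x.1⁻¹) * x.1 := by group
      rw [this, e1]
      group
    rw [e2, orderOf_one] at ho
    omega
  have hgood := main H hs hy hz hI hne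
  rw [← e] at hgood
  exact Good_n x.2 rfl hgood

theorem top_terms : ∀ s, s < chevD4.nroots → 12 ≤ s → s ≠ 23 → chevD4.commTerms 23 s = [] := by decide +kernel

lemma hU23 : ∀ s, chevD4.nroots / 2 ≤ s → s < chevD4.nroots → ∀ t a : K, xG checks s t * xG checks 23 a = xG checks 23 a * xG checks s t := by
  intro s h0 h1 t a
  by_cases hsr : s = 23
  · subst hsr
    exact (xG_comm_self checks _ _ _).symm
  · have hn : s ≠ negF chevD4 23 := by
      intro e
      rw [e] at h0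
      revert h0
      decide +kernel
    exact comm_of_terms checks (by decide +kernel) h1 hsr hn (top_terms s h1 h0 hsr) a t

/-- the two classes are different -/
theorem noconj {h : GL chevD4.Idx K} (hh : h ∈ chevD4.group K) (e : h * A1 * h⁻¹ = Z0) : False := by
  have hpos : ∀ r, 12 ≤ r → r < 24 → xG checks r (1 : K) ∈ chevD4.posUnipotent K := fun r h1 h2 =>
    xG_mem_pos checks ((checks2.pos_iff _).mpr ⟨h1, h2⟩) _
  have hg : (A1 : GL chevD4.Idx K) ∈ chevD4.posUnipotent K :=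
    mul_mem (mul_mem (hpos 18 (by omega) (by omega)) (hpos 13 (by omega) (by omega))) (hpos 12 (by omega) (by omega))
  obtain ⟨u, hu, r', hr0, hr1, -, c, hc, e2⟩ := conj_top checks checks2 checks3 (by decide +kernel) hU23 hg hh e
  obtain ⟨a0, a1, a2, a3, a4, a5, a6, a7, a8, a9, a10, a11, rfl⟩ := exists_P12 hu
  have e4 : (P12 a0 a1 a2 a3 a4 a5 a6 a7 a8 a9 a10 a11)⁻¹ = xG checks 23 a11 * xG checks 22 a10 * xG checks 21 a9 * xG checks 20 a8 * xG checks 19 a7 * xG checks 18 a6 * xG checks 17 a5 * xG checks 16 a4 * xG checks 15 a3 * xG checks 14 a2 * xG checks 13 a1 * xG checks 12 a0 := by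
    simp [P12, mul_inv_rev, xG_inv2, mul_assoc]
  rw [e4] at e2
  have e3 := U_A (K := K) a0 a1 a2 a3 a4 a5 a6 a7 a8 a9 a10 a11
  have e5 : P12 a0 a1 a2 a3 a4 a5 a6 a7 a8 a9 a10 a11 * A1 * (xG checks 23 a11 * xG checks 22 a10 * xG checks 21 a9 * xG checks 20 a8 * xG checks 19 a7 * xG checks 18 a6 * xG checks 17 a5 * xG checks 16 a4 * xG checks 15 a3 * xG checks 14 a2 * xG checks 13 a1 * xG checks 12 a0) = _ := e3
  rw [e5] at e2
  have hr2 : r' < 24 := hr1
  have hr3 : 12 ≤ r' := hr0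
  have one_ne : (1 : K) ≠ 0 := one_ne_zero
  interval_cases r'
  · have : xG checks 12 c = P12 c 0 0 0 0 0 0 0 0 0 0 0 := by simp [P12]
    rw [this] at e2
    exact one_ne (P12_inj e2).2.1
  · have : xG checks 13 c = P12 0 c 0 0 0 0 0 0 0 0 0 0 := by simp [P12]
    rw [this] at e2
    exact one_ne (P12_inj e2).1
  · have : xG checks 14 c = P12 0 0 c 0 0 0 0 0 0 0 0 0 := by simp [P12]
    rw [this] at e2
    exact one_ne (P12_inj e2).1
  · have : xG checks 15 c = P12 0 0 0 c 0 0 0 0 0 0 0 0 := by simp [P12]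
    rw [this] at e2
    exact one_ne (P12_inj e2).1
  · have : xG checks 16 c = P12 0 0 0 0 c 0 0 0 0 0 0 0 := by simp [P12]
    rw [this] at e2
    exact one_ne (P12_inj e2).1
  · have : xG checks 17 c = P12 0 0 0 0 0 c 0 0 0 0 0 0 := by simp [P12]
    rw [this] at e2
    exact one_ne (P12_inj e2).1
  · have : xG checks 18 c = P12 0 0 0 0 0 0 c 0 0 0 0 0 := by simp [P12]
    rw [this] at e2
    exact one_ne (P12_inj e2).1
  · have : xG checks 19 c = P12 0 0 0 0 0 0 0 c 0 0 0 0 := by simp [P12]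
    rw [this] at e2
    exact one_ne (P12_inj e2).1
  · have : xG checks 20 c = P12 0 0 0 0 0 0 0 0 c 0 0 0 := by simp [P12]
    rw [this] at e2
    exact one_ne (P12_inj e2).1
  · have : xG checks 21 c = P12 0 0 0 0 0 0 0 0 0 c 0 0 := by simp [P12]
    rw [this] at e2
    exact one_ne (P12_inj e2).1
  · have : xG checks 22 c = P12 0 0 0 0 0 0 0 0 0 0 c 0 := by simp [P12]
    rw [this] at e2
    exact one_ne (P12_inj e2).1
  · have : xG checks 23 c = P12 0 0 0 0 0 0 0 0 0 0 0 c := by simp [P12]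
    rw [this] at e2
    exact one_ne (P12_inj e2).1

end Top

/-- a nonzero trace -/
lemma exists_tr {f : K ≃+* K} {q : ℕ} [Fintype K] (hq : 2 ≤ q) (hK : Fintype.card K = q ^ 3) (hf : ∀ t, f t = t ^ q) :
    ∃ θ, θ + f θ + f (f θ) ≠ 0 := by
  classical
  by_contra hcon
  push Not at hcon
  open Polynomial in
  let p : K[X] := X ^ (q ^ 2) + X ^ q + X
  have h1 : q ^ 2 ≠ q := by nlinarith
  have h2 : 1 ≠ q ^ 2 := by nlinarith
  have hp0 : p ≠ 0 := by
    intro h0
    have := congrArg (fun P => Polynomial.coeff P (q ^ 2)) h0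
    simp [p, Polynomial.coeff_X_pow, Polynomial.coeff_X, h1, h2] at this
  have hroot : ∀ t : K, t ∈ p.roots := by
    intro t
    rw [Polynomial.mem_roots hp0]
    have := hcon t
    rw [hf, hf, ← pow_mul, ← sq] at this
    simp only [Polynomial.IsRoot.def, p, Polynomial.eval_add, Polynomial.eval_pow, Polynomial.eval_X]
    rw [← this]
    ring
  have hd : p.natDegree ≤ q ^ 2 := by
    refine (Polynomial.natDegree_add_le _ _).trans (max_le ((Polynomial.natDegree_add_le _ _).trans (max_le ?_ ?_)) ?_)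
    · simp
    · simp only [Polynomial.natDegree_X_pow]
      nlinarith
    · rw [Polynomial.natDegree_X]
      nlinarith
  have h3 : Fintype.card K ≤ p.roots.card := by
    have h4 : (Finset.univ : Finset K) ⊆ p.roots.toFinset := fun t _ => Multiset.mem_toFinset.mpr (hroot t)
    have h5 := Finset.card_le_card h4
    rw [Finset.card_univ] at h5
    exact h5.trans (Multiset.toFinset_card_le _)
  have h6 := Polynomial.card_roots' p
  rw [hK] at h3
  have h7 : q ^ 3 ≤ q ^ 2 := h3.trans (h6.trans hd)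
  have h8 : q ^ 3 = q * q ^ 2 := by ring
  have h9 : 0 < q ^ 2 := by positivity
  nlinarith

lemma exists_tr_one {f : K ≃+* K} {q : ℕ} [Fintype K] (hq : 2 ≤ q) (hK : Fintype.card K = q ^ 3) (hf : ∀ t, f t = t ^ q) (hff : ∀ t, f (f (f t)) = t) :
    ∃ θ, θ + f θ + f (f θ) = 1 := by
  obtain ⟨θ, hθ⟩ := exists_tr hq hK hf
  have hc : f (θ + f θ + f (f θ)) = θ + f θ + f (f θ) := by
    simp only [map_add, hff]
    ring
  refine ⟨θ / (θ + f θ + f (f θ)), ?_⟩
  simp only [map_div₀, hc]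
  field_simp

theorem final [Fintype K] [CharP K 2] (q : ℕ) (hK : Fintype.card K = q ^ 3) :
    (ConjClasses.mk '' {g : ↥(twistedD4 K q) | orderOf g = 2}).ncard = 2 := by
  classical
  obtain ⟨n, hn1, hn2⟩ := FiniteField.card K 2
  have hq2 : q ∣ 2 ^ (n : ℕ) := by
    rw [← hn2, hK]
    exact dvd_pow_self q (by norm_num)
  obtain ⟨k, hk, rfl⟩ := (Nat.dvd_prime_pow Nat.prime_two).mp hq2
  have hk0 : k ≠ 0 := by
    rintro rfl
    have := Fintype.one_lt_card (α := K)
    rw [hK] at this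
    simp at this
  have hq : IsPrimePow (2 ^ k) := Nat.prime_two.isPrimePow.pow hk0
  have he : Even (2 ^ k) := (Nat.even_pow.mpr ⟨even_two, hk0⟩)
  have hq22 : 2 ≤ 2 ^ k := hq.two_le
  obtain ⟨f, hf⟩ := exists_frob hq (d := 2) hK
  have hff : ∀ t, f (f (f t)) = t := fun t => frob_order hK hf t
  have H : TF f (2 ^ k) := ⟨hf, hff, exists_tr_one hq22 hK hf hff⟩
  have hZmem : (Z0 : GL chevD4.Idx K) ∈ twistedD4 K (2 ^ k) := by
    have h1 := mem_x14 H (e := 1) (map_one f)
    have h2 := mul_mem (mul_mem (na_mem H) h1) (inv_mem (na_mem H))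
    rw [na_x (by decide), ta.1] at h2
    have h3 := mul_mem (mul_mem (nb_mem H) h2) (inv_mem (nb_mem H))
    rw [nb_x (by decide), tb.2.2.2.2.2.2.1] at h3
    exact h3
  have hAmem : (A1 : GL chevD4.Idx K) ∈ twistedD4 K (2 ^ k) :=
    mem_AA H 1 1 1 (map_one f).symm (by simp)
  have hle : twistedD4 K (2 ^ k) ≤ chevD4.group K := by
    rw [GS_eq' hf hff]
    exact inf_le_right
  have hZo : orderOf (Z0 : GL chevD4.Idx K) = 2 := by
    refine orderOf_eq_prime (by rw [sq]; exact xG_sq2 checks 23 1) ?_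
    intro h
    have h2 : xG checks 23 (1 : K) = xG checks 23 0 := by
      rw [xG_zero]
      exact h
    exact one_ne_zero (Cfsg.Agent.H04.Tf.xG_param_inj checks checks2 (by decide +kernel) h2)
  have hAo : orderOf (A1 : GL chevD4.Idx K) = 2 := by
    refine orderOf_eq_prime ?_ ?_
    · rw [sq]
      unfold A1
      rw [SA, Q_zero]
    · intro h
      unfold A1 at h
      rw [A1_P] at h
      exact one_ne_zero (P12_one_inj h).1
  let Z' : ↥(twistedD4 K (2 ^ k)) := ⟨Z0, hZmem⟩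
  let A' : ↥(twistedD4 K (2 ^ k)) := ⟨A1, hAmem⟩
  have hne : ConjClasses.mk Z' ≠ ConjClasses.mk A' := by
    intro e
    rw [ConjClasses.mk_eq_mk_iff_isConj, isConj_comm, isConj_iff] at e
    obtain ⟨c, hc⟩ := e
    exact noconj (hle c.2) (congrArg Subtype.val hc)
  have hset : ConjClasses.mk '' {g : ↥(twistedD4 K (2 ^ k)) | orderOf g = 2} = {ConjClasses.mk Z', ConjClasses.mk A'} := by
    ext c
    constructor
    · rintro ⟨g, hg, rfl⟩
      have hg' : orderOf (g : GL chevD4.Idx K) = 2 := by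
        rw [Subgroup.orderOf_coe]
        exact hg
      rcases involution_good H hq hK he g.2 hg' with ⟨h, hh, e⟩ | ⟨h, hh, e⟩
      · left
        rw [ConjClasses.mk_eq_mk_iff_isConj, isConj_iff]
        exact ⟨⟨h, hh⟩, Subtype.ext e⟩
      · right
        rw [Set.mem_singleton_iff, ConjClasses.mk_eq_mk_iff_isConj, isConj_iff]
        exact ⟨⟨h, hh⟩, Subtype.ext e⟩
    · rintro (rfl | h)
      · exact ⟨Z', by rw [Set.mem_setOf_eq, Subgroup.orderOf_mk]; exact hZo, rfl⟩
      · rw [Set.mem_singleton_iff] at h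
        subst h
        exact ⟨A', by rw [Set.mem_setOf_eq, Subgroup.orderOf_mk]; exact hAo, rfl⟩
  rw [hset]
  exact Set.ncard_pair hne

end Cfsg.Agent.H04.Col.D4
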