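import Cfsg.Agent.Lib.H04.Col.F4Cw

/-!
# Centralizers of the remaining involutions of `F₄(q)`, `q` even
-/

set_option autoImplicit false
set_option linter.style.longLine false
set_option linter.unusedSimpArgs false
set_option linter.unusedSectionVars false
set_option linter.unusedVariables false
set_option maxRecDepth 100000

open Cfsg.Lie Cfsg.Agent.H04.Chev Cfsg.Agent.H04.Long
open Cfsg.Agent.H04.Chev.TF4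

namespace Cfsg.Agent.H04.Col.F4C

variable {F : Type*} [Field F]


section words
variable [CharP F 2]

lemma VQ' (a b c d : F) : VV a b c d * (xG checks 39 1 * xG checks 45 1) * (VV a b c d)⁻¹ = Q6 1 a c 1 b d := by
  rw [← VQ a b c d]
  simp only [VV, mul_inv_rev, xG_inv2, mul_assoc]


lemma CQ_all {r : ℕ} (h0 : 24 ≤ r) (h1 : r < 48) (t v1 A B v2 C D : F) : ∃ A' B' C' D' : F, xG checks r t * Q6 v1 A B v2 C D * xG checks r t = Q6 v1 A' B' v2 C' D' := by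
  interval_cases r
  · exact ⟨_, _, _, _, CQ24 t v1 A B v2 C D⟩
  · exact ⟨_, _, _, _, CQ25 t v1 A B v2 C D⟩
  · exact ⟨_, _, _, _, CQ26 t v1 A B v2 C D⟩
  · exact ⟨_, _, _, _, CQ27 t v1 A B v2 C D⟩
  · exact ⟨_, _, _, _, CQ28 t v1 A B v2 C D⟩
  · exact ⟨_, _, _, _, CQ29 t v1 A B v2 C D⟩
  · exact ⟨_, _, _, _, CQ30 t v1 A B v2 C D⟩
  · exact ⟨_, _, _, _, CQ31 t v1 A B v2 C D⟩
  · exact ⟨_, _, _, _, CQ32 t v1 A B v2 C D⟩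
  · exact ⟨_, _, _, _, CQ33 t v1 A B v2 C D⟩
  · exact ⟨_, _, _, _, CQ34 t v1 A B v2 C D⟩
  · exact ⟨_, _, _, _, CQ35 t v1 A B v2 C D⟩
  · exact ⟨_, _, _, _, CQ36 t v1 A B v2 C D⟩
  · exact ⟨_, _, _, _, CQ37 t v1 A B v2 C D⟩
  · exact ⟨_, _, _, _, CQ38 t v1 A B v2 C D⟩
  · exact ⟨_, _, _, _, CQ39 t v1 A B v2 C D⟩
  · exact ⟨_, _, _, _, CQ40 t v1 A B v2 C D⟩
  · exact ⟨_, _, _, _, CQ41 t v1 A B v2 C D⟩
  · exact ⟨_, _, _, _, CQ42 t v1 A B v2 C D⟩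
  · exact ⟨_, _, _, _, CQ43 t v1 A B v2 C D⟩
  · exact ⟨_, _, _, _, CQ44 t v1 A B v2 C D⟩
  · exact ⟨_, _, _, _, CQ45 t v1 A B v2 C D⟩
  · exact ⟨_, _, _, _, CQ46 t v1 A B v2 C D⟩
  · exact ⟨_, _, _, _, CQ47 t v1 A B v2 C D⟩

lemma U_orbit {u : GL chevF4.Idx F} (hu : u ∈ chevF4.posUnipotent F) : ∀ v1 A B v2 C D : F, ∃ A' B' C' D' : F, u * Q6 v1 A B v2 C D * u⁻¹ = Q6 v1 A' B' v2 C' D' := by
  rw [pos_eq_RS checks] at hu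
  unfold RS at hu
  induction hu using Subgroup.closure_induction_left with
  | one =>
    intro v1 A B v2 C D
    exact ⟨A, B, C, D, by group⟩
  | mul_left x hx y hy ih =>
    intro v1 A B v2 C D
    obtain ⟨r, t, hr, hp, rfl⟩ := hx
    have hp' := (checks2.pos_iff r).mp hp
    obtain ⟨A1, B1, C1, D1, e1⟩ := ih v1 A B v2 C D
    obtain ⟨A2, B2, C2, D2, e2⟩ := CQ_all hp'.1 hp'.2 t v1 A1 B1 v2 C1 D1
    refine ⟨A2, B2, C2, D2, ?_⟩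
    rw [← e2, ← e1, mul_inv_rev, xG_inv2]
    group
  | inv_mul_cancel x hx y hy ih =>
    intro v1 A B v2 C D
    obtain ⟨r, t, hr, hp, rfl⟩ := hx
    have hp' := (checks2.pos_iff r).mp hp
    obtain ⟨A1, B1, C1, D1, e1⟩ := ih v1 A B v2 C D
    obtain ⟨A2, B2, C2, D2, e2⟩ := CQ_all hp'.1 hp'.2 t v1 A1 B1 v2 C1 D1
    refine ⟨A2, B2, C2, D2, ?_⟩
    rw [← e2, ← e1, xG_inv2, mul_inv_rev, xG_inv2]
    group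

end words

lemma exists_W {g : GL chevF4.Idx F} (hg : g ∈ chevF4.posUnipotent F) : ∃ t : ℕ → F, g = wordFrom checks 24 t := by
  rw [posUnipotent_eq checks checks2] at hg
  exact exists_wordFrom checks checks2 24 (m := 24) rfl (by decide +kernel) hg

/-- coefficients of a `Q6` -/
def cfW (a b c d e f : F) : ℕ → F := fun r => R [0, 0, 0, 0, 0, 0, 0, 0, 0, 0, 0, 0, 0, 0, 0, a, b, 0, 0, 0, c, d, e, f] (r - 24)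

lemma Q6_eq (a b c d e f : F) : wordFrom checks 24 (cfW a b c d e f) = Q6 a b c d e f := by
  have e1 : wordFrom checks 24 (cfW a b c d e f) = wordG checks [(24, 0), (25, 0), (26, 0), (27, 0), (28, 0), (29, 0), (30, 0), (31, 0), (32, 0), (33, 0), (34, 0), (35, 0), (36, 0), (37, 0), (38, 0), (39, a), (40, b), (41, 0), (42, 0), (43, 0), (44, c), (45, d), (46, e), (47, f)] := rfl
  rw [e1]
  simp only [Q6, wordG_cons, wordG_nil, xG_zero, one_mul]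

lemma Q6_inj {a b c d e f a' b' c' d' e' f' : F} (h : Q6 a b c d e f = Q6 a' b' c' d' e' f') :
    a = a' ∧ b = b' ∧ c = c' ∧ d = d' ∧ e = e' ∧ f = f' := by
  rw [← Q6_eq, ← Q6_eq] at h
  have h1 := wordFrom_inj checks checks2 24 (m := 24) rfl (by decide +kernel) h
  exact ⟨h1 39 (by omega) (by decide +kernel), h1 40 (by omega) (by decide +kernel), h1 44 (by omega) (by decide +kernel), h1 45 (by omega) (by decide +kernel), h1 46 (by omega) (by decide +kernel), h1 47 (by omega) (by decide +kernel)⟩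

lemma Q6_zero : Q6 (0 : F) 0 0 0 0 0 = 1 := by
  simp only [Q6, wordG_cons, wordG_nil, xG_zero, mul_one]

def L6 : List ℕ := [39, 40, 44, 45, 46, 47]

lemma WL6 (f : ℕ → F) : WL checks L6 f = Q6 (f 39) (f 40) (f 44) (f 45) (f 46) (f 47) := rfl

/-- coefficients on `L6` -/
def cfQ (a b c d e f : F) : ℕ → F := fun s => R [a, b, 0, 0, 0, c, d, e, f] (s - 39)

lemma Q6_cf (a b c d e f : F) : Q6 a b c d e f = WL checks L6 (cfQ a b c d e f) := rfl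

theorem L6lt : ∀ s ∈ L6, s < chevF4.nroots := by decide +kernel
theorem L6c : ∀ s ∈ L6, ∀ s' ∈ L6, s ≠ s' → s' ≠ negF chevF4 s ∧ chevF4.commTerms s s' = [] := by decide +kernel

lemma L6comm (s : ℕ) (hs : s ∈ L6) (s' : ℕ) (hs' : s' ∈ L6) (t t' : F) : xG checks s t * xG checks s' t' = xG checks s' t' * xG checks s t := by
  by_cases h : s = s'
  · subst h
    exact xG_comm_self checks _ _ _
  · obtain ⟨h1, h2⟩ := L6c s hs s' hs' h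
    exact (comm_of_terms checks (L6lt s hs) (L6lt s' hs') (Ne.symm h) h1 h2 t t').symm

lemma Q6_mem_Bor {ℓ : ℕ → ℤ} (hg : Graded chevF4 T ℓ) (h9 : ∀ s ∈ L6, ℓ s ≤ 0) (a b c d e f : F) : Q6 a b c d e f ∈ BorL chevF4 (fun c => - ℓ c) F := by
  unfold Q6
  apply word_mem
  intro p hp
  simp only [List.mem_cons, List.not_mem_nil, or_false] at hp
  have hg' := hg.neg
  rcases hp with rfl | rfl | rfl | rfl | rfl | rfl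
  · exact xG_mem_BorL checks hg' (L6lt 39 (by decide)) (by have := h9 39 (by decide); show 0 ≤ - ℓ 39; omega) _
  · exact xG_mem_BorL checks hg' (L6lt 40 (by decide)) (by have := h9 40 (by decide); show 0 ≤ - ℓ 40; omega) _
  · exact xG_mem_BorL checks hg' (L6lt 44 (by decide)) (by have := h9 44 (by decide); show 0 ≤ - ℓ 44; omega) _
  · exact xG_mem_BorL checks hg' (L6lt 45 (by decide)) (by have := h9 45 (by decide); show 0 ≤ - ℓ 45; omega) _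
  · exact xG_mem_BorL checks hg' (L6lt 46 (by decide)) (by have := h9 46 (by decide); show 0 ≤ - ℓ 46; omega) _
  · exact xG_mem_BorL checks hg' (L6lt 47 (by decide)) (by have := h9 47 (by decide); show 0 ≤ - ℓ 47; omega) _

/-- the grading argument on `L6` -/
lemma om_aux {ℓ : ℕ → ℤ} (hg : Graded chevF4 T ℓ) (h9 : ∀ s ∈ L6, ℓ s ≤ 0) {n : GL chevF4.Idx F} {π π' : ℕ → ℕ} {d : ℕ → Fˣ} (ha : NAct checks n π π' d)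
    {a b c e f g a' b' c' e' f' g' : F} (h : n * Q6 a b c e f g * n⁻¹ = Q6 a' b' c' e' f' g') :
    (0 < ℓ (π 39) → a = 0) ∧ (0 < ℓ (π 45) → e = 0) := by
  have hB : n * WL checks L6 (cfQ a b c e f g) * n⁻¹ ∈ BorL chevF4 (fun c => - ℓ c) F := by
    rw [← Q6_cf, h]
    exact Q6_mem_Bor hg h9 _ _ _ _ _ _
  have q := qgrade checks checks2 hg ha L6 L6lt L6comm _ hB
  rw [WL6, ← Q6_zero] at q
  obtain ⟨q1, -, -, q4, -, -⟩ := Q6_inj q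
  constructor
  · intro hp
    rw [if_pos hp] at q1
    exact q1
  · intro hp
    rw [if_pos hp] at q4
    exact q4

theorem cw2_ok : ∀ r, r < 48 → r ∉ L6 → 0 < evC TF4.U chevF4.rank (R (cw2 r)) r ∧ ∀ s ∈ L6, evC TF4.U chevF4.rank (R (cw2 r)) s ≤ 0 := by decide +kernel

lemma om_of {n : GL chevF4.Idx F} {π π' : ℕ → ℕ} {d : ℕ → Fˣ} (ha : NAct checks n π π' d)
    {a b c e f g a' b' c' e' f' g' : F} (h : n * Q6 a b c e f g * n⁻¹ = Q6 a' b' c' e' f' g') :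
    (a ≠ 0 → π 39 ∈ L6) ∧ (e ≠ 0 → π 45 ∈ L6) := by
  have key : ∀ r, r < 48 → r ∉ L6 → ∃ ℓ : ℕ → ℤ, Graded chevF4 T ℓ ∧ (∀ s ∈ L6, ℓ s ≤ 0) ∧ 0 < ℓ r := by
    intro r hr hn
    obtain ⟨h1, h2⟩ := cw2_ok r hr hn
    refine ⟨ellOf TF4.U chevF4 (R (cw2 r)), ellOf_graded checks3 _, ?_, ?_⟩
    · intro s hs
      rw [← evC_eq]
      exact h2 s hs
    · rw [← evC_eq]
      exact h1
  constructor
  · intro ha0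
    by_contra hn
    obtain ⟨ℓ, h1, h2, h3⟩ := key _ (ha.lt 39 (by decide +kernel)) hn
    exact ha0 ((om_aux h1 h2 ha h).1 h3)
  · intro ha0
    by_contra hn
    obtain ⟨ℓ, h1, h2, h3⟩ := key _ (ha.lt 45 (by decide +kernel)) hn
    exact ha0 ((om_aux h1 h2 ha h).2 h3)

def ipT : List (List ℕ) := [[12,10,10,10,10,10,8,10,10,10,8,10,8,8,8,10,10,8,10,8,8,10,8,10,6,8,6,8,8,6,8,6,6,8,8,8,6,8,6,6,6,8,6,6,6,6,6,4],[10,12,10,10,10,8,10,10,10,8,10,8,10,8,8,10,8,10,8,10,8,8,10,6,10,6,8,8,6,8,6,8,6,8,8,6,8,6,8,6,6,6,8,6,6,6,4,6],[10,10,12,10,8,10,10,10,8,10,10,8,8,10,8,8,10,10,8,8,10,6,6,8,8,10,10,6,8,8,6,6,8,8,6,8,8,6,6,8,6,6,6,8,6,4,6,6],[10,10,10,10,10,10,10,9,9,9,9,9,9,9,9,8,8,8,8,8,8,8,8,8,8,8,8,8,8,8,8,8,8,7,7,7,7,7,7,7,7,6,6,6,6,6,6,6],[10,10,8,10,12,10,10,8,10,8,8,10,10,8,10,8,6,6,8,8,6,10,10,8,8,6,6,10,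8,8,10,10,8,6,8,6,6,8,8,6,8,6,6,4,6,8,6,6],[10,8,10,10,10,12,10,8,8,10,8,10,8,10,10,6,8,6,8,6,8,8,6,10,6,10,8,8,10,8,10,8,10,6,6,8,6,8,6,8,8,6,4,6,6,6,8,6],[8,10,10,10,10,10,12,8,8,8,10,8,10,10,10,6,6,8,6,8,8,6,8,6,10,8,10,8,8,10,8,10,10,6,6,6,8,6,8,8,8,4,6,6,6,6,6,8],[10,10,10,9,8,8,8,10,9,9,9,8,8,8,7,10,10,10,9,9,9,8,8,8,8,8,8,7,7,7,6,6,6,9,8,8,8,7,7,7,6,8,8,8,7,6,6,6],[10,10,8,9,10,8,8,9,10,8,8,9,9,7,8,10,8,8,9,9,7,10,10,8,8,6,6,9,7,7,8,8,6,8,9,7,7,8,8,6,7,8,8,6,7,8,6,6],[10,8,10,9,8,10,8,9,8,10,8,9,7,9,8,8,10,8,9,7,9,8,6,10,6,10,8,7,9,7,8,6,8,8,7,9,7,8,6,8,7,8,6,8,7,6,8,6],[8,10,10,9,8,8,10,9,8,8,10,7,9,9,8,8,8,10,7,9,9,6,8,6,10,8,10,7,7,9,6,8,8,8,7,7,9,6,8,8,7,6,8,8,7,6,6,8],[10,8,8,9,10,10,8,8,9,9,7,10,8,8,9,8,8,6,9,7,7,10,8,10,6,8,6,9,9,7,10,8,8,7,8,8,6,9,7,7,8,8,6,6,7,8,8,6],[8,10,8,9,10,8,10,8,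9,7,9,8,10,8,9,8,6,8,7,9,7,8,10,6,10,6,8,9,7,9,8,10,8,7,8,6,8,7,9,7,8,6,8,6,7,8,6,8],[8,8,10,9,8,10,10,8,7,9,9,8,8,10,9,6,8,8,7,7,9,6,6,8,8,10,10,7,9,9,8,8,10,7,6,8,8,7,7,9,8,6,6,8,7,6,8,8],[8,8,8,9,10,10,10,7,8,8,8,9,9,9,10,6,6,6,7,7,7,8,8,8,8,8,8,9,9,9,10,10,10,6,7,7,7,8,8,8,9,6,6,6,7,8,8,8],[10,10,8,8,8,6,6,10,10,8,8,8,8,6,6,12,10,10,10,10,8,10,10,8,8,6,6,8,6,6,6,6,4,10,10,8,8,8,8,6,6,10,10,8,8,8,6,6],[10,8,10,8,6,8,6,10,8,10,8,8,6,8,6,10,12,10,10,8,10,8,6,10,6,10,8,6,8,6,6,4,6,10,8,10,8,8,6,8,6,10,8,10,8,6,8,6],[8,10,10,8,6,6,8,10,8,8,10,6,8,8,6,10,10,12,8,10,10,6,8,6,10,8,10,6,6,8,4,6,6,10,8,8,10,6,8,8,6,8,10,10,8,6,6,8],[10,8,8,8,8,8,6,9,9,9,7,9,7,7,7,10,10,8,10,8,8,10,8,10,6,8,6,8,8,6,8,6,6,9,9,9,7,9,7,7,7,10,8,8,8,8,8,6],[8,10,8,8,8,6,8,9,9,7,9,7,9,7,7,10,8,10,8,10,8,8,10,6,10,6,8,8,6,8,6,8,6,9,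9,7,9,7,9,7,7,8,10,8,8,8,6,8],[8,8,10,8,6,8,8,9,7,9,9,7,7,9,7,8,10,10,8,8,10,6,6,8,8,10,10,6,8,8,6,6,8,9,7,9,9,7,7,9,7,8,8,10,8,6,8,8],[10,8,6,8,10,8,6,8,10,8,6,10,8,6,8,10,8,6,10,8,6,12,10,10,6,6,4,10,8,6,10,8,6,8,10,8,6,10,8,6,8,10,8,6,8,10,8,6],[8,10,6,8,10,6,8,8,10,6,8,8,10,6,8,10,6,8,8,10,6,10,12,6,10,4,6,10,6,8,8,10,6,8,10,6,8,8,10,6,8,8,10,6,8,10,6,8],[10,6,8,8,8,10,6,8,8,10,6,10,6,8,8,8,10,6,10,6,8,10,6,12,4,10,6,8,10,6,10,6,8,8,8,10,6,10,6,8,8,10,6,8,8,8,10,6],[6,10,8,8,8,6,10,8,8,6,10,6,10,8,8,8,6,10,6,10,8,6,10,4,12,6,10,8,6,10,6,10,8,8,8,6,10,6,10,8,8,6,10,8,8,8,6,10],[8,6,10,8,6,10,8,8,6,10,8,8,6,10,8,6,10,8,8,6,10,6,4,10,6,12,10,6,10,8,8,6,10,8,6,10,8,8,6,10,8,8,6,10,8,6,10,8],[6,8,10,8,6,8,10,8,6,8,10,6,8,10,8,6,8,10,6,8,10,4,6,6,10,10,12,6,8,10,6,8,10,8,6,8,10,6,8,10,8,6,8,10,8,6,8,10],[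8,8,6,8,10,8,8,7,9,7,7,9,9,7,9,8,6,6,8,8,6,10,10,8,8,6,6,10,8,8,10,10,8,7,9,7,7,9,9,7,9,8,8,6,8,10,8,8],[8,6,8,8,8,10,8,7,7,9,7,9,7,9,9,6,8,6,8,6,8,8,6,10,6,10,8,8,10,8,10,8,10,7,7,9,7,9,7,9,9,8,6,8,8,8,10,8],[6,8,8,8,8,8,10,7,7,7,9,7,9,9,9,6,6,8,6,8,8,6,8,6,10,8,10,8,8,10,8,10,10,7,7,7,9,7,9,9,9,6,8,8,8,8,8,10],[8,6,6,8,10,10,8,6,8,8,6,10,8,8,10,6,6,4,8,6,6,10,8,10,6,8,6,10,10,8,12,10,10,6,8,8,6,10,8,8,10,8,6,6,8,10,10,8],[6,8,6,8,10,8,10,6,8,6,8,8,10,8,10,6,4,6,6,8,6,8,10,6,10,6,8,10,8,10,10,12,10,6,8,6,8,8,10,8,10,6,8,6,8,10,8,10],[6,6,8,8,8,10,10,6,6,8,8,8,8,10,10,4,6,6,6,6,8,6,6,8,8,10,10,8,10,10,10,10,12,6,6,8,8,8,8,10,10,6,6,8,8,8,10,10],[8,8,8,7,6,6,6,9,8,8,8,7,7,7,6,10,10,10,9,9,9,8,8,8,8,8,8,7,7,7,6,6,6,10,9,9,9,8,8,8,7,10,10,10,9,8,8,8],[8,8,6,7,8,6,6,8,9,7,7,8,8,6,7,10,8,8,9,9,7,10,10,8,8,6,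6,9,7,7,8,8,6,9,10,8,8,9,9,7,8,10,10,8,9,10,8,8],[8,6,8,7,6,8,6,8,7,9,7,8,6,8,7,8,10,8,9,7,9,8,6,10,6,10,8,7,9,7,8,6,8,9,8,10,8,9,7,9,8,10,8,10,9,8,10,8],[6,8,8,7,6,6,8,8,7,7,9,6,8,8,7,8,8,10,7,9,9,6,8,6,10,8,10,7,7,9,6,8,8,9,8,8,10,7,9,9,8,8,10,10,9,8,8,10],[8,6,6,7,8,8,6,7,8,8,6,9,7,7,8,8,8,6,9,7,7,10,8,10,6,8,6,9,9,7,10,8,8,8,9,9,7,10,8,8,9,10,8,8,9,10,10,8],[6,8,6,7,8,6,8,7,8,6,8,7,9,7,8,8,6,8,7,9,7,8,10,6,10,6,8,9,7,9,8,10,8,8,9,7,9,8,10,8,9,8,10,8,9,10,8,10],[6,6,8,7,6,8,8,7,6,8,8,7,7,9,8,6,8,8,7,7,9,6,6,8,8,10,10,7,9,9,8,8,10,8,7,9,9,8,8,10,9,8,8,10,9,8,10,10],[6,6,6,7,8,8,8,6,7,7,7,8,8,8,9,6,6,6,7,7,7,8,8,8,8,8,8,9,9,9,10,10,10,7,8,8,8,9,9,9,10,8,8,8,9,10,10,10],[8,6,6,6,6,6,4,8,8,8,6,8,6,6,6,10,10,8,10,8,8,10,8,10,6,8,6,8,8,6,8,6,6,10,10,10,8,10,8,8,8,12,10,10,10,10,10,8],[6,8,6,6,6,4,6,8,8,6,8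,6,8,6,6,10,8,10,8,10,8,8,10,6,10,6,8,8,6,8,6,8,6,10,10,8,10,8,10,8,8,10,12,10,10,10,8,10],[6,6,8,6,4,6,6,8,6,8,8,6,6,8,6,8,10,10,8,8,10,6,6,8,8,10,10,6,8,8,6,6,8,10,8,10,10,8,8,10,8,10,10,12,10,8,10,10],[6,6,6,6,6,6,6,7,7,7,7,7,7,7,7,8,8,8,8,8,8,8,8,8,8,8,8,8,8,8,8,8,8,9,9,9,9,9,9,9,9,10,10,10,10,10,10,10],[6,6,4,6,8,6,6,6,8,6,6,8,8,6,8,8,6,6,8,8,6,10,10,8,8,6,6,10,8,8,10,10,8,8,10,8,8,10,10,8,10,10,10,8,10,12,10,10],[6,4,6,6,6,8,6,6,6,8,6,8,6,8,8,6,8,6,8,6,8,8,6,10,6,10,8,8,10,8,10,8,10,8,8,10,8,10,8,10,10,10,8,10,10,10,12,10],[4,6,6,6,6,6,8,6,6,6,8,6,8,8,8,6,6,8,6,8,8,6,8,6,10,8,10,8,8,10,8,10,10,8,8,8,10,8,10,10,10,8,10,10,10,10,10,12]]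

def ipf (x y : ℕ) : ℕ := (ipT.getD x []).getD y 0

theorem ip_gen : ∀ i, i < 4 → ∀ x, x < 48 → ∀ y, y < 48 → ipf (TF4.T.w (chevF4.simple i) x) (TF4.T.w (chevF4.simple i) y) = ipf x y := by decide +kernel

lemma ip_W {w : Equiv.Perm (Fin chevF4.nroots)} (hw : w ∈ WW checks) (x y : Fin chevF4.nroots) : ipf (w x) (w y) = ipf x y := by
  unfold WW WJ at hw
  induction hw using Subgroup.closure_induction_left with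
  | one => rfl
  | mul_left g hg v hv ih =>
    obtain ⟨i, hi, rfl⟩ := hg
    rw [Equiv.Perm.mul_apply, Equiv.Perm.mul_apply, wPn_apply checks hi, wPn_apply checks hi, ip_gen i hi _ (v x).2 _ (v y).2]
    exact ih
  | inv_mul_cancel g hg v hv ih =>
    obtain ⟨i, hi, rfl⟩ := hg
    rw [wPn_inv, Equiv.Perm.mul_apply, Equiv.Perm.mul_apply, wPn_apply checks hi, wPn_apply checks hi, ip_gen i hi _ (v x).2 _ (v y).2]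
    exact ih

set_option synthInstance.maxSize 2000 in
set_option synthInstance.maxHeartbeats 1000000 in
theorem F1chk : ∀ a ∈ L6, ∀ d ∈ L6, ∀ s ∈ L6, ∀ t ∈ L6, ipf a a = ipf 39 39 → ipf d d = ipf 45 45 → ipf s s = ipf 39 39 → ipf t t = ipf 45 45 →
    ipf a d = ipf 39 45 → ipf 39 a = ipf s 39 → ipf 39 d = ipf s 45 → ipf 45 a = ipf t 39 → ipf 45 d = ipf t 45 → ipf 39 45 = ipf s t → a = 39 ∧ d = 45 := by decide +kernel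

theorem F2chk : ∀ x, x < 48 → (ipf x 39 = ipf 27 39 → ipf x 45 = ipf 27 45 → ipf x x = ipf 27 27 → 24 ≤ x) ∧ (ipf x 39 = ipf 25 39 → ipf x 45 = ipf 25 45 → ipf x x = ipf 25 25 → 24 ≤ x) := by decide +kernel

lemma F1 {w : Equiv.Perm (Fin chevF4.nroots)} (hw : w ∈ WW checks) {s t : ℕ} (hs : s ∈ L6) (ht : t ∈ L6)
    (hs' : ((w ⟨s, L6lt s hs⟩ : Fin chevF4.nroots) : ℕ) = 39) (ht' : ((w ⟨t, L6lt t ht⟩ : Fin chevF4.nroots) : ℕ) = 45)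
    (h39 : ((w ⟨39, by decide +kernel⟩ : Fin chevF4.nroots) : ℕ) ∈ L6) (h45 : ((w ⟨45, by decide +kernel⟩ : Fin chevF4.nroots) : ℕ) ∈ L6) :
    ((w ⟨39, by decide +kernel⟩ : Fin chevF4.nroots) : ℕ) = 39 ∧ ((w ⟨45, by decide +kernel⟩ : Fin chevF4.nroots) : ℕ) = 45 := by
  have I := ip_W hw
  refine F1chk _ h39 _ h45 s hs t ht (I _ _) (I _ _) ?_ ?_ (I _ _) ?_ ?_ ?_ ?_ ?_
  · have := I ⟨s, L6lt s hs⟩ ⟨s, L6lt s hs⟩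
    rw [hs'] at this
    exact this.symm
  · have := I ⟨t, L6lt t ht⟩ ⟨t, L6lt t ht⟩
    rw [ht'] at this
    exact this.symm
  · have := I ⟨s, L6lt s hs⟩ ⟨39, by decide +kernel⟩
    rw [hs'] at this
    exact this
  · have := I ⟨s, L6lt s hs⟩ ⟨45, by decide +kernel⟩
    rw [hs'] at this
    exact this
  · have := I ⟨t, L6lt t ht⟩ ⟨39, by decide +kernel⟩
    rw [ht'] at this
    exact this
  · have := I ⟨t, L6lt t ht⟩ ⟨45, by decide +kernel⟩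
    rw [ht'] at this
    exact this
  · have := I ⟨s, L6lt s hs⟩ ⟨t, L6lt t ht⟩
    rw [hs', ht'] at this
    exact this

lemma F2 {w : Equiv.Perm (Fin chevF4.nroots)} (hw : w ∈ WW checks) (h39 : w ⟨39, by decide +kernel⟩ = ⟨39, by decide +kernel⟩) (h45 : w ⟨45, by decide +kernel⟩ = ⟨45, by decide +kernel⟩) :
    24 ≤ ((w ⟨27, by decide +kernel⟩ : Fin chevF4.nroots) : ℕ) ∧ 24 ≤ ((w ⟨25, by decide +kernel⟩ : Fin chevF4.nroots) : ℕ) := by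
  have I := ip_W hw
  constructor
  · refine (F2chk _ (w ⟨27, by decide +kernel⟩).2).1 ?_ ?_ (I _ _)
    · have := I ⟨27, by decide +kernel⟩ ⟨39, by decide +kernel⟩
      rw [h39] at this
      exact this
    · have := I ⟨27, by decide +kernel⟩ ⟨45, by decide +kernel⟩
      rw [h45] at this
      exact this
  · refine (F2chk _ (w ⟨25, by decide +kernel⟩).2).2 ?_ ?_ (I _ _)
    · have := I ⟨25, by decide +kernel⟩ ⟨39, by decide +kernel⟩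
      rw [h39] at this
      exact this
    · have := I ⟨25, by decide +kernel⟩ ⟨45, by decide +kernel⟩
      rw [h45] at this
      exact this

theorem z2c : ∀ s ∈ Z2L, (s ≠ 39 → s ≠ negF chevF4 39 ∧ ∀ c ∈ chevF4.commTerms 39 s, c.2.1 % 2 = 0) ∧ (s ≠ 45 → s ≠ negF chevF4 45 ∧ ∀ c ∈ chevF4.commTerms 45 s, c.2.1 % 2 = 0) := by decide +kernel


end Cfsg.Agent.H04.Col.F4C
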