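import Cfsg.Agent.Lib.H04.Col.F4Ca

/-!
# Centralizers of the remaining involutions of `F₄(q)`, `q` even
-/

set_option autoImplicit false
set_option linter.style.longLine false
set_option linter.unusedSimpArgs false
set_option linter.unusedSectionVars false
set_option linter.unusedVariables false
set_option maxRecDepth 100000

open Cfsg.Lie Cfsg.Agent.H04.Chev Cfsg.Agent.H04.Long
open Cfsg.Agent.H04.Chev.TF4

namespace Cfsg.Agent.H04.Col.F4C

variable {F : Type*} [Field F]


section main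
variable [CharP F 2]

lemma comm39 {s : ℕ} (hs : s ∈ Z2L) (u t : F) : xG checks s u * xG checks 39 t = xG checks 39 t * xG checks s u := by
  by_cases h : s = 39
  · subst h
    exact xG_comm_self checks _ _ _
  · have h0 : s < chevF4.nroots := by
      revert s
      decide +kernel
    obtain ⟨h1, h2⟩ := (z2c s hs).1 h
    exact Cfsg.Agent.H04.Tf.xG_comm_even checks (by decide +kernel) h0 h h1 h2 t u

lemma comm45 {s : ℕ} (hs : s ∈ Z2L) (u t : F) : xG checks s u * xG checks 45 t = xG checks 45 t * xG checks s u := by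
  by_cases h : s = 45
  · subst h
    exact xG_comm_self checks _ _ _
  · have h0 : s < chevF4.nroots := by
      revert s
      decide +kernel
    obtain ⟨h1, h2⟩ := (z2c s hs).2 h
    exact Cfsg.Agent.H04.Tf.xG_comm_even checks (by decide +kernel) h0 h h1 h2 t u

lemma x_in_cent {s : ℕ} (hs : s ∈ Z2L) (u : F) : xG checks s u ∈ chevF4.group F ⊓ Subgroup.centralizer {xG checks 39 (1 : F) * xG checks 45 1} := by
  have h0 : s < chevF4.nroots := by
    revert s
    decide +kernel
  refine Subgroup.mem_inf.mpr ⟨xG_mem_group checks h0 u, ?_⟩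
  rw [Subgroup.mem_centralizer_iff]
  intro y hy
  rw [Set.mem_singleton_iff] at hy
  subst hy
  calc xG checks 39 1 * xG checks 45 1 * xG checks s u = xG checks 39 1 * (xG checks 45 1 * xG checks s u) := by group
    _ = xG checks 39 1 * (xG checks s u * xG checks 45 1) := by rw [comm45 hs]
    _ = (xG checks 39 1 * xG checks s u) * xG checks 45 1 := by group
    _ = (xG checks s u * xG checks 39 1) * xG checks 45 1 := by rw [comm39 hs]
    _ = _ := by group

lemma Z2_le : Z2 F ≤ chevF4.group F ⊓ Subgroup.centralizer {xG checks 39 (1 : F) * xG checks 45 1} := by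
  have hr : ∀ s ∈ Z2L, chevF4.rootSubgroup F s ≤ chevF4.group F ⊓ Subgroup.centralizer {xG checks 39 (1 : F) * xG checks 45 1} := by
    intro s hs g hg
    obtain ⟨t, rfl⟩ := (mem_rootSubgroup checks).mp hg
    exact x_in_cent hs t
  unfold Z2
  refine sup_le (sup_le (sup_le (sup_le (hr 33 (by decide)) (hr 14 (by decide))) (hr 24 (by decide))) (hr 23 (by decide))) ?_
  rw [Subgroup.closure_le]
  rintro g ⟨r, c, h1, h2, h3⟩
  have e : g = xG checks r c := Units.ext (by rw [h3, xG_val])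
  subst e
  have h4 := (checks2.pos_iff r).mp h1
  have hr1 : r ∈ Z2L := by
    obtain ⟨h5, h6⟩ := h4
    have h5' : 24 ≤ r := h5
    have h6' : r < 48 := h6
    clear h1 h3 h5 h6
    interval_cases r <;> first | decide | (exact absurd (by decide) h2)
  exact x_in_cent hr1 c

/-- the subgroup containing everything that occurs -/
noncomputable def KK (F : Type*) [Field F] : Subgroup (GL chevF4.Idx F) :=
  Subgroup.closure {g | ∃ (r : ℕ) (t : F), (r = 14 ∨ r = 23 ∨ (24 ≤ r ∧ r < 48)) ∧ g = xG checks r t}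

omit [CharP F 2] in
lemma KK_x {r : ℕ} (hr : r = 14 ∨ r = 23 ∨ (24 ≤ r ∧ r < 48)) (t : F) : xG checks r t ∈ KK F :=
  Subgroup.subset_closure ⟨r, t, hr, rfl⟩

omit [CharP F 2] in
lemma U_le_KK : chevF4.posUnipotent F ≤ KK F := by
  intro g hg
  obtain ⟨t, rfl⟩ := exists_W hg
  unfold wordFrom
  apply word_mem
  intro p hp
  obtain ⟨r, hr, rfl⟩ := List.mem_map.mp hp
  have hr' := List.mem_range'_1.mp hr
  exact KK_x (Or.inr (Or.inr ⟨hr'.1, by have := hr'.2; change r < 24 + 24 at this; omega⟩)) _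

omit [CharP F 2] in
lemma Z2_le_KK : Z2 F ≤ KK F := by
  have hr : ∀ s, (s = 14 ∨ s = 23 ∨ (24 ≤ s ∧ s < 48)) → chevF4.rootSubgroup F s ≤ KK F := by
    intro s hs g hg
    obtain ⟨t, rfl⟩ := (mem_rootSubgroup checks).mp hg
    exact KK_x hs t
  unfold Z2
  refine sup_le (sup_le (sup_le (sup_le (hr 33 (by omega)) (hr 14 (by omega))) (hr 24 (by omega))) (hr 23 (by omega))) ?_
  rw [Subgroup.closure_le]
  rintro g ⟨r, c, h1, h2, h3⟩
  have e : g = xG checks r c := Units.ext (by rw [h3, xG_val])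
  subst e
  have h4 := (checks2.pos_iff r).mp h1
  exact KK_x (Or.inr (Or.inr ⟨h4.1, h4.2⟩)) c

/-- the shape of the elements of `KK` -/
def Shp (κ : GL chevF4.Idx F) : Prop := ∃ (a b c d : F), ∃ z ∈ Z2 F, κ = VV a b c d * z

lemma Shp_step {r : ℕ} (hr : r = 14 ∨ r = 23 ∨ (24 ≤ r ∧ r < 48)) (t : F) {κ : GL chevF4.Idx F} (h : Shp κ) : Shp (xG checks r t * κ) := by
  obtain ⟨a, b, c, d, z, hz, rfl⟩ := h
  have aux : ∀ {w ρ : GL chevF4.Idx F} {a' b' c' d' : F}, w ∈ Z2 F → xG checks r t * VV a b c d * w = VV a' b' c' d' * ρ → ρ ∈ Z2 F →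
      Shp (xG checks r t * (VV a b c d * z)) := by
    intro w ρ a' b' c' d' hw e hρ
    refine ⟨a', b', c', d', ρ * (w⁻¹ * z), mul_mem hρ (mul_mem (inv_mem hw) hz), ?_⟩
    calc xG checks r t * (VV a b c d * z) = (xG checks r t * VV a b c d * w) * (w⁻¹ * z) := by group
      _ = _ := by rw [e]; group
  have aux0 : ∀ {ρ : GL chevF4.Idx F} {a' b' c' d' : F}, xG checks r t * VV a b c d = VV a' b' c' d' * ρ → ρ ∈ Z2 F →
      Shp (xG checks r t * (VV a b c d * z)) := by
    intro ρ a' b' c' d' e hρ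
    exact aux (one_mem _) (by rw [mul_one]; exact e) hρ
  rcases hr with rfl | rfl | ⟨h0, h1⟩
  · exact aux (Z2x (by decide) t) (KF14 t a b c d) RR_mem
  · exact aux (Z2x (by decide) t) (KF23 t a b c d) RR_mem
  · interval_cases r
    · exact aux0 (KF24 t a b c d) RR_mem
    · exact aux0 (KF25 t a b c d) RR_mem
    · exact aux0 (KF26 t a b c d) RR_mem
    · exact aux0 (KF27 t a b c d) RR_mem
    · exact aux0 (KF28 t a b c d) RR_mem
    · exact aux0 (KF29 t a b c d) RR_mem
    · exact aux0 (KF30 t a b c d) RR_mem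
    · exact aux0 (KF31 t a b c d) RR_mem
    · exact aux0 (KF32 t a b c d) RR_mem
    · exact aux0 (KF33 t a b c d) RR_mem
    · exact aux0 (KF34 t a b c d) RR_mem
    · exact aux0 (KF35 t a b c d) RR_mem
    · exact aux0 (KF36 t a b c d) RR_mem
    · exact aux0 (KF37 t a b c d) RR_mem
    · exact aux0 (KF38 t a b c d) RR_mem
    · exact aux0 (KF39 t a b c d) RR_mem
    · exact aux0 (KF40 t a b c d) RR_mem
    · exact aux0 (KF41 t a b c d) RR_mem
    · exact aux0 (KF42 t a b c d) RR_mem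
    · exact aux0 (KF43 t a b c d) RR_mem
    · exact aux0 (KF44 t a b c d) RR_mem
    · exact aux0 (KF45 t a b c d) RR_mem
    · exact aux0 (KF46 t a b c d) RR_mem
    · exact aux0 (KF47 t a b c d) RR_mem

lemma KK_factor {κ : GL chevF4.Idx F} (h : κ ∈ KK F) : Shp κ := by
  unfold KK at h
  induction h using Subgroup.closure_induction_left with
  | one => exact ⟨0, 0, 0, 0, 1, one_mem _, by simp [VV, xG_zero]⟩
  | mul_left x hx y hy ih =>
    obtain ⟨r, t, hr, rfl⟩ := hx
    exact Shp_step hr t ih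
  | inv_mul_cancel x hx y hy ih =>
    obtain ⟨r, t, hr, rfl⟩ := hx
    rw [xG_inv2]
    exact Shp_step hr t ih

lemma tv_a (c : ℕ → Fˣ) : (tv TF4.U chevF4 (capply chevF4 c) 39 = (c 1)⁻¹ * c 2) ∧ (tv TF4.U chevF4 (capply chevF4 c) 45 = c 1 * c 1 * (c 2)⁻¹) := by
  have h39 : chevF4.cartan 0 39 = 0 ∧ chevF4.cartan 1 39 = -1 ∧ chevF4.cartan 2 39 = 1 ∧ chevF4.cartan 3 39 = 0 := by decide +kernel
  have h45 : chevF4.cartan 0 45 = 0 ∧ chevF4.cartan 1 45 = 2 ∧ chevF4.cartan 2 45 = -1 ∧ chevF4.cartan 3 45 = 0 := by decide +kernel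
  have hrk : List.range chevF4.rank = [0, 1, 2, 3] := rfl
  constructor
  · rw [tv_capply_list checks3 c (by decide +kernel), hrk]
    simp only [List.map_cons, List.map_nil, List.prod_cons, List.prod_nil, h39.1, h39.2.1, h39.2.2.1, h39.2.2.2, zpow_zero, zpow_neg_one, zpow_one, one_mul, mul_one]
  · rw [tv_capply_list checks3 c (by decide +kernel), hrk]
    simp only [List.map_cons, List.map_nil, List.prod_cons, List.prod_nil, h45.1, h45.2.1, h45.2.2.1, h45.2.2.2, zpow_zero, zpow_neg_one, one_mul, mul_one]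
    rw [show (2 : ℤ) = 1 + 1 by norm_num, zpow_add, zpow_one, mul_assoc]

lemma Q6_conj {n : GL chevF4.Idx F} {π π' : ℕ → ℕ} {d : ℕ → Fˣ} (ha : NAct checks n π π' d) (a b c e f g : F) :
    n * Q6 a b c e f g * n⁻¹ = wordG checks [(π 39, (d 39 : F) * a), (π 40, (d 40 : F) * b), (π 44, (d 44 : F) * c), (π 45, (d 45 : F) * e), (π 46, (d 46 : F) * f), (π 47, (d 47 : F) * g)] := by
  rw [Q6_cf, conj_WL checks ha L6 L6lt]
  rfl

lemma v0_eq : xG checks 39 (1 : F) * xG checks 45 1 = Q6 1 0 0 1 0 0 := by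
  simp only [Q6, wordG_cons, wordG_nil, xG_zero, one_mul, mul_one]

end main

end Cfsg.Agent.H04.Col.F4C
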