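import Cfsg.Agent.Lib.H04.Col.F4Cb

/-!
# Centralizers of the remaining involutions of `F₄(q)`, `q` even
-/

set_option autoImplicit false
set_option linter.style.longLine false
set_option linter.unusedSimpArgs false
set_option linter.unusedSectionVars false
set_option linter.unusedVariables false
set_option maxRecDepth 100000

open Cfsg.Lie Cfsg.Agent.H04.Chev Cfsg.Agent.H04.Long
open Cfsg.Agent.H04.Chev.TF4

namespace Cfsg.Agent.H04.Col.F4C

variable {F : Type*} [Field F]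


section main
variable [CharP F 2]

theorem cent2 : chevF4.group F ⊓ Subgroup.centralizer {xG checks 39 (1 : F) * xG checks 45 1} = Z2 F := by
  have hr39 : 39 < chevF4.nroots := by decide +kernel
  have hr45 : 45 < chevF4.nroots := by decide +kernel
  refine le_antisymm ?_ Z2_le
  have hZn : ∀ i, i < chevF4.rank → (i = 0 ∨ i = 3) → ∀ t : F, nG checks (chevF4.simple i) t ∈ Z2 F := by
    intro i hi e t
    rcases e with rfl | rfl
    · have e1 : chevF4.simple 0 = 33 := by decide +kernel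
      unfold nG Cfsg.Lie.ChevalleyDatum.nWord
      simp only [wordG_cons, wordG_nil, mul_one]
      rw [show chevF4.neg (chevF4.simple 0) = negF chevF4 (chevF4.simple 0) from checks.neg _ (checks.simple_lt 0 hi), e1,
        show negF chevF4 33 = 14 by decide +kernel]
      exact mul_mem (Z2x (by decide) _) (mul_mem (Z2x (by decide) _) (Z2x (by decide) _))
    · have e1 : chevF4.simple 3 = 24 := by decide +kernel
      unfold nG Cfsg.Lie.ChevalleyDatum.nWord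
      simp only [wordG_cons, wordG_nil, mul_one]
      rw [show chevF4.neg (chevF4.simple 3) = negF chevF4 (chevF4.simple 3) from checks.neg _ (checks.simple_lt 3 hi), e1,
        show negF chevF4 24 = 23 by decide +kernel]
      exact mul_mem (Z2x (by decide) _) (mul_mem (Z2x (by decide) _) (Z2x (by decide) _))
  have hcomm : ∀ x : GL chevF4.Idx F, x ∈ Subgroup.centralizer {xG checks 39 (1 : F) * xG checks 45 1} → x * (xG checks 39 1 * xG checks 45 1) * x⁻¹ = xG checks 39 1 * xG checks 45 1 := by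
    intro x hx
    rw [Subgroup.mem_centralizer_iff] at hx
    rw [← hx _ rfl]
    group
  rintro g ⟨hg, hgc⟩
  obtain ⟨b, hb, n, hn, π₀, π₀', d₀, ha₀, u, hu, rfl⟩ := bruhat_exists checks checks2 checks3 hg
  have huU : u ∈ chevF4.posUnipotent F := by
    rw [pos_eq_RS checks]
    refine (Subgroup.closure_mono ?_) hu
    rintro _ ⟨s, t, h1, h2, rfl⟩
    exact ⟨s, t, h1, (checks2.pos_iff s).mpr ⟨h2.1, h1⟩, rfl⟩
  obtain ⟨w, hw, π, π', d, ha, hπ⟩ := monomial_le_NW checks checks3 hn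
  have h1 := hcomm _ hgc
  have hy0 := U_orbit huU (1 : F) 0 0 1 0 0
  obtain ⟨A, B', C', D', hy⟩ := hy0
  obtain ⟨u₁, hu₁, k, hk, e₁⟩ := (mem_borel_iff checks checks2 checks3).mp (inv_mem hb)
  rw [diagonal_eq checks checks3] at hk
  obtain ⟨c₁, rfl⟩ := mem_HT.mp hk
  set χ₁ : F := (tv TF4.U chevF4 (capply chevF4 c₁) 39 : F) with hχ₁
  set χ₂ : F := (tv TF4.U chevF4 (capply chevF4 c₁) 45 : F) with hχ₂
  have hχ₁0 : χ₁ ≠ 0 := Units.ne_zero _
  have hχ₂0 : χ₂ ≠ 0 := Units.ne_zero _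
  have hk39 : hProd TF4.U chevF4 c₁ * xG checks 39 1 * (hProd TF4.U chevF4 c₁)⁻¹ = xG checks 39 (χ₁ * 1) :=
    (NAct_torus (F := F) checks checks3 (capply chevF4 c₁)).conj 39 hr39 1
  have hk45 : hProd TF4.U chevF4 c₁ * xG checks 45 1 * (hProd TF4.U chevF4 c₁)⁻¹ = xG checks 45 (χ₂ * 1) :=
    (NAct_torus (F := F) checks checks3 (capply chevF4 c₁)).conj 45 hr45 1
  rw [mul_one] at hk39 hk45
  obtain ⟨E1, E2, E3, E4, hy2⟩ := U_orbit hu₁ χ₁ 0 0 χ₂ 0 0
  have hM : n * Q6 1 A B' 1 C' D' * n⁻¹ = Q6 χ₁ E1 E2 χ₂ E3 E4 := by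
    rw [← hy2, ← hy]
    have e0 : Q6 χ₁ (0 : F) 0 χ₂ 0 0 = xG checks 39 χ₁ * xG checks 45 χ₂ := by
      simp only [Q6, wordG_cons, wordG_nil, xG_zero, one_mul, mul_one]
    rw [e0, ← hk39, ← hk45, ← v0_eq]
    have e2 : n * (u * (xG checks 39 1 * xG checks 45 1) * u⁻¹) * n⁻¹ = b⁻¹ * (b * n * u * (xG checks 39 1 * xG checks 45 1) * (b * n * u)⁻¹) * (b⁻¹)⁻¹ := by group
    rw [e2, h1, e₁]
    group
  have hdir := om_of ha hM
  have hMi : n⁻¹ * Q6 χ₁ E1 E2 χ₂ E3 E4 * (n⁻¹)⁻¹ = Q6 1 A B' 1 C' D' := by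
    rw [← hM]
    group
  have hinv := om_of ha.inv hMi
  have h39 := hdir.1 one_ne_zero
  have h45 := hdir.2 one_ne_zero
  have h39' := hinv.1 hχ₁0
  have h45' := hinv.2 hχ₂0
  -- the Weyl element
  have hw39 : ((w ⟨39, hr39⟩ : Fin chevF4.nroots) : ℕ) = π 39 := hπ ⟨39, hr39⟩
  have hw45 : ((w ⟨45, hr45⟩ : Fin chevF4.nroots) : ℕ) = π 45 := hπ ⟨45, hr45⟩
  have hfixes := F1 hw h39' h45' (by rw [hπ ⟨_, L6lt _ h39'⟩]; exact ha.right 39 hr39) (by rw [hπ ⟨_, L6lt _ h45'⟩]; exact ha.right 45 hr45)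
    (by rw [show ((w ⟨39, _⟩ : Fin chevF4.nroots) : ℕ) = π 39 from hw39]; exact h39) (by rw [show ((w ⟨45, _⟩ : Fin chevF4.nroots) : ℕ) = π 45 from hw45]; exact h45)
  have hΦ : w ⟨39, hr39⟩ = ⟨39, hr39⟩ ∧ w ⟨45, hr45⟩ = ⟨45, hr45⟩ := ⟨Fin.ext hfixes.1, Fin.ext hfixes.2⟩
  obtain ⟨h, hh, z, hz, rfl⟩ := N_factor' checks checks2 checks3 (Z := Z2 F) (J := fun i => i = 0 ∨ i = 3)
    (Φ := fun w => w ⟨39, hr39⟩ = ⟨39, hr39⟩ ∧ w ⟨45, hr45⟩ = ⟨45, hr45⟩) (fun i hi e => hZn i hi e 1)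
    (by
      intro w hw hΦ i hi hneg
      have hc := F2 hw hΦ.1 hΦ.2
      have hi' : i < 4 := hi
      by_contra hJ
      have : i = 1 ∨ i = 2 := by
        simp only [not_or] at hJ
        omega
      rcases this with rfl | rfl
      · have e : chevF4.simple 1 = 27 := by decide +kernel
        have h27 : 24 ≤ ((w ⟨27, by decide +kernel⟩ : Fin chevF4.nroots) : ℕ) := hc.1
        have hn : ((w ⟨chevF4.simple 1, checks.simple_lt 1 hi⟩ : Fin chevF4.nroots) : ℕ) < 24 := hneg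
        simp only [e] at hn
        omega
      · have e : chevF4.simple 2 = 25 := by decide +kernel
        have h25 : 24 ≤ ((w ⟨25, by decide +kernel⟩ : Fin chevF4.nroots) : ℕ) := hc.2
        have hn : ((w ⟨chevF4.simple 2, checks.simple_lt 2 hi⟩ : Fin chevF4.nroots) : ℕ) < 24 := hneg
        simp only [e] at hn
        omega)
    (by
      intro w hw hΦ i hi hJ
      have hfix : ∀ s (hs : s < chevF4.nroots), (s = 39 ∨ s = 45) → wPn checks i ⟨s, hs⟩ = ⟨s, hs⟩ := by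
        intro s hs hs'
        apply Fin.ext
        rw [wPn_apply checks hi]
        have f4 : ∀ i ∈ [0, 3], ∀ s ∈ [39, 45], TF4.T.w (chevF4.simple i) s = s := by decide +kernel
        rcases hJ with rfl | rfl <;> rcases hs' with rfl | rfl
        · exact f4 0 (by decide) 39 (by decide)
        · exact f4 0 (by decide) 45 (by decide)
        · exact f4 3 (by decide) 39 (by decide)
        · exact f4 3 (by decide) 45 (by decide)
      constructor
      · rw [Equiv.Perm.mul_apply, hfix _ _ (Or.inl rfl)]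
        exact hΦ.1
      · rw [Equiv.Perm.mul_apply, hfix _ _ (Or.inr rfl)]
        exact hΦ.2)
    _ w hw rfl hΦ n hn π π' d ha hπ
  have hzc := (Z2_le hz).2
  have hbh : (b * h)⁻¹ ∈ chevF4.borelSubgroup F := inv_mem (mul_mem hb (H_le_B hh))
  obtain ⟨u₃, hu₃, k₃, hk₃, e₃⟩ := (mem_borel_iff checks checks2 checks3).mp hbh
  have hk₃' : k₃⁻¹ ∈ chevF4.diagonalSubgroup F := inv_mem hk₃
  rw [diagonal_eq checks checks3] at hk₃'
  obtain ⟨c₂, e₄⟩ := mem_HT.mp hk₃'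
  have e₅ : b * h = hProd TF4.U chevF4 c₂ * u₃⁻¹ := by
    rw [← e₄, ← mul_inv_rev, ← e₃, inv_inv]
  have hκ : u₃⁻¹ * z * u ∈ KK F :=
    mul_mem (mul_mem (inv_mem (U_le_KK hu₃)) (Z2_le_KK hz)) (U_le_KK huU)
  obtain ⟨a1, a2, a3, a4, z₀, hz₀, e₆⟩ := KK_factor hκ
  have e₇ : b * (h * z) * u = hProd TF4.U chevF4 c₂ * VV a1 a2 a3 a4 * z₀ := by
    calc b * (h * z) * u = (b * h) * z * u := by group
      _ = hProd TF4.U chevF4 c₂ * (u₃⁻¹ * z * u) := by rw [e₅]; group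
      _ = _ := by rw [e₆]; group
  rw [e₇] at h1 ⊢
  have hz₀c := hcomm _ (Z2_le hz₀).2
  have h2 : (hProd TF4.U chevF4 c₂ * VV a1 a2 a3 a4) * (xG checks 39 1 * xG checks 45 1) * (hProd TF4.U chevF4 c₂ * VV a1 a2 a3 a4)⁻¹ = xG checks 39 1 * xG checks 45 1 := by
    have e : hProd TF4.U chevF4 c₂ * VV a1 a2 a3 a4 * z₀ * (xG checks 39 1 * xG checks 45 1) * (hProd TF4.U chevF4 c₂ * VV a1 a2 a3 a4 * z₀)⁻¹ =
        (hProd TF4.U chevF4 c₂ * VV a1 a2 a3 a4) * (z₀ * (xG checks 39 1 * xG checks 45 1) * z₀⁻¹) * (hProd TF4.U chevF4 c₂ * VV a1 a2 a3 a4)⁻¹ := by group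
    rw [e, hz₀c] at h1
    exact h1
  have hT := NAct_torus (F := F) checks checks3 (capply chevF4 c₂)
  have h4 : hProd TF4.U chevF4 c₂ * Q6 1 a1 a3 1 a2 a4 * (hProd TF4.U chevF4 c₂)⁻¹ = wordG checks [(39, (tv TF4.U chevF4 (capply chevF4 c₂) 39 : F) * 1), (40, (tv TF4.U chevF4 (capply chevF4 c₂) 40 : F) * a1), (44, (tv TF4.U chevF4 (capply chevF4 c₂) 44 : F) * a3), (45, (tv TF4.U chevF4 (capply chevF4 c₂) 45 : F) * 1), (46, (tv TF4.U chevF4 (capply chevF4 c₂) 46 : F) * a2), (47, (tv TF4.U chevF4 (capply chevF4 c₂) 47 : F) * a4)] :=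
    Q6_conj hT _ _ _ _ _ _
  have h5 : Q6 ((tv TF4.U chevF4 (capply chevF4 c₂) 39 : F) * 1) ((tv TF4.U chevF4 (capply chevF4 c₂) 40 : F) * a1) ((tv TF4.U chevF4 (capply chevF4 c₂) 44 : F) * a3) ((tv TF4.U chevF4 (capply chevF4 c₂) 45 : F) * 1) ((tv TF4.U chevF4 (capply chevF4 c₂) 46 : F) * a2) ((tv TF4.U chevF4 (capply chevF4 c₂) 47 : F) * a4) = Q6 (1 : F) 0 0 1 0 0 := by
    have e6 : Q6 ((tv TF4.U chevF4 (capply chevF4 c₂) 39 : F) * 1) ((tv TF4.U chevF4 (capply chevF4 c₂) 40 : F) * a1) ((tv TF4.U chevF4 (capply chevF4 c₂) 44 : F) * a3) ((tv TF4.U chevF4 (capply chevF4 c₂) 45 : F) * 1) ((tv TF4.U chevF4 (capply chevF4 c₂) 46 : F) * a2) ((tv TF4.U chevF4 (capply chevF4 c₂) 47 : F) * a4) = hProd TF4.U chevF4 c₂ * Q6 1 a1 a3 1 a2 a4 * (hProd TF4.U chevF4 c₂)⁻¹ := h4.symm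
    rw [e6, ← VQ', ← v0_eq]
    have : hProd TF4.U chevF4 c₂ * (VV a1 a2 a3 a4 * (xG checks 39 1 * xG checks 45 1) * (VV a1 a2 a3 a4)⁻¹) * (hProd TF4.U chevF4 c₂)⁻¹ = (hProd TF4.U chevF4 c₂ * VV a1 a2 a3 a4) * (xG checks 39 1 * xG checks 45 1) * (hProd TF4.U chevF4 c₂ * VV a1 a2 a3 a4)⁻¹ := by group
    rw [this, h2]
  obtain ⟨p1, p2, p3, p4, p5, p6⟩ := Q6_inj h5
  have ha1 : a1 = 0 := (mul_eq_zero.mp p2).resolve_left (Units.ne_zero _)
  have ha3 : a3 = 0 := (mul_eq_zero.mp p3).resolve_left (Units.ne_zero _)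
  have ha2 : a2 = 0 := (mul_eq_zero.mp p5).resolve_left (Units.ne_zero _)
  have ha4 : a4 = 0 := (mul_eq_zero.mp p6).resolve_left (Units.ne_zero _)
  have hχ39 : tv TF4.U chevF4 (capply chevF4 c₂) 39 = 1 := by
    apply Units.ext
    rw [Units.val_one]
    simpa using p1
  have hχ45 : tv TF4.U chevF4 (capply chevF4 c₂) 45 = 1 := by
    apply Units.ext
    rw [Units.val_one]
    simpa using p4
  obtain ⟨q1, q2⟩ := tv_a c₂
  rw [hχ39] at q1
  rw [hχ45] at q2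
  have c2eq : c₂ 2 = c₂ 1 := by
    have := q1.symm
    rw [inv_mul_eq_one] at this
    exact this.symm
  have c1eq : c₂ 1 = 1 := by
    have q3 := q2.symm
    rw [c2eq, mul_inv_cancel_right] at q3
    exact q3
  have c2eq' : c₂ 2 = 1 := c2eq.trans c1eq
  have hkZ := hProd_mem' checks checks3 (Z := Z2 F) (J := fun i => i = 0 ∨ i = 3) hZn (c := c₂) (by
    intro i hi hJ
    have hi' : i < 4 := hi
    have : i = 1 ∨ i = 2 := by
      simp only [not_or] at hJ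
      omega
    rcases this with rfl | rfl
    · exact c1eq
    · exact c2eq')
  rw [ha1, ha2, ha3, ha4]
  have hV : VV (0 : F) 0 0 0 = 1 := by simp [VV, xG_zero]
  rw [hV, mul_one]
  exact mul_mem hkZ hz₀

end main

end Cfsg.Agent.H04.Col.F4C
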