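import Cfsg.Agent.Lib.H04.Col.F4Cb

/-!
# Centralizers of the remaining involutions of `F₄(q)`, `q` even
-/

set_option autoImplicit false
set_option linter.style.longLine false
set_option linter.unusedSimpArgs false
set_option linter.unusedSectionVars false
set_option linter.unusedVariables false
set_option maxRecDepth 100000

open Cfsg.Lie Cfsg.Agent.H04.Chev Cfsg.Agent.H04.Long
open Cfsg.Agent.H04.Chev.TF4

namespace Cfsg.Agent.H04.Col.F4C

variable {F : Type*} [Field F]


section main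
variable [CharP F 2]

/-! ### the first centralizer -/

theorem t44even : ∀ s, s < chevF4.nroots → chevF4.nroots / 2 ≤ s → s ≠ 44 → ∀ c ∈ chevF4.commTerms 44 s, c.2.1 % 2 = 0 := by decide +kernel

lemma hU47 : ∀ s, chevF4.nroots / 2 ≤ s → s < chevF4.nroots → ∀ t a : F, xG checks s t * xG checks 47 a = xG checks 47 a * xG checks s t := by
  intro s h0 h1 t a
  by_cases hsr : s = 47
  · subst hsr
    exact (xG_comm_self checks _ _ _).symm
  · have hn : s ≠ negF chevF4 47 := by
      intro e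
      rw [e] at h0
      revert h0
      decide +kernel
    exact comm_of_terms checks (by decide +kernel) h1 hsr hn (topF4 s h1 h0 hsr) a t

lemma hU44 : ∀ s, chevF4.nroots / 2 ≤ s → s < chevF4.nroots → ∀ t a : F, xG checks s t * xG checks 44 a = xG checks 44 a * xG checks s t := by
  intro s h0 h1 t a
  by_cases hsr : s = 44
  · subst hsr
    exact (xG_comm_self checks _ _ _).symm
  · have hn : s ≠ negF chevF4 44 := by
      intro e
      rw [e] at h0
      revert h0
      decide +kernel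
    exact Cfsg.Agent.H04.Tf.xG_comm_even checks (by decide +kernel) h1 hsr hn (t44even s h1 h0 hsr) a t

/-- the first target -/
noncomputable def Z1 (F : Type*) [Field F] : Subgroup (GL chevF4.Idx F) :=
  chevF4.posUnipotent F ⊔ chevF4.rootSubgroup F 20 ⊔ chevF4.rootSubgroup F 22

omit [CharP F 2] in
lemma Z1x {r : ℕ} (hr : r = 20 ∨ r = 22 ∨ r = 27 ∨ r = 25) (t : F) : xG checks r t ∈ Z1 F := by
  unfold Z1
  rcases hr with rfl | rfl | rfl | rfl
  · exact Subgroup.mem_sup_left (Subgroup.mem_sup_right ((mem_rootSubgroup checks).mpr ⟨t, rfl⟩))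
  · exact Subgroup.mem_sup_right ((mem_rootSubgroup checks).mpr ⟨t, rfl⟩)
  · exact Subgroup.mem_sup_left (Subgroup.mem_sup_left (xG_mem_pos checks ((checks2.pos_iff _).mpr ⟨by decide +kernel, by decide +kernel⟩) _))
  · exact Subgroup.mem_sup_left (Subgroup.mem_sup_left (xG_mem_pos checks ((checks2.pos_iff _).mpr ⟨by decide +kernel, by decide +kernel⟩) _))

theorem t1a : ∀ s ∈ [20, 22], s < chevF4.nroots ∧ s ≠ 47 ∧ s ≠ negF chevF4 47 ∧ chevF4.commTerms 47 s = [] := by decide +kernel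
theorem t1b : ∀ s ∈ [20, 22], s < chevF4.nroots ∧ s ≠ 44 ∧ s ≠ negF chevF4 44 ∧ ∀ c ∈ chevF4.commTerms 44 s, c.2.1 % 2 = 0 := by decide +kernel

lemma U_cent1 {u : GL chevF4.Idx F} (hu : u ∈ chevF4.posUnipotent F) : u * (xG checks 47 1 * xG checks 44 1) * u⁻¹ = xG checks 47 1 * xG checks 44 1 := by
  have e1 := U_central checks checks2 hU47 hu (1 : F)
  have e2 := U_central checks checks2 hU44 hu (1 : F)
  calc u * (xG checks 47 1 * xG checks 44 1) * u⁻¹ = (u * xG checks 47 1 * u⁻¹) * (u * xG checks 44 1 * u⁻¹) := by group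
    _ = _ := by rw [e1, e2]

lemma c1_mem {g : GL chevF4.Idx F} (hg : g ∈ chevF4.group F) (e : g * (xG checks 47 1 * xG checks 44 1) * g⁻¹ = xG checks 47 1 * xG checks 44 1) :
    g ∈ chevF4.group F ⊓ Subgroup.centralizer {xG checks 47 (1 : F) * xG checks 44 1} := by
  refine Subgroup.mem_inf.mpr ⟨hg, ?_⟩
  rw [Subgroup.mem_centralizer_iff]
  intro y hy
  rw [Set.mem_singleton_iff] at hy
  subst hy
  calc xG checks 47 1 * xG checks 44 1 * g = (g * (xG checks 47 1 * xG checks 44 1) * g⁻¹) * g := by rw [e]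
    _ = _ := by group

lemma Z1_le : Z1 F ≤ chevF4.group F ⊓ Subgroup.centralizer {xG checks 47 (1 : F) * xG checks 44 1} := by
  have hr : ∀ s ∈ [20, 22], chevF4.rootSubgroup F s ≤ chevF4.group F ⊓ Subgroup.centralizer {xG checks 47 (1 : F) * xG checks 44 1} := by
    intro s hs g hg
    obtain ⟨t, rfl⟩ := (mem_rootSubgroup checks).mp hg
    obtain ⟨a1, a2, a3, a4⟩ := t1a s hs
    obtain ⟨b1, b2, b3, b4⟩ := t1b s hs
    have c1 := comm_of_terms checks (r := 47) (by decide +kernel) a1 a2 a3 a4 (1 : F) t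
    have c2 := Cfsg.Agent.H04.Tf.xG_comm_even checks (r := 44) (by decide +kernel) b1 b2 b3 b4 (1 : F) t
    apply c1_mem (xG_mem_group checks a1 t)
    calc xG checks s t * (xG checks 47 1 * xG checks 44 1) * (xG checks s t)⁻¹ = (xG checks s t * xG checks 47 1) * xG checks 44 1 * (xG checks s t)⁻¹ := by group
      _ = xG checks 47 1 * (xG checks s t * xG checks 44 1) * (xG checks s t)⁻¹ := by rw [c1]; group
      _ = xG checks 47 1 * (xG checks 44 1 * xG checks s t) * (xG checks s t)⁻¹ := by rw [c2]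
      _ = _ := by group
  unfold Z1
  refine sup_le (sup_le ?_ (hr 20 (by simp))) (hr 22 (by simp))
  intro u hu
  exact c1_mem (U_le_group checks hu) (U_cent1 hu)

theorem cw1_ok : ∀ r, r < 48 → r ≠ 44 → r ≠ 47 → 0 < evC TF4.U chevF4.rank (R (cw1 r)) r ∧ evC TF4.U chevF4.rank (R (cw1 r)) 44 ≤ 0 ∧ evC TF4.U chevF4.rank (R (cw1 r)) 47 ≤ 0 := by decide +kernel

theorem cent1 : chevF4.group F ⊓ Subgroup.centralizer {xG checks 47 (1 : F) * xG checks 44 1} = Z1 F := by
  have hr47 : 47 < chevF4.nroots := by decide +kernel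
  have hr44 : 44 < chevF4.nroots := by decide +kernel
  refine le_antisymm ?_ Z1_le
  have hZn : ∀ i, i < chevF4.rank → (i ≠ 0 ∧ i ≠ 3) → ∀ t : F, nG checks (chevF4.simple i) t ∈ Z1 F := by
    intro i hi e t
    have hi' : i < 4 := hi
    have : i = 1 ∨ i = 2 := by omega
    rcases this with rfl | rfl
    · have e1 : chevF4.simple 1 = 27 := by decide +kernel
      unfold nG Cfsg.Lie.ChevalleyDatum.nWord
      simp only [wordG_cons, wordG_nil, mul_one]
      rw [show chevF4.neg (chevF4.simple 1) = negF chevF4 (chevF4.simple 1) from checks.neg _ (checks.simple_lt 1 hi), e1,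
        show negF chevF4 27 = 20 by decide +kernel]
      exact mul_mem (Z1x (by omega) _) (mul_mem (Z1x (by omega) _) (Z1x (by omega) _))
    · have e1 : chevF4.simple 2 = 25 := by decide +kernel
      unfold nG Cfsg.Lie.ChevalleyDatum.nWord
      simp only [wordG_cons, wordG_nil, mul_one]
      rw [show chevF4.neg (chevF4.simple 2) = negF chevF4 (chevF4.simple 2) from checks.neg _ (checks.simple_lt 2 hi), e1,
        show negF chevF4 25 = 22 by decide +kernel]
      exact mul_mem (Z1x (by omega) _) (mul_mem (Z1x (by omega) _) (Z1x (by omega) _))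
  have hcomm : ∀ x : GL chevF4.Idx F, x ∈ Subgroup.centralizer {xG checks 47 (1 : F) * xG checks 44 1} → x * (xG checks 47 1 * xG checks 44 1) * x⁻¹ = xG checks 47 1 * xG checks 44 1 := by
    intro x hx
    rw [Subgroup.mem_centralizer_iff] at hx
    rw [← hx _ rfl]
    group
  have hpair : ∀ a b : F, xG checks 47 a * xG checks 44 b = Q6 0 0 b 0 0 a := by
    intro a b
    rw [← hU47 44 (by decide +kernel) hr44 b a]
    simp only [Q6, wordG_cons, wordG_nil, xG_zero, one_mul, mul_one]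
  rintro g ⟨hg, hgc⟩
  obtain ⟨b, hb, n, hn, π₀, π₀', d₀, ha₀, u, hu, rfl⟩ := bruhat_exists checks checks2 checks3 hg
  have huU : u ∈ chevF4.posUnipotent F := by
    rw [pos_eq_RS checks]
    refine (Subgroup.closure_mono ?_) hu
    rintro _ ⟨s, t, h1, h2, rfl⟩
    exact ⟨s, t, h1, (checks2.pos_iff s).mpr ⟨h2.1, h1⟩, rfl⟩
  obtain ⟨w, hw, π, π', d, ha, hπ⟩ := monomial_le_NW checks checks3 hn
  have h1 := hcomm _ hgc
  have h2 := U_cent1 huU
  have h3 : n * (xG checks 47 1 * xG checks 44 1) * n⁻¹ = b⁻¹ * (xG checks 47 1 * xG checks 44 1) * (b⁻¹)⁻¹ := by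
    have e : b * n * u * (xG checks 47 1 * xG checks 44 1) * (b * n * u)⁻¹ = b * (n * (u * (xG checks 47 1 * xG checks 44 1) * u⁻¹) * n⁻¹) * b⁻¹ := by group
    rw [e, h2] at h1
    calc n * (xG checks 47 1 * xG checks 44 1) * n⁻¹ = b⁻¹ * (b * (n * (xG checks 47 1 * xG checks 44 1) * n⁻¹) * b⁻¹) * b := by group
      _ = _ := by rw [h1]; group
  obtain ⟨v1, hv1⟩ := borel_conj checks checks2 checks3 hr47 hU47 (inv_mem hb) (1 : F)
  obtain ⟨v2, hv2⟩ := borel_conj checks checks2 checks3 hr44 hU44 (inv_mem hb) (1 : F)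
  have h4 : n * (xG checks 47 1 * xG checks 44 1) * n⁻¹ = Q6 0 0 ((v2 : F) * 1) 0 0 ((v1 : F) * 1) := by
    rw [h3, ← hpair, ← hv1, ← hv2]
    group
  rw [hpair] at h4
  have hle := lenc_W checks cdF4s hw
  -- the images of the two roots
  have key : ∀ ℓ : ℕ → ℤ, Graded chevF4 T ℓ → ℓ 44 ≤ 0 → ℓ 47 ≤ 0 → ℓ (π 44) ≤ 0 ∧ ℓ (π 47) ≤ 0 := by
    intro ℓ hg' h44 h47
    have hB : n * WL checks L6 (cfQ 0 0 (1 : F) 0 0 1) * n⁻¹ ∈ BorL chevF4 (fun c => - ℓ c) F := by
      rw [← Q6_cf, h4]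
      have hg2 := hg'.neg
      have e : Q6 (0 : F) 0 ((v2 : F) * 1) 0 0 ((v1 : F) * 1) = xG checks 44 ((v2 : F) * 1) * xG checks 47 ((v1 : F) * 1) := by
        simp only [Q6, wordG_cons, wordG_nil, xG_zero, one_mul, mul_one]
      rw [e]
      exact mul_mem (xG_mem_BorL checks hg2 hr44 (by show 0 ≤ - ℓ 44; omega) _) (xG_mem_BorL checks hg2 hr47 (by show 0 ≤ - ℓ 47; omega) _)
    have q := qgrade checks checks2 hg' ha L6 L6lt L6comm _ hB
    rw [WL6, ← Q6_zero] at q
    obtain ⟨-, -, q3, -, -, q6⟩ := Q6_inj q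
    constructor
    · by_contra hc
      push Not at hc
      rw [if_pos hc] at q3
      exact one_ne_zero q3
    · by_contra hc
      push Not at hc
      rw [if_pos hc] at q6
      exact one_ne_zero q6
  have img : ∀ s, (s = 44 ∨ s = 47) → π s = 44 ∨ π s = 47 := by
    intro s hs
    by_contra hn
    push Not at hn
    have hlt : π s < 48 := ha.lt s (by rcases hs with rfl | rfl <;> decide +kernel)
    obtain ⟨h5, h6, h7⟩ := cw1_ok _ hlt hn.1 hn.2
    have hk := key (ellOf TF4.U chevF4 (R (cw1 (π s)))) (ellOf_graded checks3 _) (by rw [← evC_eq]; exact h6) (by rw [← evC_eq]; exact h7)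
    rcases hs with rfl | rfl
    · have h8 := hk.1
      rw [← evC_eq] at h8
      omega
    · have h8 := hk.2
      rw [← evC_eq] at h8
      omega
  have hw47 : ((w ⟨47, hr47⟩ : Fin chevF4.nroots) : ℕ) = π 47 := hπ ⟨47, hr47⟩
  have hw44 : ((w ⟨44, hr44⟩ : Fin chevF4.nroots) : ℕ) = π 44 := hπ ⟨44, hr44⟩
  have hfix47 : π 47 = 47 := by
    rcases img 47 (Or.inr rfl) with h | h
    · exfalso
      have h9 : (chevF4.isLong ((w ⟨47, hr47⟩ : Fin chevF4.nroots) : ℕ)).toNat = (chevF4.isLong 47).toNat := hle ⟨47, hr47⟩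
      rw [hw47, h] at h9
      revert h9
      decide +kernel
    · exact h
  have hfix44 : π 44 = 44 := by
    rcases img 44 (Or.inl rfl) with h | h
    · exact h
    · exfalso
      have h9 : (chevF4.isLong ((w ⟨44, hr44⟩ : Fin chevF4.nroots) : ℕ)).toNat = (chevF4.isLong 44).toNat := hle ⟨44, hr44⟩
      rw [hw44, h] at h9
      revert h9
      decide +kernel
  have hΦ : w ⟨47, hr47⟩ = ⟨47, hr47⟩ ∧ w ⟨44, hr44⟩ = ⟨44, hr44⟩ := ⟨Fin.ext (hw47.trans hfix47), Fin.ext (hw44.trans hfix44)⟩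
  obtain ⟨h, hh, z, hz, rfl⟩ := N_factor' checks checks2 checks3 (Z := Z1 F) (J := fun i => i ≠ 0 ∧ i ≠ 3)
    (Φ := fun w => w ⟨47, hr47⟩ = ⟨47, hr47⟩ ∧ w ⟨44, hr44⟩ = ⟨44, hr44⟩) (fun i hi e => hZn i hi e 1)
    (by
      intro w hw hΦ i hi hneg
      constructor
      · rintro rfl
        have h9 := simple_pos_of_fix checks checks2 checks3 cdF4s hw hΦ.2
        have h10 : ((w ⟨chevF4.simple 0, checks.simple_lt 0 hi⟩ : Fin chevF4.nroots) : ℕ) < chevF4.nroots / 2 := hneg
        omega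
      · rintro rfl
        have h9 := simple_pos_of_fix checks checks2 checks3 cdF4l hw hΦ.1
        have h10 : ((w ⟨chevF4.simple 3, checks.simple_lt 3 hi⟩ : Fin chevF4.nroots) : ℕ) < chevF4.nroots / 2 := hneg
        omega)
    (by
      intro w hw hΦ i hi hJ
      constructor
      · have hfix : wPn checks i ⟨47, hr47⟩ = ⟨47, hr47⟩ := by
          apply Fin.ext
          rw [wPn_apply checks hi]
          exact cdF4l.hfix i hi hJ.2
        rw [Equiv.Perm.mul_apply, hfix]
        exact hΦ.1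
      · have hfix : wPn checks i ⟨44, hr44⟩ = ⟨44, hr44⟩ := by
          apply Fin.ext
          rw [wPn_apply checks hi]
          exact cdF4s.hfix i hi hJ.1
        rw [Equiv.Perm.mul_apply, hfix]
        exact hΦ.2)
    _ w hw rfl hΦ n hn π π' d ha hπ
  have hUZ : chevF4.posUnipotent F ≤ Z1 F := le_sup_left.trans le_sup_left
  have hzc := (Z1_le hz).2
  have hbh : (b * h) * (xG checks 47 1 * xG checks 44 1) * (b * h)⁻¹ = xG checks 47 1 * xG checks 44 1 := by
    have e : b * (h * z) * u * (xG checks 47 1 * xG checks 44 1) * (b * (h * z) * u)⁻¹ = (b * h) * (z * (u * (xG checks 47 1 * xG checks 44 1) * u⁻¹) * z⁻¹) * (b * h)⁻¹ := by group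
    rw [e, h2, hcomm z hzc] at h1
    exact h1
  have hbh' : b * h ∈ chevF4.borelSubgroup F := mul_mem hb (H_le_B hh)
  obtain ⟨u₁, hu₁, k, hk, e₁⟩ := (mem_borel_iff checks checks2 checks3).mp hbh'
  rw [diagonal_eq checks checks3] at hk
  obtain ⟨c, rfl⟩ := mem_HT.mp hk
  have hk1 : hProd TF4.U chevF4 c * (xG checks 47 1 * xG checks 44 1) * (hProd TF4.U chevF4 c)⁻¹ = xG checks 47 1 * xG checks 44 1 := by
    rw [e₁] at hbh
    have e : u₁ * hProd TF4.U chevF4 c * (xG checks 47 1 * xG checks 44 1) * (u₁ * hProd TF4.U chevF4 c)⁻¹ = u₁ * (hProd TF4.U chevF4 c * (xG checks 47 1 * xG checks 44 1) * (hProd TF4.U chevF4 c)⁻¹) * u₁⁻¹ := by group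
    rw [e] at hbh
    have e2 : hProd TF4.U chevF4 c * (xG checks 47 1 * xG checks 44 1) * (hProd TF4.U chevF4 c)⁻¹ = u₁⁻¹ * (u₁ * (hProd TF4.U chevF4 c * (xG checks 47 1 * xG checks 44 1) * (hProd TF4.U chevF4 c)⁻¹) * u₁⁻¹) * u₁ := by group
    rw [e2, hbh]
    have := U_cent1 (inv_mem hu₁)
    rw [inv_inv] at this
    exact this
  have hT47 : hProd TF4.U chevF4 c * xG checks 47 1 * (hProd TF4.U chevF4 c)⁻¹ = xG checks 47 ((tv TF4.U chevF4 (capply chevF4 c) 47 : F) * 1) :=
    (NAct_torus (F := F) checks checks3 (capply chevF4 c)).conj 47 hr47 1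
  have hT44 : hProd TF4.U chevF4 c * xG checks 44 1 * (hProd TF4.U chevF4 c)⁻¹ = xG checks 44 ((tv TF4.U chevF4 (capply chevF4 c) 44 : F) * 1) :=
    (NAct_torus (F := F) checks checks3 (capply chevF4 c)).conj 44 hr44 1
  have h5 : Q6 0 0 ((tv TF4.U chevF4 (capply chevF4 c) 44 : F) * 1) 0 0 ((tv TF4.U chevF4 (capply chevF4 c) 47 : F) * 1) = Q6 (0 : F) 0 1 0 0 1 := by
    rw [← hpair, ← hpair, ← hT47, ← hT44]
    have e : (hProd TF4.U chevF4 c * xG checks 47 1 * (hProd TF4.U chevF4 c)⁻¹) * (hProd TF4.U chevF4 c * xG checks 44 1 * (hProd TF4.U chevF4 c)⁻¹) = hProd TF4.U chevF4 c * (xG checks 47 1 * xG checks 44 1) * (hProd TF4.U chevF4 c)⁻¹ := by group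
    rw [e, hk1]
  obtain ⟨-, -, p3, -, -, p6⟩ := Q6_inj h5
  have c3 : c 3 = 1 := by
    rw [tv_capply_r checks3 cdF4l] at p6
    apply Units.ext
    rw [Units.val_one]
    simpa using p6
  have c0 : c 0 = 1 := by
    rw [tv_capply_r checks3 cdF4s] at p3
    apply Units.ext
    rw [Units.val_one]
    simpa using p3
  have hkZ := hProd_mem' checks checks3 (Z := Z1 F) (J := fun i => i ≠ 0 ∧ i ≠ 3) hZn (c := c) (by
    intro i hi hJ
    have : i = 0 ∨ i = 3 := by
      by_contra hc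
      push Not at hc
      exact hJ hc
    rcases this with rfl | rfl
    · exact c0
    · exact c3)
  have e5 : b * (h * z) * u = (u₁ * hProd TF4.U chevF4 c) * z * u := by
    rw [← e₁]
    group
  rw [e5]
  exact mul_mem (mul_mem (mul_mem (hUZ hu₁) hkZ) hz) (hUZ huU)

end main

end Cfsg.Agent.H04.Col.F4C
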