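import Cfsg.Agent.Lib.H04.Col.Gen
import Cfsg.Agent.Lib.H04.Long.CentTab
import Cfsg.Agent.Lib.H04.Chev.Tab.G2_all3
import Cfsg.Agent.Lib.H04.Chev.Tab.G2_all2

/-!
# Involutions of `G₂(q)`, `q` even
-/

set_option autoImplicit false
set_option linter.style.longLine false
set_option linter.unusedSimpArgs false
set_option linter.unusedSectionVars false
set_option linter.unusedVariables false
set_option maxRecDepth 100000

open Cfsg.Lie Cfsg.Agent.H04.Chev Cfsg.Agent.H04.Long
open Cfsg.Agent.H04.Chev.TG2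

namespace Cfsg.Agent.H04.Col.G2

variable {F : Type*} [Field F]

/-- the normal form in the positive unipotent subgroup -/
noncomputable def P (a b c d e f : F) : GL chevG2.Idx F :=
  wordG checks [(6, a), (7, b), (8, c), (9, d), (10, e), (11, f)]

lemma P_eq (t : ℕ → F) : wordFrom checks 6 t = P (t 6) (t 7) (t 8) (t 9) (t 10) (t 11) := rfl

/-- the coefficient function of a normal form -/
def cf (a b c d e f : F) : ℕ → F := fun r => R [a, b, c, d, e, f] (r - 6)

lemma P_eq' (a b c d e f : F) : P a b c d e f = wordFrom checks 6 (cf a b c d e f) := rfl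

lemma P_inj {a b c d e f a' b' c' d' e' f' : F} (h : P a b c d e f = P a' b' c' d' e' f') :
    a = a' ∧ b = b' ∧ c = c' ∧ d = d' ∧ e = e' ∧ f = f' := by
  rw [P_eq', P_eq'] at h
  have h1 := wordFrom_inj checks checks2 6 (m := 6) rfl (by decide) h
  exact ⟨h1 6 (by omega) (by decide), h1 7 (by omega) (by decide), h1 8 (by omega) (by decide), h1 9 (by omega) (by decide), h1 10 (by omega) (by decide), h1 11 (by omega) (by decide)⟩

lemma P_one : P (0 : F) 0 0 0 0 0 = 1 := by simp [P]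

lemma exists_P {g : GL chevG2.Idx F} (hg : g ∈ chevG2.posUnipotent F) : ∃ a b c d e f : F, g = P a b c d e f := by
  rw [posUnipotent_eq checks checks2] at hg
  obtain ⟨t, rfl⟩ := exists_wordFrom checks checks2 6 (m := 6) rfl (by decide) hg
  exact ⟨_, _, _, _, _, _, P_eq t⟩

variable [CharP F 2]

lemma sq0 (s u v w y z : F) : P s u v w y z * P s u v w y z = P 0 0 (s * u) (s * (u * u)) (s * (u * (u * u)) + (u * (u * v) + u * w)) (s * (s * (u * (u * u))) + (s * y + (u * (v * v) + v * w))) := by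
  have h := word_eq checks (R [0, 0, 0, 0, s, u, v, w, y, z, 0, 0]) (tab := chevG2.commTerms) (fun _ _ _ _ => rfl) 15 (w₁ := [(6, [[4]]), (7, [[5]]), (8, [[6]]), (9, [[7]]), (10, [[8]]), (11, [[9]]), (6, [[4]]), (7, [[5]]), (8, [[6]]), (9, [[7]]), (10, [[8]]), (11, [[9]])]) (w₂ := [(6, []), (7, []), (8, [[4, 5]]), (9, [[4, 5, 5]]), (10, [[4, 5, 5, 5], [5, 5, 6], [5, 7]]), (11, [[4, 4, 5, 5, 5], [4, 8], [5, 6, 6], [6, 7]])]) (by decide +kernel)
  simpa only [evW, R, evP_cons, evP_nil, evM_cons, evM_nil, List.map_cons, List.map_nil, wordG_cons, wordG_nil, mul_assoc, mul_one, add_zero, xG_zero, one_mul, P] using h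

lemma A1 (u w y z e : F) : xG checks 6 e * P 0 u (u * e) w y z * xG checks 6 e = P 0 u 0 (u * (u * e) + w) (u * (u * (u * e)) + y) (u * (u * (u * (e * e))) + (y * e + z)) := by
  have h := word_eq checks (R [0, 0, 0, 0, 0, u, 0, w, y, z, e, 0]) (tab := chevG2.commTerms) (fun _ _ _ _ => rfl) 15 (w₁ := [(6, [[10]]), (6, []), (7, [[5]]), (8, [[5, 10]]), (9, [[7]]), (10, [[8]]), (11, [[9]]), (6, [[10]])]) (w₂ := [(6, []), (7, [[5]]), (8, []), (9, [[5, 5, 10], [7]]), (10, [[5, 5, 5, 10], [8]]), (11, [[5, 5, 5, 10, 10], [8, 10], [9]])]) (by decide +kernel)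
  simpa only [evW, R, evP_cons, evP_nil, evM_cons, evM_nil, List.map_cons, List.map_nil, wordG_cons, wordG_nil, mul_assoc, mul_one, add_zero, xG_zero, one_mul, P] using h

lemma A2 (u w y z : F) : P 0 u 0 w y z * P 0 u 0 w y z = P 0 0 0 0 (u * w) 0 := by
  have h := word_eq checks (R [0, 0, 0, 0, 0, u, 0, w, y, z, 0, 0]) (tab := chevG2.commTerms) (fun _ _ _ _ => rfl) 15 (w₁ := [(6, []), (7, [[5]]), (8, []), (9, [[7]]), (10, [[8]]), (11, [[9]]), (6, []), (7, [[5]]), (8, []), (9, [[7]]), (10, [[8]]), (11, [[9]])]) (w₂ := [(6, []), (7, []), (8, []), (9, []), (10, [[5, 7]]), (11, [])]) (by decide +kernel)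
  simpa only [evW, R, evP_cons, evP_nil, evM_cons, evM_nil, List.map_cons, List.map_nil, wordG_cons, wordG_nil, mul_assoc, mul_one, add_zero, xG_zero, one_mul, P] using h

lemma A4 (u y e : F) : xG checks 8 e * P 0 u 0 0 y (u * (e * e)) * xG checks 8 e = P 0 u 0 0 (u * (u * e) + y) 0 := by
  have h := word_eq checks (R [0, 0, 0, 0, 0, u, 0, 0, y, 0, e, 0]) (tab := chevG2.commTerms) (fun _ _ _ _ => rfl) 13 (w₁ := [(8, [[10]]), (6, []), (7, [[5]]), (8, []), (9, []), (10, [[8]]), (11, [[5, 10, 10]]), (8, [[10]])]) (w₂ := [(6, []), (7, [[5]]), (8, []), (9, []), (10, [[5, 5, 10], [8]]), (11, [])]) (by decide +kernel)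
  simpa only [evW, R, evP_cons, evP_nil, evM_cons, evM_nil, List.map_cons, List.map_nil, wordG_cons, wordG_nil, mul_assoc, mul_one, add_zero, xG_zero, one_mul, P] using h

lemma A3 (u e : F) : xG checks 9 e * P 0 u 0 0 (u * e) 0 * xG checks 9 e = P 0 u 0 0 0 0 := by
  have h := word_eq checks (R [0, 0, 0, 0, 0, u, 0, 0, 0, 0, e, 0]) (tab := chevG2.commTerms) (fun _ _ _ _ => rfl) 11 (w₁ := [(9, [[10]]), (6, []), (7, [[5]]), (8, []), (9, []), (10, [[5, 10]]), (11, []), (9, [[10]])]) (w₂ := [(6, []), (7, [[5]]), (8, []), (9, []), (10, []), (11, [])]) (by decide +kernel)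
  simpa only [evW, R, evP_cons, evP_nil, evM_cons, evM_nil, List.map_cons, List.map_nil, wordG_cons, wordG_nil, mul_assoc, mul_one, add_zero, xG_zero, one_mul, P] using h

lemma B1 (s w y z e : F) : xG checks 7 e * P s 0 (s * e) w y z * xG checks 7 e = P s 0 0 (s * (e * e) + w) (w * e + y) (s * (s * (e * (e * e))) + z) := by
  have h := word_eq checks (R [0, 0, 0, 0, s, 0, 0, w, y, z, e, 0]) (tab := chevG2.commTerms) (fun _ _ _ _ => rfl) 14 (w₁ := [(7, [[10]]), (6, [[4]]), (7, []), (8, [[4, 10]]), (9, [[7]]), (10, [[8]]), (11, [[9]]), (7, [[10]])]) (w₂ := [(6, [[4]]), (7, []), (8, []), (9, [[4, 10, 10], [7]]), (10, [[7, 10], [8]]), (11, [[4, 4, 10, 10, 10], [9]])]) (by decide +kernel)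
  simpa only [evW, R, evP_cons, evP_nil, evM_cons, evM_nil, List.map_cons, List.map_nil, wordG_cons, wordG_nil, mul_assoc, mul_one, add_zero, xG_zero, one_mul, P] using h

lemma B2 (s w y z : F) : P s 0 0 w y z * P s 0 0 w y z = P 0 0 0 0 0 (s * y) := by
  have h := word_eq checks (R [0, 0, 0, 0, s, 0, 0, w, y, z, 0, 0]) (tab := chevG2.commTerms) (fun _ _ _ _ => rfl) 15 (w₁ := [(6, [[4]]), (7, []), (8, []), (9, [[7]]), (10, [[8]]), (11, [[9]]), (6, [[4]]), (7, []), (8, []), (9, [[7]]), (10, [[8]]), (11, [[9]])]) (w₂ := [(6, []), (7, []), (8, []), (9, []), (10, []), (11, [[4, 8]])]) (by decide +kernel)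
  simpa only [evW, R, evP_cons, evP_nil, evM_cons, evM_nil, List.map_cons, List.map_nil, wordG_cons, wordG_nil, mul_assoc, mul_one, add_zero, xG_zero, one_mul, P] using h

lemma B3 (s w e : F) : xG checks 10 e * P s 0 0 w 0 (s * e) * xG checks 10 e = P s 0 0 w 0 0 := by
  have h := word_eq checks (R [0, 0, 0, 0, s, 0, 0, w, 0, 0, e, 0]) (tab := chevG2.commTerms) (fun _ _ _ _ => rfl) 11 (w₁ := [(10, [[10]]), (6, [[4]]), (7, []), (8, []), (9, [[7]]), (10, []), (11, [[4, 10]]), (10, [[10]])]) (w₂ := [(6, [[4]]), (7, []), (8, []), (9, [[7]]), (10, []), (11, [])]) (by decide +kernel)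
  simpa only [evW, R, evP_cons, evP_nil, evM_cons, evM_nil, List.map_cons, List.map_nil, wordG_cons, wordG_nil, mul_assoc, mul_one, add_zero, xG_zero, one_mul, P] using h

lemma B4 (w e : F) : xG checks 7 e * P 0 0 w 0 (w * (e * e)) 0 * xG checks 7 e = P 0 0 w 0 0 (w * (w * e)) := by
  have h := word_eq checks (R [0, 0, 0, 0, 0, 0, 0, w, 0, 0, e, 0]) (tab := chevG2.commTerms) (fun _ _ _ _ => rfl) 14 (w₁ := [(7, [[10]]), (6, []), (7, []), (8, [[7]]), (9, []), (10, [[7, 10, 10]]), (11, []), (7, [[10]])]) (w₂ := [(6, []), (7, []), (8, [[7]]), (9, []), (10, []), (11, [[7, 7, 10]])]) (by decide +kernel)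
  simpa only [evW, R, evP_cons, evP_nil, evM_cons, evM_nil, List.map_cons, List.map_nil, wordG_cons, wordG_nil, mul_assoc, mul_one, add_zero, xG_zero, one_mul, P] using h

lemma B5 (w f : F) : xG checks 9 f * P 0 0 w 0 0 (w * f) * xG checks 9 f = P 0 0 w 0 0 0 := by
  have h := word_eq checks (R [0, 0, 0, 0, 0, 0, 0, w, 0, 0, 0, f]) (tab := chevG2.commTerms) (fun _ _ _ _ => rfl) 11 (w₁ := [(9, [[11]]), (6, []), (7, []), (8, [[7]]), (9, []), (10, []), (11, [[7, 11]]), (9, [[11]])]) (w₂ := [(6, []), (7, []), (8, [[7]]), (9, []), (10, []), (11, [])]) (by decide +kernel)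
  simpa only [evW, R, evP_cons, evP_nil, evM_cons, evM_nil, List.map_cons, List.map_nil, wordG_cons, wordG_nil, mul_assoc, mul_one, add_zero, xG_zero, one_mul, P] using h

lemma C0 (v w y z : F) : P 0 0 v w y z * P 0 0 v w y z = P 0 0 0 0 0 (v * w) := by
  have h := word_eq checks (R [0, 0, 0, 0, 0, 0, v, w, y, z, 0, 0]) (tab := chevG2.commTerms) (fun _ _ _ _ => rfl) 15 (w₁ := [(6, []), (7, []), (8, [[6]]), (9, [[7]]), (10, [[8]]), (11, [[9]]), (6, []), (7, []), (8, [[6]]), (9, [[7]]), (10, [[8]]), (11, [[9]])]) (w₂ := [(6, []), (7, []), (8, []), (9, []), (10, []), (11, [[6, 7]])]) (by decide +kernel)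
  simpa only [evW, R, evP_cons, evP_nil, evM_cons, evM_nil, List.map_cons, List.map_nil, wordG_cons, wordG_nil, mul_assoc, mul_one, add_zero, xG_zero, one_mul, P] using h

lemma W1 (s w : F) : xG checks 10 s * xG checks 8 w = P 0 0 w 0 s 0 := by
  have h := word_eq checks (R [0, 0, 0, 0, s, 0, 0, w, 0, 0, 0, 0]) (tab := chevG2.commTerms) (fun _ _ _ _ => rfl) 9 (w₁ := [(10, [[4]]), (8, [[7]])]) (w₂ := [(6, []), (7, []), (8, [[7]]), (9, []), (10, [[4]]), (11, [])]) (by decide +kernel)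
  simpa only [evW, R, evP_cons, evP_nil, evM_cons, evM_nil, List.map_cons, List.map_nil, wordG_cons, wordG_nil, mul_assoc, mul_one, add_zero, xG_zero, one_mul, P] using h

lemma W2 (w y z : F) : xG checks 8 w * xG checks 6 y * xG checks 11 z = P y 0 w 0 0 z := by
  have h := word_eq checks (R [0, 0, 0, 0, 0, 0, 0, w, y, z, 0, 0]) (tab := chevG2.commTerms) (fun _ _ _ _ => rfl) 9 (w₁ := [(8, [[7]]), (6, [[8]]), (11, [[9]])]) (w₂ := [(6, [[8]]), (7, []), (8, [[7]]), (9, []), (10, []), (11, [[9]])]) (by decide +kernel)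
  simpa only [evW, R, evP_cons, evP_nil, evM_cons, evM_nil, List.map_cons, List.map_nil, wordG_cons, wordG_nil, mul_assoc, mul_one, add_zero, xG_zero, one_mul, P] using h

lemma W3 (v w y z : F) : xG checks 7 v * xG checks 9 w * xG checks 11 y * xG checks 10 z = P 0 v 0 w z y := by
  have h := word_eq checks (R [0, 0, 0, 0, 0, 0, v, w, y, z, 0, 0]) (tab := chevG2.commTerms) (fun _ _ _ _ => rfl) 9 (w₁ := [(7, [[6]]), (9, [[7]]), (11, [[8]]), (10, [[9]])]) (w₂ := [(6, []), (7, [[6]]), (8, []), (9, [[7]]), (10, [[9]]), (11, [[8]])]) (by decide +kernel)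
  simpa only [evW, R, evP_cons, evP_nil, evM_cons, evM_nil, List.map_cons, List.map_nil, wordG_cons, wordG_nil, mul_assoc, mul_one, add_zero, xG_zero, one_mul, P] using h

lemma U1 (a b c d s u : F) : P a b c d s u * xG checks 9 1 * xG checks 11 u * xG checks 10 s * xG checks 9 d * xG checks 8 c * xG checks 7 b * xG checks 6 a = P 0 0 0 1 b (a * b + c) := by
  have h := word_eq checks (R [a, b, c, d, s, u, 0, 0, 0, 0, 0, 0]) (tab := chevG2.commTerms) (fun _ _ _ _ => rfl) 23 (w₁ := [(6, [[0]]), (7, [[1]]), (8, [[2]]), (9, [[3]]), (10, [[4]]), (11, [[5]]), (9, [[]]), (11, [[5]]), (10, [[4]]), (9, [[3]]), (8, [[2]]), (7, [[1]]), (6, [[0]])]) (w₂ := [(6, []), (7, []), (8, []), (9, [[]]), (10, [[1]]), (11, [[0, 1], [2]])]) (by decide +kernel)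
  simpa only [evW, R, evP_cons, evP_nil, evM_cons, evM_nil, List.map_cons, List.map_nil, wordG_cons, wordG_nil, mul_assoc, mul_one, add_zero, xG_zero, one_mul, P] using h

/-- the target of the classification -/
def Good (g : GL chevG2.Idx F) : Prop := CJ chevG2 g (xG checks 11 1) ∨ CJ chevG2 g (xG checks 9 1)

lemma Good_x {g : GL chevG2.Idx F} {r : ℕ} (hr : r < 12) (t : F) (h : Good (xG checks r t * g * xG checks r t)) : Good g := by
  rcases h with h | h
  · exact Or.inl (CJ_x checks hr t h)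
  · exact Or.inr (CJ_x checks hr t h)

lemma Good_of {g a : GL chevG2.Idx F} (ha : a ∈ chevG2.group F) (h : Good (a * g * a⁻¹)) : Good g := by
  rcases h with h | h
  · exact Or.inl (CJ_of ha h)
  · exact Or.inr (CJ_of ha h)

theorem w0t : ∀ s ∈ [6, 8, 9, 10, 11], s < chevG2.nroots := by decide +kernel

noncomputable def na : GL chevG2.Idx F := nG checks (chevG2.simple 0) (1 : F)
noncomputable def nb : GL chevG2.Idx F := nG checks (chevG2.simple 1) (1 : F)

lemma na_mem : (na : GL chevG2.Idx F) ∈ chevG2.group F := nG_mem_group checks (by decide +kernel) _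
lemma nb_mem : (nb : GL chevG2.Idx F) ∈ chevG2.group F := nG_mem_group checks (by decide +kernel) _

lemma na_x {s : ℕ} (hs : s < 12) (t : F) : na * xG checks s t * na⁻¹ = xG checks (T.w (chevG2.simple 0) s) t :=
  nconj checks (i := 0) (by decide +kernel) hs t
lemma nb_x {s : ℕ} (hs : s < 12) (t : F) : nb * xG checks s t * nb⁻¹ = xG checks (T.w (chevG2.simple 1) s) t :=
  nconj checks (i := 1) (by decide +kernel) hs t

theorem wa : T.w (chevG2.simple 0) 6 = 10 ∧ T.w (chevG2.simple 0) 8 = 9 ∧ T.w (chevG2.simple 0) 9 = 8 ∧ T.w (chevG2.simple 0) 10 = 6 ∧ T.w (chevG2.simple 0) 11 = 11 := by decide +kernel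
theorem wb : T.w (chevG2.simple 1) 7 = 8 ∧ T.w (chevG2.simple 1) 8 = 7 ∧ T.w (chevG2.simple 1) 9 = 9 ∧ T.w (chevG2.simple 1) 10 = 11 ∧ T.w (chevG2.simple 1) 11 = 10 := by decide +kernel

lemma L11 {z : F} (hz : z ≠ 0) : Good (xG checks 11 z) :=
  Or.inl (CJ_torus checks checks3 (i := 1) (by decide +kernel) (by decide +kernel) (by decide +kernel) hz)

lemma L9 {z : F} (hz : z ≠ 0) : Good (xG checks 9 z) :=
  Or.inr (CJ_torus checks checks3 (i := 0) (by decide +kernel) (by decide +kernel) (by decide +kernel) hz)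

lemma L10 {z : F} (hz : z ≠ 0) : Good (xG checks 10 z) := by
  apply Good_of nb_mem
  rw [nb_x (by decide), wb.2.2.2.1]
  exact L11 hz

lemma L6 {z : F} (hz : z ≠ 0) : Good (xG checks 6 z) := by
  apply Good_of na_mem
  rw [na_x (by decide), wa.1]
  exact L10 hz

lemma L8 {z : F} (hz : z ≠ 0) : Good (xG checks 8 z) := by
  apply Good_of na_mem
  rw [na_x (by decide), wa.2.1]
  exact L9 hz

lemma L7 {z : F} (hz : z ≠ 0) : Good (xG checks 7 z) := by
  apply Good_of nb_mem
  rw [nb_x (by decide), wb.1]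
  exact L8 hz

variable [Fintype F]

lemma exists_sq (x : F) : ∃ y : F, y * y = x := by
  have h : Function.Surjective (frobenius F 2) :=
    Finite.surjective_of_injective (frobenius F 2).injective
  obtain ⟨y, hy⟩ := h x
  exact ⟨y, by rw [← hy, frobenius_def, sq]⟩

lemma conj_sq {g a : GL chevG2.Idx F} (h : g * g = 1) : (a * g * a⁻¹) * (a * g * a⁻¹) = 1 := by
  have : (a * g * a⁻¹) * (a * g * a⁻¹) = a * (g * g) * a⁻¹ := by group
  rw [this, h]
  group

lemma x_sq {g : GL chevG2.Idx F} {r : ℕ} (t : F) (h : g * g = 1) : (xG checks r t * g * xG checks r t) * (xG checks r t * g * xG checks r t) = 1 := by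
  have := conj_sq (a := xG checks r t) h
  rwa [xG_inv2] at this

lemma caseA3 {u : F} (hu : u ≠ 0) (y : F) : Good (P 0 u 0 0 y 0) := by
  obtain ⟨e, rfl⟩ : ∃ e, y = u * e := ⟨y / u, by field_simp⟩
  apply Good_x (r := 9) (by decide) e
  rw [A3]
  have : P (0 : F) u 0 0 0 0 = xG checks 7 u := by simp [P]
  rw [this]
  exact L7 hu

lemma caseA2 {u : F} (hu : u ≠ 0) (y z : F) : Good (P 0 u 0 0 y z) := by
  obtain ⟨e, he⟩ := exists_sq (z / u)
  obtain rfl : z = u * (e * e) := by rw [he]; field_simp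
  apply Good_x (r := 8) (by decide) e
  rw [A4]
  exact caseA3 hu _

lemma caseA1 {u : F} (hu : u ≠ 0) (w y z : F) (hI : P 0 u 0 w y z * P 0 u 0 w y z = 1) : Good (P 0 u 0 w y z) := by
  rw [A2, ← P_one] at hI
  have h := (P_inj hI).2.2.2.2.1
  have hw : w = 0 := (mul_eq_zero.mp h).resolve_left hu
  subst hw
  exact caseA2 hu y z

lemma caseA {u : F} (hu : u ≠ 0) (v w y z : F) (hI : P 0 u v w y z * P 0 u v w y z = 1) : Good (P 0 u v w y z) := by
  obtain ⟨e, rfl⟩ : ∃ e, v = u * e := ⟨v / u, by field_simp⟩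
  apply Good_x (r := 6) (by decide) e
  have hI' := x_sq (r := 6) e hI
  rw [A1] at hI' ⊢
  exact caseA1 hu _ _ _ hI'

lemma caseB5 {w : F} (hw : w ≠ 0) (z : F) : Good (P 0 0 w 0 0 z) := by
  obtain ⟨f, rfl⟩ : ∃ f, z = w * f := ⟨z / w, by field_simp⟩
  apply Good_x (r := 9) (by decide) f
  rw [B5]
  have : P (0 : F) 0 w 0 0 0 = xG checks 8 w := by simp [P]
  rw [this]
  exact L8 hw

lemma caseB4 {w : F} (hw : w ≠ 0) (s : F) : Good (P 0 0 w 0 s 0) := by
  obtain ⟨e, he⟩ := exists_sq (s / w)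
  obtain rfl : s = w * (e * e) := by rw [he]; field_simp
  apply Good_x (r := 7) (by decide) e
  rw [B4]
  exact caseB5 hw _

lemma caseB3 {s : F} (hs : s ≠ 0) (w : F) : Good (P s 0 0 w 0 0) := by
  by_cases hw : w = 0
  · subst hw
    have : P s (0 : F) 0 0 0 0 = xG checks 6 s := by simp [P]
    rw [this]
    exact L6 hs
  · apply Good_of na_mem
    have e : na * P s 0 0 w 0 0 * na⁻¹ = P 0 0 w 0 s 0 := by
      rw [← W1]
      have e1 : P s 0 0 w 0 0 = xG checks 6 s * xG checks 9 w := by simp [P]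
      rw [e1]
      have e2 : na * (xG checks 6 s * xG checks 9 w) * na⁻¹ = (na * xG checks 6 s * na⁻¹) * (na * xG checks 9 w * na⁻¹) := by group
      rw [e2, na_x (by decide), na_x (by decide), wa.1, wa.2.2.1]
    rw [e]
    exact caseB4 hw s

lemma caseB2 {s : F} (hs : s ≠ 0) (w z : F) : Good (P s 0 0 w 0 z) := by
  obtain ⟨e, rfl⟩ : ∃ e, z = s * e := ⟨z / s, by field_simp⟩
  apply Good_x (r := 10) (by decide) e
  rw [B3]
  exact caseB3 hs w

lemma caseB1 {s : F} (hs : s ≠ 0) (w y z : F) (hI : P s 0 0 w y z * P s 0 0 w y z = 1) : Good (P s 0 0 w y z) := by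
  rw [B2, ← P_one] at hI
  have h := (P_inj hI).2.2.2.2.2
  have hy : y = 0 := (mul_eq_zero.mp h).resolve_left hs
  subst hy
  exact caseB2 hs w z

lemma caseB {s : F} (hs : s ≠ 0) (v w y z : F) (hI : P s 0 v w y z * P s 0 v w y z = 1) : Good (P s 0 v w y z) := by
  obtain ⟨e, rfl⟩ : ∃ e, v = s * e := ⟨v / s, by field_simp⟩
  apply Good_x (r := 7) (by decide) e
  have hI' := x_sq (r := 7) e hI
  rw [B1] at hI' ⊢
  exact caseB1 hs _ _ _ hI'

lemma caseC1 {v : F} (hv : v ≠ 0) (w y z : F) (hI : P 0 0 v w y z * P 0 0 v w y z = 1) : Good (P 0 0 v w y z) := by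
  apply Good_of nb_mem
  have e : nb * P 0 0 v w y z * nb⁻¹ = P 0 v 0 w z y := by
    rw [← W3]
    have e1 : P 0 0 v w y z = xG checks 8 v * xG checks 9 w * xG checks 10 y * xG checks 11 z := by simp [P, mul_assoc]
    rw [e1]
    have e2 : nb * (xG checks 8 v * xG checks 9 w * xG checks 10 y * xG checks 11 z) * nb⁻¹ =
      (nb * xG checks 8 v * nb⁻¹) * (nb * xG checks 9 w * nb⁻¹) * (nb * xG checks 10 y * nb⁻¹) * (nb * xG checks 11 z * nb⁻¹) := by group
    rw [e2, nb_x (by decide), nb_x (by decide), nb_x (by decide), nb_x (by decide), wb.2.1, wb.2.2.1, wb.2.2.2.1, wb.2.2.2.2]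
  have hI' := conj_sq (a := nb) hI
  rw [e] at hI' ⊢
  exact caseA hv _ _ _ _ hI'

lemma caseC2 (w y z : F) (hne : w ≠ 0 ∨ y ≠ 0) (hI : P 0 0 0 w y z * P 0 0 0 w y z = 1) : Good (P 0 0 0 w y z) := by
  apply Good_of na_mem
  have e : na * P 0 0 0 w y z * na⁻¹ = P y 0 w 0 0 z := by
    rw [← W2]
    have e1 : P 0 0 0 w y z = xG checks 9 w * xG checks 10 y * xG checks 11 z := by simp [P, mul_assoc]
    rw [e1]
    have e2 : na * (xG checks 9 w * xG checks 10 y * xG checks 11 z) * na⁻¹ =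
      (na * xG checks 9 w * na⁻¹) * (na * xG checks 10 y * na⁻¹) * (na * xG checks 11 z * na⁻¹) := by group
    rw [e2, na_x (by decide), na_x (by decide), na_x (by decide), wa.2.2.1, wa.2.2.2.1, wa.2.2.2.2]
  have hI' := conj_sq (a := na) hI
  rw [e] at hI' ⊢
  by_cases hy : y = 0
  · subst hy
    exact caseC1 (hne.resolve_right (by simp)) _ _ _ hI'
  · exact caseB hy _ _ _ _ hI'

theorem main (s u v w y z : F) (hI : P s u v w y z * P s u v w y z = 1) (hne : P s u v w y z ≠ 1) : Good (P s u v w y z) := by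
  have h0 := hI
  rw [sq0, ← P_one] at h0
  have h1 := (P_inj h0).2.2.1
  by_cases hs : s = 0
  · subst hs
    by_cases hu : u = 0
    · subst hu
      by_cases hv : v = 0
      · subst hv
        by_cases hwy : w ≠ 0 ∨ y ≠ 0
        · exact caseC2 w y z hwy hI
        · push Not at hwy
          obtain ⟨rfl, rfl⟩ := hwy
          have : P (0 : F) 0 0 0 0 z = xG checks 11 z := by simp [P]
          rw [this]
          apply L11
          rintro rfl
          exact hne P_one
      · exact caseC1 hv w y z hI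
    · exact caseA hu v w y z hI
  · have hu : u = 0 := (mul_eq_zero.mp h1).resolve_left hs
    subst hu
    exact caseB hs v w y z hI

/-- the length function -/
def lenc (s : ℕ) : ℕ := (chevG2.isLong s).toNat

theorem htG2 : ∀ c, c < chevG2.nroots → lenc c = lenc 11 → evC TG2.U chevG2.rank (fun _ => 1) c ≤ evC TG2.U chevG2.rank (fun _ => 1) 11 := by decide +kernel

theorem cdG2 : CentData chevG2 TG2.T TG2.U 11 1 10 lenc where
  hr := by decide +kernel
  hr0 := by decide +kernel
  hi := by decide +kernel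
  hw := by decide +kernel
  htop := by
    intro c hc h
    rw [← evC_eq, ← evC_eq]
    exact htG2 c hc h
  hr' := by decide +kernel
  hlr' := by decide +kernel
  hcof := by decide +kernel
  hfix := by decide +kernel
  hcar := by decide +kernel
  hcari := by decide +kernel
  xinj := by decide +kernel

theorem top_terms : ∀ s, s < chevG2.nroots → 6 ≤ s → s ≠ 11 → chevG2.commTerms 11 s = [] := by decide +kernel

lemma hU11 : ∀ s, chevG2.nroots / 2 ≤ s → s < chevG2.nroots → ∀ t a : F, xG checks s t * xG checks 11 a = xG checks 11 a * xG checks s t := by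
  intro s h0 h1 t a
  by_cases hsr : s = 11
  · subst hsr
    exact (xG_comm_self checks _ _ _).symm
  · have hn : s ≠ negF chevG2 11 := by
      intro e
      rw [e] at h0
      revert h0
      decide +kernel
    exact comm_of_terms checks (by decide +kernel) h1 hsr hn (top_terms s h1 h0 hsr) a t

/-- the two classes are different -/
theorem noconj {h : GL chevG2.Idx F} (hh : h ∈ chevG2.group F) (e : h * xG checks 9 1 * h⁻¹ = xG checks 11 1) : False := by
  have hg : xG checks 9 (1 : F) ∈ chevG2.posUnipotent F := xG_mem_pos checks ((checks2.pos_iff _).mpr ⟨by decide +kernel, by decide +kernel⟩) _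
  obtain ⟨u, hu, r', hr0, hr1, ⟨w, hw, hr'', hwr⟩, c, hc, e2⟩ := conj_top checks checks2 checks3 (by decide +kernel) hU11 hg hh e
  obtain ⟨a, b, c', d, s, t, rfl⟩ := exists_P hu
  have e3 : P a b c' d s t * xG checks 9 1 * (P a b c' d s t)⁻¹ = P 0 0 0 1 b (a * b + c') := by
    rw [← U1 a b c' d s t]
    have e4 : (P a b c' d s t)⁻¹ = xG checks 11 t * xG checks 10 s * xG checks 9 d * xG checks 8 c' * xG checks 7 b * xG checks 6 a := by
      simp [P, mul_inv_rev, xG_inv2, mul_assoc]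
    rw [e4]
    simp only [mul_assoc]
  rw [e3] at e2
  have hlen : lenc r' = lenc 11 := by
    have := lenc_W checks cdG2 hw ⟨r', hr''⟩
    rw [← this, hwr]
  have hr2 : r' < 12 := hr1
  have hr3 : 6 ≤ r' := hr0
  interval_cases r'
  · have : xG checks 6 c = P c 0 0 0 0 0 := by simp [P]
    rw [this] at e2
    exact one_ne_zero (P_inj e2).2.2.2.1
  · revert hlen
    decide +kernel
  · revert hlen
    decide +kernel
  · revert hlen
    decide +kernel
  · have : xG checks 10 c = P 0 0 0 0 c 0 := by simp [P]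
    rw [this] at e2
    exact one_ne_zero (P_inj e2).2.2.2.1
  · have : xG checks 11 c = P 0 0 0 0 0 c := by simp [P]
    rw [this] at e2
    exact one_ne_zero (P_inj e2).2.2.2.1

end Cfsg.Agent.H04.Col.G2
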