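import Cfsg.Agent.Lib.H04.Col.G2

/-!
# Centralizers of the two involutions of `G₂(q)`, `q` even
-/

set_option autoImplicit false
set_option linter.style.longLine false
set_option linter.unusedSimpArgs false
set_option linter.unusedSectionVars false
set_option linter.unusedVariables false
set_option maxRecDepth 100000

open Cfsg.Lie Cfsg.Agent.H04.Chev Cfsg.Agent.H04.Long
open Cfsg.Agent.H04.Chev.TG2

namespace Cfsg.Agent.H04.Col.G2

variable {F : Type*} [Field F] [CharP F 2]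

lemma KF5 (t b c : F) : xG checks 5 t * xG checks 7 b * xG checks 8 c * xG checks 5 t = P 0 (b + c * t) c (c * (c * t)) (c * (c * (c * (t * t)))) 0 := by
  have h := word_eq checks (R [0, b, c, 0, 0, 0, 0, t, 0, 0]) (tab := chevG2.commTerms) (fun _ _ _ _ => rfl) 14 (w₁ := [(5, [[7]]), (7, [[1]]), (8, [[2]]), (5, [[7]])]) (w₂ := [(6, []), (7, [[1], [2, 7]]), (8, [[2]]), (9, [[2, 2, 7]]), (10, [[2, 2, 2, 7, 7]]), (11, [])]) (by decide +kernel)
  simpa only [evW, R, evP_cons, evP_nil, evM_cons, evM_nil, List.map_cons, List.map_nil, wordG_cons, wordG_nil, mul_assoc, mul_one, add_zero, xG_zero, one_mul, P] using h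

lemma KF6 (t b c : F) : xG checks 6 t * xG checks 7 b * xG checks 8 c * xG checks 6 t = P 0 b (b * t + c) (b * (b * t)) (b * (b * (b * t))) (b * (b * (c * t))) := by
  have h := word_eq checks (R [0, b, c, 0, 0, 0, 0, t, 0, 0]) (tab := chevG2.commTerms) (fun _ _ _ _ => rfl) 12 (w₁ := [(6, [[7]]), (7, [[1]]), (8, [[2]]), (6, [[7]])]) (w₂ := [(6, []), (7, [[1]]), (8, [[1, 7], [2]]), (9, [[1, 1, 7]]), (10, [[1, 1, 1, 7]]), (11, [[1, 1, 2, 7]])]) (by decide +kernel)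
  simpa only [evW, R, evP_cons, evP_nil, evM_cons, evM_nil, List.map_cons, List.map_nil, wordG_cons, wordG_nil, mul_assoc, mul_one, add_zero, xG_zero, one_mul, P] using h

lemma KF8 (t b c : F) : xG checks 8 t * xG checks 7 b * xG checks 8 c = P 0 b (c + t) 0 (b * (b * t)) (b * (t * t)) := by
  have h := word_eq checks (R [0, b, c, 0, 0, 0, 0, t, 0, 0]) (tab := chevG2.commTerms) (fun _ _ _ _ => rfl) 10 (w₁ := [(8, [[7]]), (7, [[1]]), (8, [[2]])]) (w₂ := [(6, []), (7, [[1]]), (8, [[2], [7]]), (9, []), (10, [[1, 1, 7]]), (11, [[1, 7, 7]])]) (by decide +kernel)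
  simpa only [evW, R, evP_cons, evP_nil, evM_cons, evM_nil, List.map_cons, List.map_nil, wordG_cons, wordG_nil, mul_assoc, mul_one, add_zero, xG_zero, one_mul, P] using h

lemma KF9 (t b c : F) : xG checks 9 t * xG checks 7 b * xG checks 8 c = P 0 b c t (b * t) (c * t) := by
  have h := word_eq checks (R [0, b, c, 0, 0, 0, 0, t, 0, 0]) (tab := chevG2.commTerms) (fun _ _ _ _ => rfl) 9 (w₁ := [(9, [[7]]), (7, [[1]]), (8, [[2]])]) (w₂ := [(6, []), (7, [[1]]), (8, [[2]]), (9, [[7]]), (10, [[1, 7]]), (11, [[2, 7]])]) (by decide +kernel)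
  simpa only [evW, R, evP_cons, evP_nil, evM_cons, evM_nil, List.map_cons, List.map_nil, wordG_cons, wordG_nil, mul_assoc, mul_one, add_zero, xG_zero, one_mul, P] using h

lemma KF10 (t b c : F) : xG checks 10 t * xG checks 7 b * xG checks 8 c = P 0 b c 0 t 0 := by
  have h := word_eq checks (R [0, b, c, 0, 0, 0, 0, t, 0, 0]) (tab := chevG2.commTerms) (fun _ _ _ _ => rfl) 9 (w₁ := [(10, [[7]]), (7, [[1]]), (8, [[2]])]) (w₂ := [(6, []), (7, [[1]]), (8, [[2]]), (9, []), (10, [[7]]), (11, [])]) (by decide +kernel)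
  simpa only [evW, R, evP_cons, evP_nil, evM_cons, evM_nil, List.map_cons, List.map_nil, wordG_cons, wordG_nil, mul_assoc, mul_one, add_zero, xG_zero, one_mul, P] using h

lemma KF11 (t b c : F) : xG checks 11 t * xG checks 7 b * xG checks 8 c = P 0 b c 0 0 t := by
  have h := word_eq checks (R [0, b, c, 0, 0, 0, 0, t, 0, 0]) (tab := chevG2.commTerms) (fun _ _ _ _ => rfl) 9 (w₁ := [(11, [[7]]), (7, [[1]]), (8, [[2]])]) (w₂ := [(6, []), (7, [[1]]), (8, [[2]]), (9, []), (10, []), (11, [[7]])]) (by decide +kernel)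
  simpa only [evW, R, evP_cons, evP_nil, evM_cons, evM_nil, List.map_cons, List.map_nil, wordG_cons, wordG_nil, mul_assoc, mul_one, add_zero, xG_zero, one_mul, P] using h

lemma KF7 (t b c : F) : xG checks 7 t * xG checks 7 b * xG checks 8 c = P 0 (b + t) c 0 0 0 := by
  have h := word_eq checks (R [0, b, c, 0, 0, 0, 0, t, 0, 0]) (tab := chevG2.commTerms) (fun _ _ _ _ => rfl) 9 (w₁ := [(7, [[7]]), (7, [[1]]), (8, [[2]])]) (w₂ := [(6, []), (7, [[1], [7]]), (8, [[2]]), (9, []), (10, []), (11, [])]) (by decide +kernel)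
  simpa only [evW, R, evP_cons, evP_nil, evM_cons, evM_nil, List.map_cons, List.map_nil, wordG_cons, wordG_nil, mul_assoc, mul_one, add_zero, xG_zero, one_mul, P] using h

lemma U1v (a b c d s u v : F) : P a b c d s u * xG checks 9 v * xG checks 11 u * xG checks 10 s * xG checks 9 d * xG checks 8 c * xG checks 7 b * xG checks 6 a = P 0 0 0 v (b * v) (a * (b * v) + c * v) := by
  have h := word_eq checks (R [a, b, c, d, s, u, v, 0, 0, 0]) (tab := chevG2.commTerms) (fun _ _ _ _ => rfl) 23 (w₁ := [(6, [[0]]), (7, [[1]]), (8, [[2]]), (9, [[3]]), (10, [[4]]), (11, [[5]]), (9, [[6]]), (11, [[5]]), (10, [[4]]), (9, [[3]]), (8, [[2]]), (7, [[1]]), (6, [[0]])]) (w₂ := [(6, []), (7, []), (8, []), (9, [[6]]), (10, [[1, 6]]), (11, [[0, 1, 6], [2, 6]])]) (by decide +kernel)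
  simpa only [evW, R, evP_cons, evP_nil, evM_cons, evM_nil, List.map_cons, List.map_nil, wordG_cons, wordG_nil, mul_assoc, mul_one, add_zero, xG_zero, one_mul, P] using h

lemma V1 (b c : F) : xG checks 7 b * xG checks 8 c * xG checks 9 1 * xG checks 8 c * xG checks 7 b = P 0 0 0 1 b c := by
  have h := word_eq checks (R [0, b, c, 0, 0, 0, 0, 0, 0, 0]) (tab := chevG2.commTerms) (fun _ _ _ _ => rfl) 13 (w₁ := [(7, [[1]]), (8, [[2]]), (9, [[]]), (8, [[2]]), (7, [[1]])]) (w₂ := [(6, []), (7, []), (8, []), (9, [[]]), (10, [[1]]), (11, [[2]])]) (by decide +kernel)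
  simpa only [evW, R, evP_cons, evP_nil, evM_cons, evM_nil, List.map_cons, List.map_nil, wordG_cons, wordG_nil, mul_assoc, mul_one, add_zero, xG_zero, one_mul, P] using h

lemma Padd (v b c b2 c2 : F) : P 0 0 0 v b c * P 0 0 0 0 b2 c2 = P 0 0 0 v (b + b2) (c + c2) := by
  have h := word_eq checks (R [0, b, c, 0, 0, 0, v, 0, b2, c2]) (tab := chevG2.commTerms) (fun _ _ _ _ => rfl) 15 (w₁ := [(6, []), (7, []), (8, []), (9, [[6]]), (10, [[1]]), (11, [[2]]), (6, []), (7, []), (8, []), (9, []), (10, [[8]]), (11, [[9]])]) (w₂ := [(6, []), (7, []), (8, []), (9, [[6]]), (10, [[1], [8]]), (11, [[2], [9]])]) (by decide +kernel)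
  simpa only [evW, R, evP_cons, evP_nil, evM_cons, evM_nil, List.map_cons, List.map_nil, wordG_cons, wordG_nil, mul_assoc, mul_one, add_zero, xG_zero, one_mul, P] using h

/-- table data for the root `9` -/
theorem cd9 : CentData chevG2 TG2.T TG2.U 9 0 8 lenc where
  hr := by decide +kernel
  hr0 := by decide +kernel
  hi := by decide +kernel
  hw := by decide +kernel
  htop := by
    intro c hc h
    rw [← evC_eq, ← evC_eq]
    revert c
    decide +kernel
  hr' := by decide +kernel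
  hlr' := by decide +kernel
  hcof := by decide +kernel
  hfix := by decide +kernel
  hcar := by decide +kernel
  hcari := by decide +kernel
  xinj := by decide +kernel

/-- the target centralizer -/
noncomputable def Z9 (F : Type*) [Field F] : Subgroup (GL chevG2.Idx F) :=
  chevG2.rootSubgroup F 9 ⊔ chevG2.rootSubgroup F 10 ⊔ chevG2.rootSubgroup F 11 ⊔ chevG2.rootSubgroup F 6 ⊔ chevG2.rootSubgroup F 5

omit [CharP F 2] in
lemma Z9_mem {r : ℕ} (hr : r ∈ [9, 10, 11, 6, 5]) (t : F) : xG checks r t ∈ Z9 F := by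
  have key : ∀ s : ℕ, xG checks s t ∈ chevG2.rootSubgroup F s := fun s => (mem_rootSubgroup checks).mpr ⟨t, rfl⟩
  unfold Z9
  simp only [List.mem_cons, List.not_mem_nil, or_false] at hr
  rcases hr with rfl | rfl | rfl | rfl | rfl
  · exact Subgroup.mem_sup_left (Subgroup.mem_sup_left (Subgroup.mem_sup_left (Subgroup.mem_sup_left (key _))))
  · exact Subgroup.mem_sup_left (Subgroup.mem_sup_left (Subgroup.mem_sup_left (Subgroup.mem_sup_right (key _))))
  · exact Subgroup.mem_sup_left (Subgroup.mem_sup_left (Subgroup.mem_sup_right (key _)))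
  · exact Subgroup.mem_sup_left (Subgroup.mem_sup_right (key _))
  · exact Subgroup.mem_sup_right (key _)

/-- the subgroup containing everything that occurs -/
noncomputable def KK (F : Type*) [Field F] : Subgroup (GL chevG2.Idx F) :=
  Subgroup.closure {g | ∃ (r : ℕ) (t : F), r ∈ [5, 6, 7, 8, 9, 10, 11] ∧ g = xG checks r t}

omit [CharP F 2] in
lemma KK_mem {r : ℕ} (hr : r ∈ [5, 6, 7, 8, 9, 10, 11]) (t : F) : xG checks r t ∈ KK F :=
  Subgroup.subset_closure ⟨r, t, hr, rfl⟩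

omit [CharP F 2] in
lemma root_le_KK {r : ℕ} (hr : r ∈ [5, 6, 7, 8, 9, 10, 11]) : chevG2.rootSubgroup F r ≤ KK F := by
  intro g hg
  obtain ⟨t, rfl⟩ := (mem_rootSubgroup checks).mp hg
  exact KK_mem hr t

omit [CharP F 2] in
lemma Z9_le_KK : Z9 F ≤ KK F :=
  sup_le (sup_le (sup_le (sup_le (root_le_KK (by simp)) (root_le_KK (by simp))) (root_le_KK (by simp))) (root_le_KK (by simp))) (root_le_KK (by simp))

omit [CharP F 2] in
lemma U_le_KK : chevG2.posUnipotent F ≤ KK F := by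
  intro g hg
  obtain ⟨a, b, c, d, e, f, rfl⟩ := exists_P hg
  unfold P
  simp only [wordG_cons, wordG_nil, mul_one]
  exact mul_mem (KK_mem (by simp) _) (mul_mem (KK_mem (by simp) _) (mul_mem (KK_mem (by simp) _) (mul_mem (KK_mem (by simp) _) (mul_mem (KK_mem (by simp) _) (KK_mem (by simp) _)))))

omit [CharP F 2] in
lemma P_split (b c d e f : F) : P 0 b c d e f = xG checks 7 b * xG checks 8 c * (xG checks 9 d * xG checks 10 e * xG checks 11 f) := by
  simp only [P, wordG_cons, wordG_nil, mul_one, xG_zero, one_mul, mul_assoc]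

omit [CharP F 2] in
lemma P_tail (d e f : F) : xG checks 9 d * xG checks 10 e * xG checks 11 f ∈ Z9 F :=
  mul_mem (mul_mem (Z9_mem (by simp) _) (Z9_mem (by simp) _)) (Z9_mem (by simp) _)

/-- the shape of the elements of `KK` -/
def Shp (κ : GL chevG2.Idx F) : Prop := ∃ (β c : F), ∃ z ∈ Z9 F, κ = xG checks 7 β * xG checks 8 c * z

lemma Shp_step {r : ℕ} (hr : r ∈ [5, 6, 7, 8, 9, 10, 11]) (t : F) {κ : GL chevG2.Idx F} (h : Shp κ) : Shp (xG checks r t * κ) := by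
  obtain ⟨β, c, z, hz, rfl⟩ := h
  have aux : ∀ {w : GL chevG2.Idx F}, w ∈ Z9 F → ∀ {b' c' d' e' f' : F}, xG checks r t * xG checks 7 β * xG checks 8 c * w = P 0 b' c' d' e' f' →
      Shp (xG checks r t * (xG checks 7 β * xG checks 8 c * z)) := by
    intro w hw b' c' d' e' f' e
    refine ⟨b', c', (xG checks 9 d' * xG checks 10 e' * xG checks 11 f') * (w⁻¹ * z), mul_mem (P_tail _ _ _) (mul_mem (inv_mem hw) hz), ?_⟩
    have e2 := e
    rw [P_split] at e2
    calc xG checks r t * (xG checks 7 β * xG checks 8 c * z) = (xG checks r t * xG checks 7 β * xG checks 8 c * w) * (w⁻¹ * z) := by group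
      _ = _ := by rw [e2]; group
  simp only [List.mem_cons, List.not_mem_nil, or_false] at hr
  rcases hr with rfl | rfl | rfl | rfl | rfl | rfl | rfl
  · exact aux (Z9_mem (by simp) t) (KF5 t β c)
  · exact aux (Z9_mem (by simp) t) (KF6 t β c)
  · exact aux (one_mem _) (by rw [mul_one]; exact KF7 t β c)
  · exact aux (one_mem _) (by rw [mul_one]; exact KF8 t β c)
  · exact aux (one_mem _) (by rw [mul_one]; exact KF9 t β c)
  · exact aux (one_mem _) (by rw [mul_one]; exact KF10 t β c)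
  · exact aux (one_mem _) (by rw [mul_one]; exact KF11 t β c)

lemma KK_factor {κ : GL chevG2.Idx F} (h : κ ∈ KK F) : Shp κ := by
  unfold KK at h
  induction h using Subgroup.closure_induction_left with
  | one => exact ⟨0, 0, 1, one_mem _, by simp [xG_zero]⟩
  | mul_left x hx y hy ih =>
    obtain ⟨r, t, hr, rfl⟩ := hx
    exact Shp_step hr t ih
  | inv_mul_cancel x hx y hy ih =>
    obtain ⟨r, t, hr, rfl⟩ := hx
    rw [xG_inv2]
    exact Shp_step hr t ih

/-- the grading argument -/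
lemma grade_key {ℓ : ℕ → ℤ} (hg : Graded chevG2 TG2.T ℓ) {n : GL chevG2.Idx F} {π π' : ℕ → ℕ} {d : ℕ → Fˣ} (ha : NAct checks n π π' d)
    {β γ v β₁ γ₁ : F} (hM : n * P 0 0 0 1 β γ * n⁻¹ = P 0 0 0 v β₁ γ₁)
    (h1 : 0 < ℓ (π 9)) (h9 : ℓ 9 ≤ 0) (h10 : ℓ 10 ≤ 0) (h11 : ℓ 11 ≤ 0) : False := by
  have hg' := hg.neg
  have conjP : ∀ s b c : F, n * P 0 0 0 s b c * n⁻¹ = xG checks (π 9) (d 9 * s) * xG checks (π 10) (d 10 * b) * xG checks (π 11) (d 11 * c) := by
    intro s b c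
    have e1 := ha.conj 9 (by decide +kernel) s
    have e2 := ha.conj 10 (by decide +kernel) b
    have e3 := ha.conj 11 (by decide +kernel) c
    rw [← e1, ← e2, ← e3]
    simp only [P, wordG_cons, wordG_nil, xG_zero, one_mul, mul_one]
    group
  have hl := fun s (hs : s < 12) => ha.lt s hs
  have hMB : P (0 : F) 0 0 v β₁ γ₁ ∈ BorL chevG2 (fun c => - ℓ c) F := by
    have e : P (0 : F) 0 0 v β₁ γ₁ = xG checks 9 v * xG checks 10 β₁ * xG checks 11 γ₁ := by
      simp only [P, wordG_cons, wordG_nil, xG_zero, one_mul, mul_one, mul_assoc]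
    rw [e]
    exact mul_mem (mul_mem (xG_mem_BorL checks hg' (by decide +kernel) (by omega) _) (xG_mem_BorL checks hg' (by decide +kernel) (by omega) _)) (xG_mem_BorL checks hg' (by decide +kernel) (by omega) _)
  obtain ⟨b1, b2, hb, hb1, hb2⟩ : ∃ b1 b2 : F, b1 + b2 = β ∧ (0 < ℓ (π 10) ∨ b1 = 0) ∧ (ℓ (π 10) ≤ 0 ∨ b2 = 0) := by
    by_cases hh : 0 < ℓ (π 10)
    · exact ⟨β, 0, add_zero _, Or.inl hh, Or.inr rfl⟩
    · exact ⟨0, β, zero_add _, Or.inr rfl, Or.inl (by omega)⟩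
  obtain ⟨c1, c2, hc, hc1, hc2⟩ : ∃ c1 c2 : F, c1 + c2 = γ ∧ (0 < ℓ (π 11) ∨ c1 = 0) ∧ (ℓ (π 11) ≤ 0 ∨ c2 = 0) := by
    by_cases hh : 0 < ℓ (π 11)
    · exact ⟨γ, 0, add_zero _, Or.inl hh, Or.inr rfl⟩
    · exact ⟨0, γ, zero_add _, Or.inr rfl, Or.inl (by omega)⟩
  have hU : n * P 0 0 0 1 b1 c1 * n⁻¹ ∈ UniL chevG2 ℓ F := by
    rw [conjP]
    refine mul_mem (mul_mem (xG_mem_UniL checks hg (hl _ (by omega)) h1 _) ?_) ?_
    · rcases hb1 with h | h
      · exact xG_mem_UniL checks hg (hl _ (by omega)) h _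
      · rw [h, mul_zero, xG_zero]
        exact one_mem _
    · rcases hc1 with h | h
      · exact xG_mem_UniL checks hg (hl _ (by omega)) h _
      · rw [h, mul_zero, xG_zero]
        exact one_mem _
  have hB : n * P 0 0 0 0 b2 c2 * n⁻¹ ∈ BorL chevG2 (fun c => - ℓ c) F := by
    rw [conjP, mul_zero, xG_zero, one_mul]
    refine mul_mem ?_ ?_
    · rcases hb2 with h | h
      · exact xG_mem_BorL checks hg' (hl _ (by omega)) (by simpa using h) _
      · rw [h, mul_zero, xG_zero]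
        exact one_mem _
    · rcases hc2 with h | h
      · exact xG_mem_BorL checks hg' (hl _ (by omega)) (by simpa using h) _
      · rw [h, mul_zero, xG_zero]
        exact one_mem _
  have hsplit : P 0 0 0 1 β γ = P (0 : F) 0 0 1 b1 c1 * P 0 0 0 0 b2 c2 := by
    have := Padd (1 : F) b1 c1 b2 c2
    rw [hb, hc] at this
    exact this.symm
  have hE : n * P 0 0 0 1 b1 c1 * n⁻¹ ∈ BorL chevG2 (fun c => - ℓ c) F := by
    have e : n * P 0 0 0 1 b1 c1 * n⁻¹ = (n * P 0 0 0 1 β γ * n⁻¹) * (n * P 0 0 0 0 b2 c2 * n⁻¹)⁻¹ := by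
      rw [hsplit]
      group
    rw [e, hM]
    exact mul_mem hMB (inv_mem hB)
  have h2 := eq_one_of_Uni_Bor (ℓ := ℓ) (ℓ' := fun c => - ℓ c) (fun _ => rfl) hU hE
  have h3 : P (0 : F) 0 0 1 b1 c1 = 1 := by
    have : P (0 : F) 0 0 1 b1 c1 = n⁻¹ * (n * P 0 0 0 1 b1 c1 * n⁻¹) * n := by group
    rw [this, h2]
    group
  rw [← P_one] at h3
  exact one_ne_zero (P_inj h3).2.2.2.1

theorem lenc_short : ∀ s, s < 12 → lenc s = lenc 9 → s ≠ 9 → s = 7 ∨ s = 8 ∨ s = 4 ∨ s = 3 ∨ s = 2 := by decide +kernel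

theorem gr1 : evC TG2.U chevG2.rank (R [1, -3]) 7 = 1 ∧ evC TG2.U chevG2.rank (R [1, -3]) 9 ≤ 0 ∧ evC TG2.U chevG2.rank (R [1, -3]) 10 ≤ 0 ∧ evC TG2.U chevG2.rank (R [1, -3]) 11 ≤ 0 := by decide +kernel
theorem gr2 : 0 < evC TG2.U chevG2.rank (R [-2, 3]) 8 ∧ evC TG2.U chevG2.rank (R [-2, 3]) 9 ≤ 0 ∧ evC TG2.U chevG2.rank (R [-2, 3]) 10 ≤ 0 ∧ evC TG2.U chevG2.rank (R [-2, 3]) 11 ≤ 0 := by decide +kernel
theorem gr3 : 0 < evC TG2.U chevG2.rank (R [-1, 0]) 4 ∧ 0 < evC TG2.U chevG2.rank (R [-1, 0]) 3 ∧ 0 < evC TG2.U chevG2.rank (R [-1, 0]) 2 ∧ evC TG2.U chevG2.rank (R [-1, 0]) 9 ≤ 0 ∧ evC TG2.U chevG2.rank (R [-1, 0]) 10 ≤ 0 ∧ evC TG2.U chevG2.rank (R [-1, 0]) 11 ≤ 0 := by decide +kernel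

/-- a monomial element keeping the shape fixes the root `9` -/
theorem fix9 {n : GL chevG2.Idx F} {π π' : ℕ → ℕ} {d : ℕ → Fˣ} (ha : NAct checks n π π' d)
    {β γ v β₁ γ₁ : F} (hM : n * P 0 0 0 1 β γ * n⁻¹ = P 0 0 0 v β₁ γ₁) (hlen : lenc (π 9) = lenc 9) : π 9 = 9 := by
  by_contra hne
  have hlt : π 9 < 12 := ha.lt 9 (by decide +kernel)
  have G := fun v : ℕ → ℤ => ellOf_graded (D := chevG2) (T := TG2.T) (U := TG2.U) checks3 v
  have E := fun (v : ℕ → ℤ) (c : ℕ) => (evC_eq (U := TG2.U) (D := chevG2) v c)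
  rcases lenc_short _ hlt hlen hne with h | h | h | h | h
  · obtain ⟨a1, a2, a3, a4⟩ := gr1
    refine grade_key (G (R [1, -3])) ha hM ?_ ?_ ?_ ?_
    · rw [h, ← E, a1]; decide
    · rw [← E]; exact a2
    · rw [← E]; exact a3
    · rw [← E]; exact a4
  · obtain ⟨a1, a2, a3, a4⟩ := gr2
    refine grade_key (G (R [-2, 3])) ha hM ?_ ?_ ?_ ?_
    · rw [h, ← E]; exact a1
    · rw [← E]; exact a2
    · rw [← E]; exact a3
    · rw [← E]; exact a4
  all_goals
    obtain ⟨a0, a1, a1', a2, a3, a4⟩ := gr3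
    refine grade_key (G (R [-1, 0])) ha hM ?_ ?_ ?_ ?_
    · rw [h, ← E]; assumption
    · rw [← E]; exact a2
    · rw [← E]; exact a3
    · rw [← E]; exact a4

theorem t9comm : ∀ s ∈ [10, 11, 6, 5], s < chevG2.nroots ∧ s ≠ 9 ∧ s ≠ negF chevG2 9 ∧ chevG2.commTerms 9 s = [] := by decide +kernel

theorem cent9 : chevG2.group F ⊓ Subgroup.centralizer {xG checks 9 (1 : F)} = Z9 F := by
  have hr9 : 9 < chevG2.nroots := by decide +kernel
  have hZ3 : Z9 F ≤ chevG2.group F ⊓ Subgroup.centralizer {xG checks 9 (1 : F)} := by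
    have hc : ∀ s ∈ [10, 11, 6, 5], chevG2.rootSubgroup F s ≤ chevG2.group F ⊓ Subgroup.centralizer {xG checks 9 (1 : F)} := by
      intro s hs
      obtain ⟨h1, h2, h3, h4⟩ := t9comm s hs
      exact root_le_cent checks h1 (fun t => comm_of_terms checks hr9 h1 h2 h3 h4 1 t)
    have h9 : chevG2.rootSubgroup F 9 ≤ chevG2.group F ⊓ Subgroup.centralizer {xG checks 9 (1 : F)} :=
      root_le_cent checks hr9 (fun t => (xG_comm_self checks _ _ _).symm)
    exact sup_le (sup_le (sup_le (sup_le h9 (hc 10 (by simp))) (hc 11 (by simp))) (hc 6 (by simp))) (hc 5 (by simp))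
  refine le_antisymm ?_ hZ3
  have hZn : ∀ i, i < chevG2.rank → i ≠ 0 → ∀ t : F, nG checks (chevG2.simple i) t ∈ Z9 F := by
    intro i hi e t
    have hi1 : i = 1 := by
      have : i < 2 := hi
      omega
    subst hi1
    have e1 : chevG2.simple 1 = 6 := by decide +kernel
    unfold nG Cfsg.Lie.ChevalleyDatum.nWord
    simp only [wordG_cons, wordG_nil, mul_one]
    rw [show chevG2.neg (chevG2.simple 1) = negF chevG2 (chevG2.simple 1) from checks.neg _ (checks.simple_lt 1 hi), e1,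
      show negF chevG2 6 = 5 by decide +kernel]
    exact mul_mem (Z9_mem (by simp) _) (mul_mem (Z9_mem (by simp) _) (Z9_mem (by simp) _))
  have hcomm : ∀ x : GL chevG2.Idx F, x ∈ Subgroup.centralizer {xG checks 9 (1 : F)} → x * xG checks 9 1 * x⁻¹ = xG checks 9 1 := by
    intro x hx
    rw [Subgroup.mem_centralizer_iff] at hx
    rw [← hx _ rfl]
    group
  have ezt : xG checks 9 (1 : F) = P 0 0 0 1 0 0 := by
    simp only [P, wordG_cons, wordG_nil, xG_zero, one_mul, mul_one]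
  have U1' : ∀ (a b c d s u v : F), P a b c d s u * xG checks 9 v * (P a b c d s u)⁻¹ = P 0 0 0 v (b * v) (a * (b * v) + c * v) := by
    intro a b c d s u v
    rw [← U1v a b c d s u v]
    have e4 : (P a b c d s u)⁻¹ = xG checks 11 u * xG checks 10 s * xG checks 9 d * xG checks 8 c * xG checks 7 b * xG checks 6 a := by
      simp [P, mul_inv_rev, xG_inv2, mul_assoc]
    rw [e4]
    simp only [mul_assoc]
  rintro g ⟨hg, hgc⟩
  obtain ⟨b, hb, n, hn, π₀, π₀', d₀, ha₀, u, hu, rfl⟩ := bruhat_exists checks checks2 checks3 hg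
  have huU : u ∈ chevG2.posUnipotent F := by
    rw [pos_eq_RS checks]
    refine (Subgroup.closure_mono ?_) hu
    rintro _ ⟨s, t, h1, h2, rfl⟩
    exact ⟨s, t, h1, (checks2.pos_iff s).mpr ⟨h2.1, h1⟩, rfl⟩
  obtain ⟨w, hw, π, π', d, ha, hπ⟩ := monomial_le_NW checks checks3 hn
  have h1 := hcomm _ hgc
  -- the conjugate of `t` by `u`
  obtain ⟨a, β, c, d1, s1, u1, rfl⟩ := exists_P huU
  have hy := U1' a β c d1 s1 u1 1
  simp only [mul_one] at hy
  -- the conjugate of `t` by `b⁻¹`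
  obtain ⟨u₁, hu₁, k, hk, e₁⟩ := (mem_borel_iff checks checks2 checks3).mp (inv_mem hb)
  rw [diagonal_eq checks checks3] at hk
  obtain ⟨c₁, rfl⟩ := mem_HT.mp hk
  obtain ⟨a', β', c', d', s', u', rfl⟩ := exists_P hu₁
  have hk9 := (NAct_torus (F := F) checks checks3 (capply chevG2 c₁)).conj 9 hr9 1
  have hk9' : hProd TG2.U chevG2 c₁ * xG checks 9 1 * (hProd TG2.U chevG2 c₁)⁻¹ = xG checks 9 ((tv TG2.U chevG2 (capply chevG2 c₁) 9 : F) * 1) := hk9
  have hM : n * P 0 0 0 1 β (a * β + c) * n⁻¹ = P (0 : F) 0 0 ((tv TG2.U chevG2 (capply chevG2 c₁) 9 : F) * 1) (β' * ((tv TG2.U chevG2 (capply chevG2 c₁) 9 : F) * 1)) (a' * (β' * ((tv TG2.U chevG2 (capply chevG2 c₁) 9 : F) * 1)) + c' * ((tv TG2.U chevG2 (capply chevG2 c₁) 9 : F) * 1)) := by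
    rw [← U1' a' β' c' d' s' u' _, ← hk9']
    have e2 : n * P 0 0 0 1 β (a * β + c) * n⁻¹ = b⁻¹ * (b * n * P a β c d1 s1 u1 * xG checks 9 1 * (b * n * P a β c d1 s1 u1)⁻¹) * (b⁻¹)⁻¹ := by
      have : b * n * P a β c d1 s1 u1 * xG checks 9 1 * (b * n * P a β c d1 s1 u1)⁻¹ = b * (n * (P a β c d1 s1 u1 * xG checks 9 1 * (P a β c d1 s1 u1)⁻¹) * n⁻¹) * b⁻¹ := by group
      rw [this, hy]
      group
    rw [e2, h1, e₁]
    group
  have hlen : lenc (π 9) = lenc 9 := by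
    have := lenc_W checks cd9 hw ⟨9, hr9⟩
    rw [← this, hπ ⟨9, hr9⟩]
  have hfix := fix9 ha hM hlen
  obtain ⟨h, hh, z, hz, rfl⟩ := N_factor checks checks2 checks3 cd9 (Z := Z9 F) (fun i hi e => hZn i hi e 1) _ w hw rfl n hn π π' d ha hπ hfix
  have hzc := (hZ3 hz).2
  -- `b * h = k * u₄`
  have hbh : (b * h)⁻¹ ∈ chevG2.borelSubgroup F := inv_mem (mul_mem hb (H_le_B hh))
  obtain ⟨u₃, hu₃, k₃, hk₃, e₃⟩ := (mem_borel_iff checks checks2 checks3).mp hbh
  have hk₃' : k₃⁻¹ ∈ chevG2.diagonalSubgroup F := inv_mem hk₃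
  rw [diagonal_eq checks checks3] at hk₃'
  obtain ⟨c₂, e₄⟩ := mem_HT.mp hk₃'
  have e₅ : b * h = hProd TG2.U chevG2 c₂ * u₃⁻¹ := by
    rw [← e₄, ← mul_inv_rev, ← e₃, inv_inv]
  -- everything else lies in `KK`
  have hκ : u₃⁻¹ * z * P a β c d1 s1 u1 ∈ KK F :=
    mul_mem (mul_mem (inv_mem (U_le_KK hu₃)) (Z9_le_KK hz)) (U_le_KK huU)
  obtain ⟨β₂, c₃, z₀, hz₀, e₆⟩ := KK_factor hκ
  have e₇ : b * (h * z) * P a β c d1 s1 u1 = hProd TG2.U chevG2 c₂ * (xG checks 7 β₂ * xG checks 8 c₃) * z₀ := by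
    calc b * (h * z) * P a β c d1 s1 u1 = (b * h) * z * P a β c d1 s1 u1 := by group
      _ = hProd TG2.U chevG2 c₂ * (u₃⁻¹ * z * P a β c d1 s1 u1) := by rw [e₅]; group
      _ = _ := by rw [e₆]; group
  rw [e₇] at h1 ⊢
  have hz₀c := hcomm _ (hZ3 hz₀).2
  -- the torus acts
  have h2 : (hProd TG2.U chevG2 c₂ * (xG checks 7 β₂ * xG checks 8 c₃)) * xG checks 9 1 * (hProd TG2.U chevG2 c₂ * (xG checks 7 β₂ * xG checks 8 c₃))⁻¹ = xG checks 9 1 := by
    have e : hProd TG2.U chevG2 c₂ * (xG checks 7 β₂ * xG checks 8 c₃) * z₀ * xG checks 9 1 * (hProd TG2.U chevG2 c₂ * (xG checks 7 β₂ * xG checks 8 c₃) * z₀)⁻¹ =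
        (hProd TG2.U chevG2 c₂ * (xG checks 7 β₂ * xG checks 8 c₃)) * (z₀ * xG checks 9 1 * z₀⁻¹) * (hProd TG2.U chevG2 c₂ * (xG checks 7 β₂ * xG checks 8 c₃))⁻¹ := by group
    rw [e, hz₀c] at h1
    exact h1
  have h3 : (xG checks 7 β₂ * xG checks 8 c₃) * xG checks 9 1 * (xG checks 7 β₂ * xG checks 8 c₃)⁻¹ = P 0 0 0 1 β₂ c₃ := by
    rw [← V1 β₂ c₃]
    simp only [mul_inv_rev, xG_inv2, mul_assoc]
  have hT := NAct_torus (F := F) checks checks3 (capply chevG2 c₂)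
  have h4 : hProd TG2.U chevG2 c₂ * P 0 0 0 1 β₂ c₃ * (hProd TG2.U chevG2 c₂)⁻¹ = P (0 : F) 0 0 ((tv TG2.U chevG2 (capply chevG2 c₂) 9 : F) * 1) ((tv TG2.U chevG2 (capply chevG2 c₂) 10 : F) * β₂) ((tv TG2.U chevG2 (capply chevG2 c₂) 11 : F) * c₃) := by
    have e1 : hProd TG2.U chevG2 c₂ * xG checks 9 1 * (hProd TG2.U chevG2 c₂)⁻¹ = xG checks 9 ((tv TG2.U chevG2 (capply chevG2 c₂) 9 : F) * 1) := hT.conj 9 hr9 1
    have e2 : hProd TG2.U chevG2 c₂ * xG checks 10 β₂ * (hProd TG2.U chevG2 c₂)⁻¹ = xG checks 10 ((tv TG2.U chevG2 (capply chevG2 c₂) 10 : F) * β₂) := hT.conj 10 (by decide +kernel) β₂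
    have e3 : hProd TG2.U chevG2 c₂ * xG checks 11 c₃ * (hProd TG2.U chevG2 c₂)⁻¹ = xG checks 11 ((tv TG2.U chevG2 (capply chevG2 c₂) 11 : F) * c₃) := hT.conj 11 (by decide +kernel) c₃
    have eA : ∀ x y z : F, P (0 : F) 0 0 x y z = xG checks 9 x * xG checks 10 y * xG checks 11 z := by
      intro x y z
      simp only [P, wordG_cons, wordG_nil, xG_zero, one_mul, mul_one, mul_assoc]
    rw [eA, eA, ← e1, ← e2, ← e3]
    group
  have h5 : P (0 : F) 0 0 ((tv TG2.U chevG2 (capply chevG2 c₂) 9 : F) * 1) ((tv TG2.U chevG2 (capply chevG2 c₂) 10 : F) * β₂) ((tv TG2.U chevG2 (capply chevG2 c₂) 11 : F) * c₃) = P (0 : F) 0 0 1 0 0 := by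
    rw [← h4, ← h3, ← ezt]
    have : hProd TG2.U chevG2 c₂ * (xG checks 7 β₂ * xG checks 8 c₃ * xG checks 9 1 * (xG checks 7 β₂ * xG checks 8 c₃)⁻¹) * (hProd TG2.U chevG2 c₂)⁻¹ = (hProd TG2.U chevG2 c₂ * (xG checks 7 β₂ * xG checks 8 c₃)) * xG checks 9 1 * (hProd TG2.U chevG2 c₂ * (xG checks 7 β₂ * xG checks 8 c₃))⁻¹ := by group
    rw [this, h2]
  obtain ⟨-, -, -, p1, p2, p3⟩ := P_inj h5
  have hβ : β₂ = 0 := by
    have := (mul_eq_zero.mp p2).resolve_left (Units.ne_zero _)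
    exact this
  have hc₃ : c₃ = 0 := by
    have := (mul_eq_zero.mp p3).resolve_left (Units.ne_zero _)
    exact this
  have hstar : c₂ 0 = 1 := by
    rw [tv_capply_r checks3 cd9] at p1
    apply Units.ext
    rw [Units.val_one]
    simpa using p1
  have hkZ := hProd_mem checks checks3 cd9 (Z := Z9 F) hZn hstar
  rw [hβ, hc₃, xG_zero, xG_zero, one_mul, mul_one]
  exact mul_mem hkZ hz₀

end Cfsg.Agent.H04.Col.G2
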