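import Cfsg.Agent.Lib.H04.Col.Col
import Cfsg.Agent.Lib.H04.Long.Cent
import Cfsg.Agent.Lib.H04.Aut.Reduce
import Cfsg.Agent.Lib.H04.Aut.Pos
import Cfsg.Agent.Lib.H04.Chev.SylowU

/-!
# Generic tools for classifying involutions in characteristic two
-/

set_option autoImplicit false
set_option linter.style.longLine false
set_option linter.unusedSimpArgs false
set_option linter.unusedSectionVars false
set_option linter.unusedVariables false

open Cfsg.Lie Cfsg.Agent.H04.Chev Cfsg.Agent.H04.Long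

namespace Cfsg.Agent.H04.Col

/-- parameters of a word -/
def R {F : Type*} [Zero F] : List F → ℕ → F
  | [], _ => 0
  | a :: _, 0 => a
  | _ :: l, n + 1 => R l n

variable {D : ChevalleyDatum} {T : Tabs} {U : Tabs3}
variable (C : Checks D T) (C2 : Checks2 D T) (C3 : Checks3 D T U)
variable {F : Type*} [Field F]

section
variable [CharP F 2]

omit C2 C3 in
lemma xG_inv2 (r : ℕ) (t : F) : (xG C r t)⁻¹ = xG C r t := by
  rw [xG_inv, CharTwo.neg_eq]

omit C2 C3 in
lemma xG_sq2 (r : ℕ) (t : F) : xG C r t * xG C r t = 1 := by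
  rw [xG_add, CharTwo.add_self_eq_zero, xG_zero]

omit C2 C3 in
lemma nconj {i s : ℕ} (hi : i < D.rank) (hs : s < D.nroots) (t : F) :
    nG C (D.simple i) (1 : F) * xG C s t * (nG C (D.simple i) (1 : F))⁻¹ = xG C (T.w (D.simple i) s) t := by
  rw [(NAct_simple (F := F) C hi).conj s hs t]
  congr 1
  have : ((signU F (T.eta (D.simple i) s) : Fˣ) : F) = 1 := by
    cases T.eta (D.simple i) s <;> simp [signU, CharTwo.neg_eq]
  rw [this, one_mul]

omit C2 C3 in
lemma nconj_word {i : ℕ} (hi : i < D.rank) (w : List (ℕ × F)) (hw : ∀ p ∈ w, p.1 < D.nroots) :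
    nG C (D.simple i) (1 : F) * wordG C w * (nG C (D.simple i) (1 : F))⁻¹ = wordG C (w.map fun p => (T.w (D.simple i) p.1, p.2)) := by
  induction w with
  | nil => simp
  | cons p w ih =>
    rw [List.map_cons, wordG_cons, wordG_cons]
    simp only
    rw [← nconj C hi (hw p List.mem_cons_self), ← ih (fun q hq => hw q (List.mem_cons_of_mem _ hq))]
    group

end

/-- conjugacy in the group -/
def CJ (D : ChevalleyDatum) (g y : GL D.Idx F) : Prop := ∃ h ∈ D.group F, h * g * h⁻¹ = y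

omit [Field F] in
lemma CJ_refl [Field F] (g : GL D.Idx F) : CJ D g g := ⟨1, one_mem _, by simp⟩

lemma CJ_of {g y a : GL D.Idx F} (ha : a ∈ D.group F) (h : CJ D (a * g * a⁻¹) y) : CJ D g y := by
  obtain ⟨b, hb, e⟩ := h
  refine ⟨b * a, mul_mem hb ha, ?_⟩
  rw [← e]
  group

lemma CJ_x [CharP F 2] {g y : GL D.Idx F} {r : ℕ} (hr : r < D.nroots) (t : F) (h : CJ D (xG C r t * g * xG C r t) y) : CJ D g y := by
  apply CJ_of (xG_mem_group C hr t)
  rwa [xG_inv2]

include C in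
lemma hG_mem {r : ℕ} (hr : r < D.nroots) (c : F) : hG C r c ∈ D.group F := by
  rw [hG_eq]
  exact mul_mem (nG_mem_group C hr _) (nG_mem_group C hr _)

include C C3 in
/-- scaling with the torus -/
lemma CJ_torus {i s : ℕ} (hi : i < D.rank) (hs : s < D.nroots) (hc : D.cartan i s = 1) {t : F} (ht : t ≠ 0) :
    CJ D (xG C s t) (xG C s 1) := by
  refine ⟨hG C (D.simple i) t⁻¹, hG_mem C (C.simple_lt i hi) _, ?_⟩
  rw [AutT.hG_conj_x C C3 hi hs (inv_ne_zero ht) t, mul_inv_cancel_right, hc, zpow_one, inv_mul_cancel₀ ht]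

/-- an involution is conjugate into the positive unipotent subgroup -/
theorem conj_into_U [Fintype F] [CharP F 2] (hD : D ∈ [chevG2, chevB2, chevD4, chevF4, chevE6, chevE7, chevE8]) {g : GL D.Idx F}
    (hg : g ∈ D.group F) (ho : orderOf g = 2) : ∃ h ∈ D.group F, h * g * h⁻¹ ∈ D.posUnipotent F := by
  classical
  haveI : Fact (Nat.Prime 2) := ⟨Nat.prime_two⟩
  obtain ⟨P, hP⟩ := exists_sylow_U (F := F) 2 D hD
  let g' : ↥(D.group F) := ⟨g, hg⟩
  have hp : IsPGroup 2 (Subgroup.zpowers g') := by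
    apply IsPGroup.of_card (n := 1)
    rw [Nat.card_zpowers, Subgroup.orderOf_mk, ho, pow_one]
  obtain ⟨Q, hQ⟩ := hp.exists_le_sylow
  have hgQ : g' ∈ (Q : Subgroup ↥(D.group F)) := hQ (Subgroup.mem_zpowers g')
  obtain ⟨x, hx⟩ := MulAction.exists_smul_eq ↥(D.group F) Q P
  have h1 : x * g' * x⁻¹ ∈ (P : Subgroup ↥(D.group F)) := by
    rw [← hx, Sylow.coe_subgroup_smul]
    exact Subgroup.smul_mem_pointwise_smul _ (MulAut.conj x) _ hgQ
  rw [hP, Subgroup.mem_subgroupOf] at h1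
  exact ⟨x.1, x.2, h1⟩

include C C2 C3 in
/-- conjugates of an element into a root element central in `U` -/
theorem conj_top [Fintype F] {r : ℕ} (hr : r < D.nroots)
    (hU : ∀ s, D.nroots / 2 ≤ s → s < D.nroots → ∀ t a : F, xG C s t * xG C r a = xG C r a * xG C s t)
    {g h : GL D.Idx F} (hg : g ∈ D.posUnipotent F) (hh : h ∈ D.group F) (e : h * g * h⁻¹ = xG C r 1) :
    ∃ u ∈ D.posUnipotent F, ∃ r', D.nroots / 2 ≤ r' ∧ r' < D.nroots ∧ (∃ w ∈ WW C, ∃ (hr' : r' < D.nroots), ((w ⟨r', hr'⟩ : Fin D.nroots) : ℕ) = r) ∧ ∃ c : F, c ≠ 0 ∧ u * g * u⁻¹ = xG C r' c := by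
  obtain ⟨b, hb, n, hn, π₀, π₀', d₀, ha₀, u, hu, rfl⟩ := bruhat_exists C C2 C3 hh
  have huU : u ∈ D.posUnipotent F := by
    rw [pos_eq_RS C]
    refine (Subgroup.closure_mono ?_) hu
    rintro _ ⟨s, t, h1, h2, rfl⟩
    exact ⟨s, t, h1, (C2.pos_iff s).mpr ⟨h2.1, h1⟩, rfl⟩
  obtain ⟨w, hw, π, π', d, ha, hπ⟩ := monomial_le_NW C C3 hn
  obtain ⟨v, hv⟩ := borel_conj C C2 C3 hr hU (inv_mem hb) (1 : F)
  set r' := π' r with hr'
  have hr'lt : r' < D.nroots := ha.lt' r hr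
  have hπr : π r' = r := ha.right r hr
  set c : F := ((d r')⁻¹ : Fˣ) * ((v : F) * 1) with hc
  have hc0 : c ≠ 0 := by
    simp [hc]
  have h2 : n * xG C r' c * n⁻¹ = xG C r ((v : F) * 1) := by
    rw [ha.conj r' hr'lt c, hπr, hc]
    congr 1
    simp
  have h3 : n * (u * g * u⁻¹) * n⁻¹ = n * xG C r' c * n⁻¹ := by
    rw [h2, ← hv, ← e]
    group
  have h4 : u * g * u⁻¹ = xG C r' c := by
    have := mul_left_cancel (mul_right_cancel h3)
    exact this
  have hmem : u * g * u⁻¹ ∈ D.posUnipotent F := mul_mem (mul_mem huU hg) (inv_mem huU)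
  have hpos : D.nroots / 2 ≤ r' := by
    by_contra hneg
    push Not at hneg
    have h5 : xG C r' c ∈ D.negUnipotent F := xG_mem_neg C ((C2.neg_iff r').mpr hneg) c
    have h6 := AutT.U_inf_V C C2 C3 (h4 ▸ hmem) h5
    have h7 : xG C r' c = xG C r' 0 := by rw [h6, xG_zero]
    exact hc0 (Tf.xG_param_inj C C2 hr'lt h7)
  refine ⟨u, huU, r', hpos, hr'lt, ⟨w, hw, hr'lt, ?_⟩, c, hc0, h4⟩
  rw [hπ ⟨r', hr'lt⟩]
  exact hπr

end Cfsg.Agent.H04.Col
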